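import Mathlib
import Cfsg.Agent.Helper12.AMDefs

set_option autoImplicit false

namespace Cfsg.Agent.Helper84.AMDIV

open Cfsg.Agent.Helper12.AM

variable {α : Type*} [Fintype α] [DecidableEq α]

-- PIECE DIV
theorem dvd_card_filter (A : Subgroup (Equiv.Perm α)) (s : ℕ) :
    s ∣ (Finset.univ.filter (fun x => osz A x = s)).card := by
  classical
  rw [Finset.card_eq_sum_card_fiberwise
    (f := fun x => orb A x) (t := (Finset.univ.filter (fun x => osz A x = s)).image (orb A))
    (fun x hx => Finset.mem_image_of_mem _ hx)]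
  apply Finset.dvd_sum
  intro b hb
  obtain ⟨x₀, hx₀, rfl⟩ := Finset.mem_image.1 hb
  have hx₀s : osz A x₀ = s := (Finset.mem_filter.1 hx₀).2
  have hfib : (Finset.univ.filter (fun x => osz A x = s)).filter (fun x => orb A x = orb A x₀)
      = orb A x₀ := by
    ext x
    rw [Finset.mem_filter, Finset.mem_filter]
    constructor
    · rintro ⟨-, h⟩
      rw [← h]
      exact self_mem_orb A x
    · intro hx
      exact ⟨⟨Finset.mem_univ _, by rw [osz_eq_of_mem A x₀ x hx, hx₀s]⟩,
        orb_eq_of_mem A x₀ x hx⟩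
  rw [hfib]
  have : (orb A x₀).card = s := hx₀s
  rw [this]

end Cfsg.Agent.Helper84.AMDIV
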