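import Mathlib
import Cfsg.Agent.Helper12.AMDefs

set_option autoImplicit false

namespace Cfsg.Agent.Helper84.AMTR1

open Cfsg.Agent.Helper12.AM

variable {α : Type*} [Fintype α] [DecidableEq α]

-- PIECE TR1
theorem maxab_conj (A : Subgroup (Equiv.Perm α)) (hA : MaxAb A) (σ : Equiv.Perm α) :
    MaxAb (A.map (MulAut.conj σ).toMonoidHom) := by
  refine ⟨?_, ?_, ?_⟩
  · intro a' ha'
    obtain ⟨a, ha, rfl⟩ := Subgroup.mem_map.1 ha'
    have h := Subgroup.Normal.conj_mem (inferInstance : (alternatingGroup α).Normal) a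
      (hA.le_alt ha) σ
    simpa [MulAut.conj_apply] using h
  · intro a' ha' b' hb'
    obtain ⟨a, ha, rfl⟩ := Subgroup.mem_map.1 ha'
    obtain ⟨b, hb, rfl⟩ := Subgroup.mem_map.1 hb'
    rw [← map_mul, ← map_mul, hA.comm a ha b hb]
  · intro C hC hCc
    have h1 : Nat.card (A.map (MulAut.conj σ).toMonoidHom) = Nat.card A :=
      Nat.card_congr (Subgroup.equivMapOfInjective A (MulAut.conj σ).toMonoidHom
        (MulAut.conj σ).injective).toEquiv.symm
    rw [h1]
    exact hA.max C hC hCc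

end Cfsg.Agent.Helper84.AMTR1
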