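import Mathlib
import Cfsg.Agent.Helper12.AMDefs

set_option autoImplicit false

namespace Cfsg.Agent.Helper84.AMTR2

open Cfsg.Agent.Helper12.AM

variable {α : Type*} [Fintype α] [DecidableEq α]

-- PIECE TR2
theorem orb_conj (A : Subgroup (Equiv.Perm α)) (σ : Equiv.Perm α) (x y : α) :
    σ y ∈ orb (A.map (MulAut.conj σ).toMonoidHom) (σ x) ↔ y ∈ orb A x := by
  rw [mem_orb, mem_orb]
  constructor
  · rintro ⟨a', ha', h⟩
    obtain ⟨a, ha, rfl⟩ := Subgroup.mem_map.1 ha'
    refine ⟨a, ha, ?_⟩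
    have h1 : (MulAut.conj σ).toMonoidHom a (σ x) = σ (a x) := by
      simp [MulAut.conj_apply]
    rw [h1] at h
    exact σ.injective h
  · rintro ⟨a, ha, rfl⟩
    refine ⟨(MulAut.conj σ).toMonoidHom a, Subgroup.mem_map_of_mem _ ha, ?_⟩
    simp [MulAut.conj_apply]

/-- the orbit of `σ x` under the conjugate group is the image of the orbit of `x` -/
theorem orb_conj_eq (A : Subgroup (Equiv.Perm α)) (σ : Equiv.Perm α) (x : α) :
    orb (A.map (MulAut.conj σ).toMonoidHom) (σ x) = (orb A x).map σ.toEmbedding := by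
  ext z
  rw [Finset.mem_map]
  constructor
  · intro hz
    refine ⟨σ⁻¹ z, ?_, by simp⟩
    rw [← orb_conj A σ]
    simpa using hz
  · rintro ⟨y, hy, rfl⟩
    exact (orb_conj A σ x y).2 hy

theorem osz_conj (A : Subgroup (Equiv.Perm α)) (σ : Equiv.Perm α) (x : α) :
    osz (A.map (MulAut.conj σ).toMonoidHom) (σ x) = osz A x := by
  unfold osz
  rw [orb_conj_eq, Finset.card_map]

end Cfsg.Agent.Helper84.AMTR2
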