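import Mathlib
import Cfsg.Agent.Helper12.AMDefs
import Cfsg.Agent.Helper84.AMTR2

set_option autoImplicit false

namespace Cfsg.Agent.Helper84.AMTR3

open Cfsg.Agent.Helper12.AM

variable {α : Type*} [Fintype α] [DecidableEq α]

-- PIECE TR3  (uses TR2)
theorem good_conj (A : Subgroup (Equiv.Perm α)) (gA : Good A) (σ : Equiv.Perm α) :
    Good (A.map (MulAut.conj σ).toMonoidHom) := by
  have hσ1 : ∀ z, σ (σ⁻¹ z) = z := fun z => by simp
  have hσ2 : ∀ z, σ⁻¹ (σ z) = z := fun z => by simp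
  have hosz : ∀ z, osz (A.map (MulAut.conj σ).toMonoidHom) z = osz A (σ⁻¹ z) := by
    intro z
    have h := Cfsg.Agent.Helper84.AMTR2.osz_conj A σ (σ⁻¹ z)
    rw [hσ1] at h
    exact h
  have horb : ∀ z w, w ∈ orb (A.map (MulAut.conj σ).toMonoidHom) z ↔
      σ⁻¹ w ∈ orb A (σ⁻¹ z) := by
    intro z w
    have h := Cfsg.Agent.Helper84.AMTR2.orb_conj A σ (σ⁻¹ z) (σ⁻¹ w)
    rw [hσ1, hσ1] at h
    exact h
  refine ⟨?_, ?_, ?_⟩
  · intro z
    rw [hosz]
    exact gA.sz _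
  · intro a' ha' z hz
    obtain ⟨a, ha, rfl⟩ := Subgroup.mem_map.1 ha'
    rw [hosz] at hz
    have h := gA.inv a ha (σ⁻¹ z) hz
    have h1 : ∀ w, (MulAut.conj σ).toMonoidHom a w = σ (a (σ⁻¹ w)) := by
      intro w
      simp [MulAut.conj_apply]
    rw [h1, h1, hσ2, h, hσ1]
  · intro x y z hx hy hz
    rw [hosz] at hx hy hz
    rw [horb, horb, horb]
    exact gA.le2 _ _ _ hx hy hz

end Cfsg.Agent.Helper84.AMTR3
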