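-- helper84: PIECE MU of helper50's CALL S3050 (Higman): elements `e, f` with `e^2 = f^2 = 0`,
-- `e f + f e = 1` make `R` a ring of 2×2 matrices over the centraliser of `{e, f}`.
import Mathlib
import Cfsg.Agent.Helper50.HigDefs

set_option autoImplicit false
set_option linter.unusedSimpArgs false

namespace Cfsg.Agent.Helper84.HigMU

open Cfsg.Agent.Helper5 Cfsg.Agent.Helper50.Hig

section

variable {R : Type*} [Ring R] (e f : R)

/-- the four matrix components of `X` -/
def c11 (X : R) : R := e * f * X * (e * f) + f * X * e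
def c12 (X : R) : R := e * f * X * f + f * X * (f * e)
def c21 (X : R) : R := e * X * (e * f) + f * e * X * e
def c22 (X : R) : R := e * X * f + f * e * X * (f * e)

variable {e f}

theorem mu_norm (he : e * e = 0) (hf : f * f = 0) (hef : e * f + f * e = 1) :
    (∀ z : R, e * (e * z) = 0) ∧ (∀ z : R, f * (f * z) = 0) ∧ f * e = 1 - e * f ∧
    (∀ z : R, f * (e * z) = z - e * (f * z)) := by
  have hfe : f * e = 1 - e * f := by rw [← hef]; abel
  refine ⟨fun z => by rw [← mul_assoc, he, zero_mul], fun z => by rw [← mul_assoc, hf, zero_mul],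
    hfe, fun z => ?_⟩
  rw [← mul_assoc, hfe, sub_mul, one_mul, mul_assoc]

/-- the components lie in the centraliser -/
theorem c_mem (he : e * e = 0) (hf : f * f = 0) (hef : e * f + f * e = 1) (X : R) :
    c11 e f X ∈ Subring.centralizer ({e, f} : Set R) ∧
    c12 e f X ∈ Subring.centralizer ({e, f} : Set R) ∧
    c21 e f X ∈ Subring.centralizer ({e, f} : Set R) ∧
    c22 e f X ∈ Subring.centralizer ({e, f} : Set R) := by
  obtain ⟨he', hf', hfe, hfe'⟩ := mu_norm he hf hef
  refine ⟨?_, ?_, ?_, ?_⟩ <;>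
  · rw [Subring.mem_centralizer_iff]
    intro g hg
    rcases hg with rfl | rfl
    · simp only [c11, c12, c21, c22, mul_add, add_mul, mul_sub, sub_mul, mul_assoc, he, hf, he',
        hf', hfe, hfe', mul_zero, zero_mul, mul_one, one_mul, sub_zero, zero_sub, add_zero,
        zero_add, sub_self]
      try abel
    · simp only [c11, c12, c21, c22, mul_add, add_mul, mul_sub, sub_mul, mul_assoc, he, hf, he',
        hf', hfe, hfe', mul_zero, zero_mul, mul_one, one_mul, sub_zero, zero_sub, add_zero,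
        zero_add, sub_self]
      try abel

theorem c_recon (he : e * e = 0) (hf : f * f = 0) (hef : e * f + f * e = 1) (X : R) :
    X = c11 e f X * (e * f) + c12 e f X * e + c21 e f X * f + c22 e f X * (f * e) := by
  obtain ⟨he', hf', hfe, hfe'⟩ := mu_norm he hf hef
  simp only [c11, c12, c21, c22, mul_add, add_mul, mul_sub, sub_mul, mul_assoc, he, hf, he',
    hf', hfe, hfe', mul_zero, zero_mul, mul_one, one_mul, sub_zero, zero_sub, add_zero,
    zero_add, sub_self]
  abel

theorem c_one (he : e * e = 0) (hf : f * f = 0) (hef : e * f + f * e = 1) :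
    c11 e f 1 = 1 ∧ c12 e f 1 = 0 ∧ c21 e f 1 = 0 ∧ c22 e f 1 = 1 := by
  obtain ⟨he', hf', hfe, hfe'⟩ := mu_norm he hf hef
  refine ⟨?_, ?_, ?_, ?_⟩ <;>
  · simp only [c11, c12, c21, c22, mul_add, add_mul, mul_sub, sub_mul, mul_assoc, he, hf, he',
      hf', hfe, hfe', mul_zero, zero_mul, mul_one, one_mul, sub_zero, zero_sub, add_zero,
      zero_add, sub_self]
    try abel

theorem c_mul (he : e * e = 0) (hf : f * f = 0) (hef : e * f + f * e = 1) (X Y : R) :
    c11 e f (X * Y) = c11 e f X * c11 e f Y + c12 e f X * c21 e f Y ∧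
    c12 e f (X * Y) = c11 e f X * c12 e f Y + c12 e f X * c22 e f Y ∧
    c21 e f (X * Y) = c21 e f X * c11 e f Y + c22 e f X * c21 e f Y ∧
    c22 e f (X * Y) = c21 e f X * c12 e f Y + c22 e f X * c22 e f Y := by
  obtain ⟨he', hf', hfe, hfe'⟩ := mu_norm he hf hef
  refine ⟨?_, ?_, ?_, ?_⟩ <;>
  · simp only [c11, c12, c21, c22, mul_add, add_mul, mul_sub, sub_mul, mul_assoc, he, hf, he',
      hf', hfe, hfe', mul_zero, zero_mul, mul_one, one_mul, sub_zero, zero_sub, add_zero,
      zero_add, sub_self]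
    try abel

theorem c_add (X Y : R) :
    c11 e f (X + Y) = c11 e f X + c11 e f Y ∧ c12 e f (X + Y) = c12 e f X + c12 e f Y ∧
    c21 e f (X + Y) = c21 e f X + c21 e f Y ∧ c22 e f (X + Y) = c22 e f X + c22 e f Y := by
  refine ⟨?_, ?_, ?_, ?_⟩ <;>
  · simp only [c11, c12, c21, c22, mul_add, add_mul]
    abel

theorem c_e (he : e * e = 0) (hf : f * f = 0) (hef : e * f + f * e = 1) :
    c11 e f e = 0 ∧ c12 e f e = 1 ∧ c21 e f e = 0 ∧ c22 e f e = 0 := by
  obtain ⟨he', hf', hfe, hfe'⟩ := mu_norm he hf hef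
  refine ⟨?_, ?_, ?_, ?_⟩ <;>
  · simp only [c11, c12, c21, c22, mul_add, add_mul, mul_sub, sub_mul, mul_assoc, he, hf, he',
      hf', hfe, hfe', mul_zero, zero_mul, mul_one, one_mul, sub_zero, zero_sub, add_zero,
      zero_add, sub_self]
    try abel

theorem c_f (he : e * e = 0) (hf : f * f = 0) (hef : e * f + f * e = 1) :
    c11 e f f = 0 ∧ c12 e f f = 0 ∧ c21 e f f = 1 ∧ c22 e f f = 0 := by
  obtain ⟨he', hf', hfe, hfe'⟩ := mu_norm he hf hef
  refine ⟨?_, ?_, ?_, ?_⟩ <;>
  · simp only [c11, c12, c21, c22, mul_add, add_mul, mul_sub, sub_mul, mul_assoc, he, hf, he',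
      hf', hfe, hfe', mul_zero, zero_mul, mul_one, one_mul, sub_zero, zero_sub, add_zero,
      zero_add, sub_self]
    try abel

theorem c_z (he : e * e = 0) (hf : f * f = 0) (hef : e * f + f * e = 1) (z : R)
    (hze : e * z = z * e) (hzf : f * z = z * f) :
    c11 e f z = z ∧ c12 e f z = 0 ∧ c21 e f z = 0 ∧ c22 e f z = z := by
  obtain ⟨he', hf', hfe, hfe'⟩ := mu_norm he hf hef
  have hze' : ∀ w : R, e * (z * w) = z * (e * w) := fun w => by
    rw [← mul_assoc, hze, mul_assoc]
  have hzf' : ∀ w : R, f * (z * w) = z * (f * w) := fun w => by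
    rw [← mul_assoc, hzf, mul_assoc]
  refine ⟨?_, ?_, ?_, ?_⟩ <;>
  · simp only [c11, c12, c21, c22, mul_add, add_mul, mul_sub, sub_mul, mul_assoc, hze, hzf, hze',
      hzf', he, hf, he', hf', hfe, hfe', mul_zero, zero_mul, mul_one, one_mul, sub_zero, zero_sub,
      add_zero, zero_add, sub_self]
    try abel

theorem mk22_ext {α : Type*} {a b c d a' b' c' d' : α} (h1 : a = a') (h2 : b = b') (h3 : c = c')
    (h4 : d = d') : (!![a, b; c, d] : Matrix (Fin 2) (Fin 2) α) = !![a', b'; c', d'] := by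
  rw [h1, h2, h3, h4]

theorem add22 {α : Type*} [Add α] (a b c d a' b' c' d' : α) :
    (!![a, b; c, d] : Matrix (Fin 2) (Fin 2) α) + !![a', b'; c', d'] =
      !![a + a', b + b'; c + c', d + d'] := by
  ext i j
  fin_cases i <;> fin_cases j <;> rfl

/-- the ring homomorphism `R → M₂(C_R(e, f))` -/
noncomputable def muHom (he : e * e = 0) (hf : f * f = 0) (hef : e * f + f * e = 1) :
    R →+* Matrix (Fin 2) (Fin 2) (Subring.centralizer ({e, f} : Set R)) where
  toFun X := !![⟨c11 e f X, (c_mem he hf hef X).1⟩, ⟨c12 e f X, (c_mem he hf hef X).2.1⟩;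
    ⟨c21 e f X, (c_mem he hf hef X).2.2.1⟩, ⟨c22 e f X, (c_mem he hf hef X).2.2.2⟩]
  map_one' := by
    rw [Matrix.one_fin_two]
    exact mk22_ext (Subtype.ext (c_one he hf hef).1) (Subtype.ext (c_one he hf hef).2.1)
      (Subtype.ext (c_one he hf hef).2.2.1) (Subtype.ext (c_one he hf hef).2.2.2)
  map_mul' X Y := by
    rw [Matrix.mul_fin_two]
    exact mk22_ext (Subtype.ext (c_mul he hf hef X Y).1) (Subtype.ext (c_mul he hf hef X Y).2.1)
      (Subtype.ext (c_mul he hf hef X Y).2.2.1) (Subtype.ext (c_mul he hf hef X Y).2.2.2)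
  map_zero' := by
    have h0 : c11 e f 0 = 0 ∧ c12 e f 0 = 0 ∧ c21 e f 0 = 0 ∧ c22 e f 0 = 0 := by
      simp [c11, c12, c21, c22]
    rw [← Matrix.ext_iff]
    intro i j
    fin_cases i <;> fin_cases j
    · exact Subtype.ext h0.1
    · exact Subtype.ext h0.2.1
    · exact Subtype.ext h0.2.2.1
    · exact Subtype.ext h0.2.2.2
  map_add' X Y := by
    rw [add22]
    exact mk22_ext (Subtype.ext (c_add X Y).1) (Subtype.ext (c_add X Y).2.1)
      (Subtype.ext (c_add X Y).2.2.1) (Subtype.ext (c_add X Y).2.2.2)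

theorem muHom_apply (he : e * e = 0) (hf : f * f = 0) (hef : e * f + f * e = 1) (X : R) :
    muHom he hf hef X = !![⟨c11 e f X, (c_mem he hf hef X).1⟩, ⟨c12 e f X, (c_mem he hf hef X).2.1⟩;
      ⟨c21 e f X, (c_mem he hf hef X).2.2.1⟩, ⟨c22 e f X, (c_mem he hf hef X).2.2.2⟩] := rfl

end

/-- PIECE MU -/
theorem exists_matrix_hom {R : Type*} [Ring R] (e f : R) (he : e * e = 0) (hf : f * f = 0)
    (hef : e * f + f * e = 1) :
    ∃ Φ : R →+* Matrix (Fin 2) (Fin 2) (Subring.centralizer ({e, f} : Set R)),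
      Function.Injective Φ ∧ Φ e = !![0, 1; 0, 0] ∧ Φ f = !![0, 0; 1, 0] ∧
      ∀ z : Subring.centralizer ({e, f} : Set R), Φ (z : R) = !![z, 0; 0, z] := by
  refine ⟨muHom he hf hef, ?_, ?_, ?_, ?_⟩
  · intro X Y h
    rw [muHom_apply, muHom_apply] at h
    have h11 : c11 e f X = c11 e f Y := congrArg Subtype.val (congrFun (congrFun h 0) 0)
    have h12 : c12 e f X = c12 e f Y := congrArg Subtype.val (congrFun (congrFun h 0) 1)
    have h21 : c21 e f X = c21 e f Y := congrArg Subtype.val (congrFun (congrFun h 1) 0)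
    have h22 : c22 e f X = c22 e f Y := congrArg Subtype.val (congrFun (congrFun h 1) 1)
    rw [c_recon he hf hef X, c_recon he hf hef Y, h11, h12, h21, h22]
  · rw [muHom_apply]
    exact mk22_ext (Subtype.ext (c_e he hf hef).1) (Subtype.ext (c_e he hf hef).2.1)
      (Subtype.ext (c_e he hf hef).2.2.1) (Subtype.ext (c_e he hf hef).2.2.2)
  · rw [muHom_apply]
    exact mk22_ext (Subtype.ext (c_f he hf hef).1) (Subtype.ext (c_f he hf hef).2.1)
      (Subtype.ext (c_f he hf hef).2.2.1) (Subtype.ext (c_f he hf hef).2.2.2)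
  · intro z
    have hz := Subring.mem_centralizer_iff.mp z.2
    have hze : e * (z : R) = (z : R) * e := hz e (by simp)
    have hzf : f * (z : R) = (z : R) * f := hz f (by simp)
    have h := c_z he hf hef (z : R) hze hzf
    rw [muHom_apply]
    exact mk22_ext (Subtype.ext h.1) (Subtype.ext h.2.1) (Subtype.ext h.2.2.1) (Subtype.ext h.2.2.2)

end Cfsg.Agent.Helper84.HigMU
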