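import Mathlib
import Cfsg.Agent.Helper95.OTSDefs

/-! CALL OTS (helper95, S5972) piece BADAB (helper84). -/

set_option autoImplicit false

namespace Cfsg.Agent.Helper84.OTS

open Module Polynomial
open Cfsg.Agent.Helper13.TIsp Cfsg.Agent.Helper42.SpGroup Cfsg.Agent.Helper42.SpModels
open Cfsg.Agent.Helper95.OTS

/-- the multiplicity of the root `1` of `psi r c₀ c` is `c₀` -/
theorem obadab_rootmult {F : Type*} [Field F] {r : ℕ} (hr : r.Prime) (hrF : (r : F) ≠ 0)
    (c₀ : ℕ) (c : F[X] → ℕ) :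
    (Cfsg.Agent.Helper43.PrimeOrdMat.psi r c₀ c : F[X]).rootMultiplicity 1 = c₀ := by
  rw [← Cfsg.Agent.Helper43.PrimeOrdO.psi_fixed_mul]
  have hev := Cfsg.Agent.Helper43.PrimeOrdO.eval_one_psi_ne hr hrF c
  have hne : (Cfsg.Agent.Helper43.PrimeOrdMat.psi r 0 c : F[X]) ≠ 0 := by
    intro h
    exact hev (by rw [h, eval_zero])
  have hX : (X - 1 : F[X]) = X - C 1 := by rw [map_one]
  have hne' : ((X - 1 : F[X]) ^ c₀ * Cfsg.Agent.Helper43.PrimeOrdMat.psi r 0 c) ≠ 0 := by
    refine mul_ne_zero (pow_ne_zero _ ?_) hne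
    rw [hX]
    exact X_sub_C_ne_zero 1
  rw [rootMultiplicity_mul hne', hX, rootMultiplicity_X_sub_C_pow,
    rootMultiplicity_eq_zero (fun h => hev h), add_zero]

/-- an element of order `r` with prescribed characteristic polynomial has small fixed space -/
theorem obadab_key {F : Type*} [Field F] [Fintype F] (p : ℕ) [Fact p.Prime] [CharP F p]
    (h2 : (2 : F) ≠ 0) (r : ℕ) [Fact r.Prime] (hrp : r ≠ p) (d e' : ℕ)
    (cfun : F[X] → ℕ)
    (hsym : ∀ P ∈ Cfsg.Agent.Helper43.CycFactors.cycJ F r,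
      cfun (Cfsg.Agent.Helper43.SpReal.star P) = cfun P)
    (hnz : ∃ P ∈ Cfsg.Agent.Helper43.CycFactors.cycJ F r, cfun P ≠ 0)
    (hdeg : (2 * e' + 1) + orderOf ((Fintype.card F : ℕ) : ZMod r) *
      ∑ P ∈ Cfsg.Agent.Helper43.CycFactors.cycJ F r, cfun P = 2 * d + 1) :
    ∃ g : ↥(Cfsg.isometryGroup F (Cfsg.quadFormOdd d F)), orderOf g = r ∧
      finrank F (LinearMap.ker (oEnd g - 1)) ≤ 2 * e' + 1 := by
  have hr : r.Prime := Fact.out
  have hrF : (r : F) ≠ 0 := Cfsg.Agent.Helper43.CycFactors.natCast_ne_zero_of_ne (p := p) hr hrp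
  obtain ⟨g, hg, hch⟩ := Cfsg.Agent.Helper43.PrimeOrdO.oexists_of_psi_odd (p := p)
    (rfl : Fintype.card F = Fintype.card F) h2 hr hrp (2 * e' + 1) cfun hsym hnz hdeg
  refine ⟨g, hg, ?_⟩
  have h1 := LinearMap.finrank_eigenspace_le (oEnd g) (1 : F)
  rw [Matrix.charpoly_toLin', hch, obadab_rootmult hr hrF] at h1
  have h2' : Module.End.eigenspace (oEnd g) (1 : F) = LinearMap.ker (oEnd g - 1) := by
    ext v
    rw [Module.End.mem_eigenspace_iff, LinearMap.mem_ker, LinearMap.sub_apply, sub_eq_zero,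
      one_smul]
    rfl
  rw [h2'] at h1
  exact h1

/-- PIECE BADAB -/
theorem obad_ab {F : Type*} [Field F] [Fintype F] (p : ℕ) [Fact p.Prime] [CharP F p]
    (h2 : (2 : F) ≠ 0) (r : ℕ) [Fact r.Prime] (hr2 : 2 < r)
    (hrp : r ≠ p) (i c : ℕ) (hi : i = orderOf ((Fintype.card F : ℕ) : ZMod r))
    (hc : c = if Even i then i else 2 * i) (d u e' : ℕ) (hu : 1 ≤ u)
    (hdim : 2 * d = c * u + 2 * e') :
    ∃ g : ↥(Cfsg.isometryGroup F (Cfsg.quadFormOdd d F)), orderOf g = r ∧
      finrank F (LinearMap.ker (oEnd g - 1)) ≤ 2 * e' + 1 := by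
  classical
  have hr : r.Prime := Fact.out
  have hrF : (r : F) ≠ 0 := Cfsg.Agent.Helper43.CycFactors.natCast_ne_zero_of_ne (p := p) hr hrp
  have hcard := Cfsg.Agent.Helper43.CycFactors.cycJ_card_mul (p := p)
    (rfl : Fintype.card F = Fintype.card F) hr hrp
  have hne : (Cfsg.Agent.Helper43.CycFactors.cycJ F r).Nonempty := by
    rw [Finset.nonempty_iff_ne_empty]
    intro h
    rw [h, Finset.card_empty, zero_mul] at hcard
    omega
  obtain ⟨P₀, hP₀⟩ := hne
  by_cases hev : Even i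
  · rw [if_pos hev] at hc
    subst hc
    refine obadab_key p h2 r hrp d e' (fun P => if P = P₀ then u else 0) ?_
      ⟨P₀, hP₀, ?_⟩ ?_
    · intro P hP
      show (if Cfsg.Agent.Helper43.SpReal.star P = P₀ then u else 0) = if P = P₀ then u else 0
      rw [Cfsg.Agent.Helper43.StarPoly.star_eq_self_of_even (p := p)
        (rfl : Fintype.card F = Fintype.card F) hr hrp (hi ▸ hev) hP]
    · show (if P₀ = P₀ then u else 0) ≠ 0
      rw [if_pos rfl]
      omega
    · rw [Finset.sum_ite_eq', if_pos hP₀, ← hi]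
      omega
  · rw [if_neg hev] at hc
    subst hc
    have hP₀' := Cfsg.Agent.Helper43.CycFactors.mem_cycJ.mp hP₀
    have hsP₀ : Cfsg.Agent.Helper43.SpReal.star P₀ ∈ Cfsg.Agent.Helper43.CycFactors.cycJ F r :=
      Cfsg.Agent.Helper43.StarPoly.star_mem_cycJ hr hrF hP₀
    have hss₀ : Cfsg.Agent.Helper43.SpReal.star (Cfsg.Agent.Helper43.SpReal.star P₀) = P₀ :=
      Cfsg.Agent.Helper43.StarPoly.star_star hP₀'.1
        (Cfsg.Agent.Helper43.StarPoly.coeff_zero_ne_of_mem hr hP₀)
    refine obadab_key p h2 r hrp d e'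
      (fun P => (if P = P₀ then u else 0) +
        (if P = Cfsg.Agent.Helper43.SpReal.star P₀ then u else 0)) ?_ ⟨P₀, hP₀, ?_⟩ ?_
    · intro P hP
      have hP' := Cfsg.Agent.Helper43.CycFactors.mem_cycJ.mp hP
      have hss : Cfsg.Agent.Helper43.SpReal.star (Cfsg.Agent.Helper43.SpReal.star P) = P :=
        Cfsg.Agent.Helper43.StarPoly.star_star hP'.1
          (Cfsg.Agent.Helper43.StarPoly.coeff_zero_ne_of_mem hr hP)
      have e1 : Cfsg.Agent.Helper43.SpReal.star P = P₀ ↔
          P = Cfsg.Agent.Helper43.SpReal.star P₀ := by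
        constructor
        · intro h
          rw [← h, hss]
        · intro h
          rw [h, hss₀]
      have e2 : Cfsg.Agent.Helper43.SpReal.star P = Cfsg.Agent.Helper43.SpReal.star P₀ ↔
          P = P₀ := by
        constructor
        · intro h
          rw [← hss, h, hss₀]
        · intro h
          rw [h]
      show (if Cfsg.Agent.Helper43.SpReal.star P = P₀ then u else 0) +
        (if Cfsg.Agent.Helper43.SpReal.star P = Cfsg.Agent.Helper43.SpReal.star P₀ then u
          else 0) = (if P = P₀ then u else 0) +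
        (if P = Cfsg.Agent.Helper43.SpReal.star P₀ then u else 0)
      rw [if_congr e1 rfl rfl, if_congr e2 rfl rfl, add_comm]
    · show (if P₀ = P₀ then u else 0) +
        (if P₀ = Cfsg.Agent.Helper43.SpReal.star P₀ then u else 0) ≠ 0
      rw [if_pos rfl]
      omega
    · rw [Finset.sum_add_distrib, Finset.sum_ite_eq', Finset.sum_ite_eq', if_pos hP₀,
        if_pos hsP₀, ← hi]
      have h3 : i * (u + u) = 2 * i * u := by ring
      omega

end Cfsg.Agent.Helper84.OTS
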