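-- helper84 library: PIECE DIAG of helper35's CALL S2459 (Sourour LU factorisation for 3x3 matrices):
-- triangular matrices with distinct diagonal entries are SL-conjugate to their diagonal.
import Mathlib

set_option autoImplicit false

open Matrix

namespace Cfsg.Agent.Helper84

theorem sou_lower_diag {F : Type*} [Field F] (b1 b2 b3 l1 l2 l3 : F) (h12 : b1 ≠ b2)
    (h13 : b1 ≠ b3) (h23 : b2 ≠ b3) :
    ∃ X : Matrix (Fin 3) (Fin 3) F, X.det = 1 ∧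
      !![b1, 0, 0; l1, b2, 0; l2, l3, b3] = X * Matrix.diagonal ![b1, b2, b3] * X⁻¹ := by
  have d12 : b1 - b2 ≠ 0 := sub_ne_zero.mpr h12
  have d13 : b1 - b3 ≠ 0 := sub_ne_zero.mpr h13
  have d23 : b2 - b3 ≠ 0 := sub_ne_zero.mpr h23
  obtain ⟨x1, hx1⟩ : ∃ x1 : F, x1 = l1 / (b1 - b2) := ⟨_, rfl⟩
  obtain ⟨x3, hx3⟩ : ∃ x3 : F, x3 = l3 / (b2 - b3) := ⟨_, rfl⟩
  obtain ⟨x2, hx2⟩ : ∃ x2 : F, x2 = (l2 + l3 * x1) / (b1 - b3) := ⟨_, rfl⟩
  have e1 : x1 * (b1 - b2) = l1 := by rw [hx1]; field_simp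
  have e3 : x3 * (b2 - b3) = l3 := by rw [hx3]; field_simp
  have e2 : x2 * (b1 - b3) = l2 + l3 * x1 := by rw [hx2]; field_simp
  have hdet : (!![1, 0, 0; x1, 1, 0; x2, x3, 1] : Matrix (Fin 3) (Fin 3) F).det = 1 := by
    rw [Matrix.det_fin_three]
    simp
  refine ⟨!![1, 0, 0; x1, 1, 0; x2, x3, 1], hdet, ?_⟩
  have hunit : IsUnit (!![1, 0, 0; x1, 1, 0; x2, x3, 1] : Matrix (Fin 3) (Fin 3) F).det := by
    rw [hdet]; exact isUnit_one
  have key : !![b1, 0, 0; l1, b2, 0; l2, l3, b3] * !![1, 0, 0; x1, 1, 0; x2, x3, 1] =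
      !![1, 0, 0; x1, 1, 0; x2, x3, 1] * Matrix.diagonal ![b1, b2, b3] := by
    ext i j
    fin_cases i <;> fin_cases j <;>
      simp [Matrix.mul_apply, Fin.sum_univ_three, Matrix.diagonal_apply]
    all_goals first | linear_combination -e1 | linear_combination -e2 | linear_combination -e3
  rw [← key]
  exact (Matrix.mul_nonsing_inv_cancel_right _ _ hunit).symm

theorem sou_upper_diag {F : Type*} [Field F] (c1 c2 c3 u1 u2 u3 : F) (h12 : c1 ≠ c2)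
    (h13 : c1 ≠ c3) (h23 : c2 ≠ c3) :
    ∃ Y : Matrix (Fin 3) (Fin 3) F, Y.det = 1 ∧
      !![c1, u1, u2; 0, c2, u3; 0, 0, c3] = Y * Matrix.diagonal ![c1, c2, c3] * Y⁻¹ := by
  have d12 : c2 - c1 ≠ 0 := sub_ne_zero.mpr (Ne.symm h12)
  have d13 : c3 - c1 ≠ 0 := sub_ne_zero.mpr (Ne.symm h13)
  have d23 : c3 - c2 ≠ 0 := sub_ne_zero.mpr (Ne.symm h23)
  obtain ⟨y1, hy1⟩ : ∃ y1 : F, y1 = u1 / (c2 - c1) := ⟨_, rfl⟩
  obtain ⟨y3, hy3⟩ : ∃ y3 : F, y3 = u3 / (c3 - c2) := ⟨_, rfl⟩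
  obtain ⟨y2, hy2⟩ : ∃ y2 : F, y2 = (u2 + u1 * y3) / (c3 - c1) := ⟨_, rfl⟩
  have e1 : y1 * (c2 - c1) = u1 := by rw [hy1]; field_simp
  have e3 : y3 * (c3 - c2) = u3 := by rw [hy3]; field_simp
  have e2 : y2 * (c3 - c1) = u2 + u1 * y3 := by rw [hy2]; field_simp
  have hdet : (!![1, y1, y2; 0, 1, y3; 0, 0, 1] : Matrix (Fin 3) (Fin 3) F).det = 1 := by
    rw [Matrix.det_fin_three]
    simp
  refine ⟨!![1, y1, y2; 0, 1, y3; 0, 0, 1], hdet, ?_⟩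
  have hunit : IsUnit (!![1, y1, y2; 0, 1, y3; 0, 0, 1] : Matrix (Fin 3) (Fin 3) F).det := by
    rw [hdet]; exact isUnit_one
  have key : !![c1, u1, u2; 0, c2, u3; 0, 0, c3] * !![1, y1, y2; 0, 1, y3; 0, 0, 1] =
      !![1, y1, y2; 0, 1, y3; 0, 0, 1] * Matrix.diagonal ![c1, c2, c3] := by
    ext i j
    fin_cases i <;> fin_cases j <;>
      simp [Matrix.mul_apply, Fin.sum_univ_three, Matrix.diagonal_apply]
    all_goals first | linear_combination -e1 | linear_combination -e2 | linear_combination -e3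
  rw [← key]
  exact (Matrix.mul_nonsing_inv_cancel_right _ _ hunit).symm

end Cfsg.Agent.Helper84
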