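import Cfsg.Agent.Helper55.N9Defs
import Cfsg.Prelude.Def_Solvable
import Cfsg.Prelude.Def_Transfer

/-! CALL S4409 (helper55) piece TR2 (helper84, double). -/

set_option autoImplicit false

namespace Cfsg.Agent.Helper84.N9

open Subgroup Cfsg.Agent.Helper55.N9

/-- A maximal subgroup of a finite `2`-group is normal. -/
theorem n9tr2_coatom_normal {H : Type*} [Group H] [Finite H]
    (hG : IsPGroup 2 H) (M : Subgroup H) (hM : IsCoatom M) : M.Normal := by
  have : Fact (Nat.Prime 2) := ⟨Nat.prime_two⟩
  have : Group.IsNilpotent H := hG.isNilpotent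
  have h := (Group.isNilpotent_of_finite_tfae (G := H)).out 0 2
  exact h.mp inferInstance M hM

/-- A maximal subgroup of a finite `2`-group has index `2`. -/
theorem n9tr2_coatom_index {H : Type*} [Group H] [Finite H]
    (hG : IsPGroup 2 H) (M : Subgroup H) (hM : IsCoatom M) : M.index = 2 := by
  have : Fact (Nat.Prime 2) := ⟨Nat.prime_two⟩
  have hMn : M.Normal := n9tr2_coatom_normal hG M hM
  have hQ : IsPGroup 2 (H ⧸ M) := hG.to_quotient M
  have hne1 : M.index ≠ 1 := fun h => hM.1 (Subgroup.index_eq_one.mp h)
  obtain ⟨k, hk⟩ := (IsPGroup.iff_card).mp hQ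
  have hk' : M.index = 2 ^ k := hk
  have hk0 : k ≠ 0 := by
    rintro rfl
    exact hne1 (by simpa using hk')
  have hdvd : 2 ∣ Nat.card (H ⧸ M) := by
    rw [hk]; exact dvd_pow_self 2 hk0
  obtain ⟨y', hy'⟩ := exists_prime_orderOf_dvd_card' (G := H ⧸ M) 2 hdvd
  obtain ⟨y, rfl⟩ := QuotientGroup.mk'_surjective M y'
  have hyM : y ∉ M := by
    intro hy
    have : (QuotientGroup.mk' M) y = 1 := (QuotientGroup.eq_one_iff y).mpr hy
    rw [this, orderOf_one] at hy'
    omega
  have hK : (Subgroup.zpowers ((QuotientGroup.mk' M) y)).comap (QuotientGroup.mk' M) = ⊤ := by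
    apply hM.2
    refine lt_of_le_of_ne ?_ ?_
    · intro m hm
      rw [Subgroup.mem_comap]
      have h1 : (QuotientGroup.mk' M) m = 1 := (QuotientGroup.eq_one_iff m).mpr hm
      rw [h1]
      exact Subgroup.one_mem _
    · intro h
      apply hyM
      rw [h, Subgroup.mem_comap]
      exact Subgroup.mem_zpowers _
  have hz : Subgroup.zpowers ((QuotientGroup.mk' M) y) = ⊤ := by
    have := Subgroup.map_comap_eq_self_of_surjective (QuotientGroup.mk'_surjective M)
      (Subgroup.zpowers ((QuotientGroup.mk' M) y))
    rw [hK, Subgroup.map_top_of_surjective _ (QuotientGroup.mk'_surjective M)] at this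
    exact this.symm
  have h1 : Nat.card (Subgroup.zpowers ((QuotientGroup.mk' M) y)) = 2 := by
    rw [Nat.card_zpowers, hy']
  rw [hz, Subgroup.card_top] at h1
  exact h1

/-- A subgroup of index `2` of a finite group is maximal. -/
theorem n9tr2_isCoatom_of_index_two {H : Type*} [Group H] [Finite H] (M : Subgroup H)
    (h : M.index = 2) : IsCoatom M := by
  constructor
  · intro hM
    rw [hM, Subgroup.index_top] at h
    omega
  · intro K hK
    have hd : K.index ∣ M.index := Subgroup.index_dvd_of_le hK.le
    rw [h] at hd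
    rcases (Nat.dvd_prime Nat.prime_two).mp hd with h1 | h2
    · exact Subgroup.index_eq_one.mp h1
    · exfalso
      have e1 := Subgroup.card_mul_index K
      have e2 := Subgroup.card_mul_index M
      rw [h2] at e1
      rw [h] at e2
      have h3 : Nat.card K = Nat.card M := by omega
      exact hK.ne (Subgroup.eq_of_le_of_card_ge hK.le h3.le)

/-- the centre of `↥X`, pushed to the ambient group, is `zc X` -/
theorem n9tr2_map_center {S : Type*} [Group S] (X : Subgroup S) :
    (Subgroup.center ↥X).map X.subtype = zc X := by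
  ext g
  constructor
  · rintro ⟨z, hz, rfl⟩
    have hz' : z ∈ Subgroup.center ↥X := hz
    have hc : (z : S) ∈ centralizer (X : Set S) := by
      rw [Subgroup.mem_centralizer_iff]
      intro h hh
      have h1 := (Subgroup.mem_center_iff.mp hz') ⟨h, hh⟩
      exact congrArg Subtype.val h1
    exact ⟨z.2, hc⟩
  · rintro ⟨hg, hc⟩
    have hg' : g ∈ X := hg
    have hc' : g ∈ centralizer (X : Set S) := hc
    have hz : (⟨g, hg'⟩ : ↥X) ∈ Subgroup.center ↥X := by
      rw [Subgroup.mem_center_iff]
      intro h
      exact Subtype.ext ((Subgroup.mem_centralizer_iff.mp hc') h h.2)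
    exact ⟨⟨g, hg'⟩, hz, rfl⟩

/-- the derived subgroup of `↥X`, pushed to the ambient group, is `⁅X, X⁆` -/
theorem n9tr2_map_commutator {S : Type*} [Group S] (X : Subgroup S) :
    (commutator ↥X).map X.subtype = ⁅X, X⁆ := by
  rw [commutator_def, Subgroup.map_commutator, ← MonoidHom.range_eq_map, Subgroup.range_subtype]

/-- `X` normalizes `zc X` -/
theorem n9tr2_normalizes_zc {S : Type*} [Group S] (X : Subgroup S) :
    X ≤ normalizer ((zc X : Subgroup S) : Set S) := by
  have key : ∀ x ∈ X, ∀ h ∈ zc X, x * h * x⁻¹ = h := by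
    intro x hx h hh
    have h1 := (Subgroup.mem_centralizer_iff.mp hh.2) x hx
    rw [h1, mul_inv_cancel_right]
  intro x hx
  rw [Subgroup.mem_normalizer_iff]
  intro h
  constructor
  · intro hh
    rw [key x hx h hh]
    exact hh
  · intro hh
    have h2 := key x⁻¹ (X.inv_mem hx) _ hh
    have h3 : x⁻¹ * (x * h * x⁻¹) * x⁻¹⁻¹ = h := by group
    rw [h3] at h2
    rw [h2]
    exact hh

section

variable {S : Type*} [Group S] [Finite S]

/-- PIECE TR2 -/
theorem n9_tr_special (T : Tools S) (X : Subgroup S) (hX : IsPGroup 2 X)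
    (hs : SpecialData X) :
    Cfsg.IsSpecial 2 ↥X ∧ Nat.card (Subgroup.center ↥X) = Nat.card (zc X) := by
  have hinj : Function.Injective X.subtype := X.subtype_injective
  refine ⟨⟨hX, ?_, ?_⟩, ?_⟩
  · -- frattini = center
    apply le_antisymm
    · intro x hx
      by_contra hxc
      have hxz : (x : S) ∉ zc X := by
        intro h
        rw [← n9tr2_map_center] at h
        exact hxc ((Subgroup.mem_map_iff_mem hinj).mp h)
      obtain ⟨M, hMX, hidx, -, hxM⟩ := T.hyper X (zc X) inf_le_left hs.sq
        (n9tr2_normalizes_zc X) (x : S) x.2 hxz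
      have hco : IsCoatom (M.subgroupOf X) := n9tr2_isCoatom_of_index_two _ hidx
      have h1 := frattini_le_coatom hco hx
      exact hxM (Subgroup.mem_subgroupOf.mp h1)
    · intro z hz
      rw [frattini, Order.radical]
      simp only [Subgroup.mem_iInf]
      intro K hK
      have hidx : K.index = 2 := n9tr2_coatom_index hX K hK
      have hrel : (K.map X.subtype).relIndex X = 2 := by
        rw [Subgroup.relIndex, Subgroup.subgroupOf, Subgroup.comap_map_eq_self_of_injective hinj]
        exact hidx
      have hle := hs.frat (K.map X.subtype) (Subgroup.map_subtype_le K) hrel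
      have hzz : (z : S) ∈ zc X := by
        rw [← n9tr2_map_center]
        exact Subgroup.mem_map_of_mem _ hz
      exact (Subgroup.mem_map_iff_mem hinj).mp (hle hzz)
  · -- commutator = center
    apply Subgroup.map_injective hinj
    rw [n9tr2_map_commutator, n9tr2_map_center]
    exact hs.comm
  · rw [← n9tr2_map_center, Subgroup.card_map_of_injective hinj]

end

end Cfsg.Agent.Helper84.N9
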