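import Mathlib

set_option autoImplicit false

namespace Cfsg.Agent.Helper84

section Q8Eigen

/-- The `Q₈` eigenspace trick: if `a, b` generate a quaternion action on an elementary abelian
`3`-group `V` with the central involution acting by inversion, then `V` is the square of the
fixed space `U` of `v ↦ a v * b v`, and `U` is invariant under everything commuting with `a, b`. -/
theorem q8_eigen {Γ V : Type*} [Group Γ] [CommGroup V] [Finite V] (φ : Γ →* MulAut V)
    (hV3 : ∀ v : V, v ^ 3 = 1) (a b z : Γ) (ha : a * a = z) (hb : b * b = z)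
    (hab : a * b = b * a * z) (hz : ∀ v : V, φ z v = v⁻¹) :
    ∃ U : Subgroup V, Nat.card V = Nat.card U ^ 2 ∧
      ∀ c : Γ, c * a = a * c → c * b = b * c → ∀ u ∈ U, φ c u ∈ U := by
  have hA2 : ∀ v, φ a (φ a v) = v⁻¹ := by
    intro v
    rw [← MulAut.mul_apply, ← map_mul, ha, hz]
  have hB2 : ∀ v, φ b (φ b v) = v⁻¹ := by
    intro v
    rw [← MulAut.mul_apply, ← map_mul, hb, hz]
  have hAB : ∀ v, φ a (φ b v) = (φ b (φ a v))⁻¹ := by
    intro v
    rw [← MulAut.mul_apply, ← map_mul, hab, map_mul, map_mul, MulAut.mul_apply, MulAut.mul_apply,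
      hz, map_inv, map_inv]
  have hinv2 : ∀ v : V, v⁻¹ * v⁻¹ = v := by
    intro v
    have h := hV3 v
    have h3 : v * v * v = 1 := by rw [← h]; simp [pow_succ]
    calc v⁻¹ * v⁻¹ = v⁻¹ * v⁻¹ * (v * v * v) := by rw [h3, mul_one]
      _ = v := by group
  -- J and J'
  let J : V → V := fun v => φ a v * φ b v
  let J' : V → V := fun v => φ a v * (φ b v)⁻¹
  have hJmul : ∀ v w, J (v * w) = J v * J w := by
    intro v w
    simp only [J, map_mul]
    exact mul_mul_mul_comm _ _ _ _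
  have hJinv : ∀ v, J v⁻¹ = (J v)⁻¹ := by
    intro v
    simp only [J, map_inv, mul_inv]
  have hJ'inv : ∀ v, J' v⁻¹ = (J' v)⁻¹ := by
    intro v
    simp only [J', map_inv, mul_inv]
  have hJ1 : J 1 = 1 := by simp [J]
  have hJJ : ∀ v, J (J v) = v := by
    intro v
    simp only [J, map_mul, hA2, hB2, hAB]
    calc v⁻¹ * (φ b (φ a v))⁻¹ * (φ b (φ a v) * v⁻¹) = v⁻¹ * v⁻¹ := by
          rw [mul_assoc, inv_mul_cancel_left]
      _ = v := hinv2 v
  have hJ'J' : ∀ v, J' (J' v) = v := by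
    intro v
    simp only [J', map_mul, map_inv, hA2, hB2, hAB, mul_inv, inv_inv]
    calc v⁻¹ * φ b (φ a v) * ((φ b (φ a v))⁻¹ * v⁻¹) = v⁻¹ * v⁻¹ := by
          rw [mul_assoc, mul_inv_cancel_left]
      _ = v := hinv2 v
  have hJ'J : ∀ v, J' (J v) = (J (J' v))⁻¹ := by
    intro v
    simp only [J, J', map_mul, map_inv, hA2, hB2, hAB, mul_inv, inv_inv]
    generalize φ b (φ a v) = w
    calc v⁻¹ * w⁻¹ * (w⁻¹ * v) = (v⁻¹ * v) * (w⁻¹ * w⁻¹) := by
          rw [mul_comm w⁻¹ v, mul_mul_mul_comm]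
      _ = (v * v⁻¹) * (w⁻¹ * w⁻¹) := by rw [inv_mul_cancel, mul_inv_cancel]
      _ = v * w⁻¹ * (w⁻¹ * v⁻¹) := by rw [mul_comm w⁻¹ v⁻¹, mul_mul_mul_comm]
  have hJJ' : ∀ v, J (J' v) = (J' (J v))⁻¹ := fun v => by rw [hJ'J, inv_inv]
  let U : Subgroup V :=
    { carrier := {v | J v = v}
      mul_mem' := fun {x y} hx hy => by
        show J (x * y) = x * y
        rw [hJmul, (hx : J x = x), (hy : J y = y)]
      one_mem' := hJ1
      inv_mem' := fun {x} hx => by
        show J x⁻¹ = x⁻¹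
        rw [hJinv, (hx : J x = x)] }
  let U' : Subgroup V :=
    { carrier := {v | J v = v⁻¹}
      mul_mem' := fun {x y} hx hy => by
        show J (x * y) = (x * y)⁻¹
        rw [hJmul, (hx : J x = x⁻¹), (hy : J y = y⁻¹), mul_inv]
      one_mem' := by show J 1 = 1⁻¹; rw [hJ1, inv_one]
      inv_mem' := fun {x} hx => by
        show J x⁻¹ = x⁻¹⁻¹
        rw [hJinv, (hx : J x = x⁻¹)] }
  let P : V →* V :=
    { toFun := fun v => J v * v
      map_one' := by rw [hJ1, mul_one]
      map_mul' := fun v w => by rw [hJmul]; exact mul_mul_mul_comm _ _ _ _ }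
  have hker : P.ker = U' := by
    ext v
    rw [MonoidHom.mem_ker]
    show J v * v = 1 ↔ J v = v⁻¹
    exact mul_eq_one_iff_eq_inv
  have hrange : P.range = U := by
    ext u
    constructor
    · rintro ⟨v, rfl⟩
      show J (J v * v) = J v * v
      rw [hJmul, hJJ, mul_comm]
    · intro hu
      refine ⟨u⁻¹, ?_⟩
      show J u⁻¹ * u⁻¹ = u
      rw [hJinv, (hu : J u = u)]
      exact hinv2 u
  have hcard1 : Nat.card U' * Nat.card U = Nat.card V := by
    rw [← hker, ← hrange, ← Subgroup.index_ker, Subgroup.card_mul_index]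
  have hcard2 : Nat.card U = Nat.card U' :=
    Nat.card_congr
      { toFun := fun u => ⟨J' u.1, by
          show J (J' u.1) = (J' u.1)⁻¹
          rw [hJJ', (u.2 : J u.1 = u.1)]⟩
        invFun := fun u' => ⟨J' u'.1, by
          show J (J' u'.1) = J' u'.1
          rw [hJJ', (u'.2 : J u'.1 = u'.1⁻¹), hJ'inv, inv_inv]⟩
        left_inv := fun u => Subtype.ext (hJ'J' u.1)
        right_inv := fun u' => Subtype.ext (hJ'J' u'.1) }
  refine ⟨U, by rw [← hcard1, ← hcard2, sq], ?_⟩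
  intro c hca hcb u hu
  have h1 : ∀ v, φ c (φ a v) = φ a (φ c v) := fun v => by
    rw [← MulAut.mul_apply, ← map_mul, hca, map_mul, MulAut.mul_apply]
  have h2 : ∀ v, φ c (φ b v) = φ b (φ c v) := fun v => by
    rw [← MulAut.mul_apply, ← map_mul, hcb, map_mul, MulAut.mul_apply]
  show J (φ c u) = φ c u
  have h3 : J (φ c u) = φ c (J u) := by
    simp only [J, map_mul, h1, h2]
  rw [h3, (hu : J u = u)]

end Q8Eigen

end Cfsg.Agent.Helper84
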