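import Mathlib
import Cfsg.Prelude.Def_CaseTheorems
import Cfsg.Prelude.Def_OddOrderLocal
set_option autoImplicit false

namespace Cfsg.Agent.Helper84

theorem bk_j3r_tri (k : ℕ) : (k + 1) * (k + 1 - 1) / 2 = k + k * (k - 1) / 2 := by
  cases k with
  | zero => simp
  | succ m =>
    have h : (m + 1 + 1) * (m + 1 + 1 - 1) = (m + 1) * (m + 1 - 1) + 2 * (m + 1) := by
      simp only [Nat.add_sub_cancel]; ring
    rw [h, Nat.add_mul_div_left _ _ (by norm_num : 0 < 2)]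
    ring

/-- PIECE J3r of CALL S3888. -/
theorem bk_f2_rel {G : Type*} [Group G] (x z w : G) (t a : ℕ) (hwc : ∀ g : G, g * w = w * g)
    (hyz : (x⁻¹ * z * x * z⁻¹) * z = z * (x⁻¹ * z * x * z⁻¹))
    (hxy : x⁻¹ * (x⁻¹ * z * x * z⁻¹) * x = (x⁻¹ * z * x * z⁻¹) * w ^ t) :
    ((x ^ a)⁻¹ * z * x ^ a * z⁻¹) * z = z * ((x ^ a)⁻¹ * z * x ^ a * z⁻¹) ∧
    (x ^ a)⁻¹ * ((x ^ a)⁻¹ * z * x ^ a * z⁻¹) * x ^ a =
      ((x ^ a)⁻¹ * z * x ^ a * z⁻¹) * w ^ (t * a ^ 2) ∧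
    (x ^ a)⁻¹ * z * x ^ a * z⁻¹ = (x⁻¹ * z * x * z⁻¹) ^ a * w ^ (t * (a * (a - 1) / 2)) := by
  generalize hy : x⁻¹ * z * x * z⁻¹ = y at hyz hxy ⊢
  have hW : ∀ (n : ℕ) (g : G), Commute g (w ^ n) := fun n g =>
    Commute.pow_right (show Commute g w from hwc g) n
  have hcyz : Commute y z := hyz
  have hxz : x⁻¹ * z * x = y * z := by rw [← hy]; group
  have c1 : ∀ k : ℕ, (x ^ k)⁻¹ * y * x ^ k = y * w ^ (t * k) := by
    intro k
    induction k with
    | zero => simp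
    | succ k ih =>
      calc (x ^ (k + 1))⁻¹ * y * x ^ (k + 1)
          = x⁻¹ * ((x ^ k)⁻¹ * y * x ^ k) * x := by rw [pow_succ]; group
        _ = x⁻¹ * (y * w ^ (t * k)) * x := by rw [ih]
        _ = (x⁻¹ * y * x) * w ^ (t * k) := by
            rw [mul_assoc, mul_assoc, (hW (t * k) x).eq.symm]; simp only [mul_assoc]
        _ = y * (w ^ t * w ^ (t * k)) := by rw [hxy, mul_assoc]
        _ = y * w ^ (t * (k + 1)) := by rw [← pow_add]; congr 2; ring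
  have c2 : ∀ k : ℕ, (x ^ k)⁻¹ * z * x ^ k = y ^ k * w ^ (t * (k * (k - 1) / 2)) * z := by
    intro k
    induction k with
    | zero => simp
    | succ k ih =>
      calc (x ^ (k + 1))⁻¹ * z * x ^ (k + 1)
          = (x ^ k)⁻¹ * (x⁻¹ * z * x) * x ^ k := by rw [pow_succ']; group
        _ = (x ^ k)⁻¹ * (y * z) * x ^ k := by rw [hxz]
        _ = ((x ^ k)⁻¹ * y * x ^ k) * ((x ^ k)⁻¹ * z * x ^ k) := by group
        _ = (y * w ^ (t * k)) * (y ^ k * w ^ (t * (k * (k - 1) / 2)) * z) := by rw [c1, ih]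
        _ = y * (w ^ (t * k) * y ^ k) * w ^ (t * (k * (k - 1) / 2)) * z := by
            simp only [mul_assoc]
        _ = y * (y ^ k * w ^ (t * k)) * w ^ (t * (k * (k - 1) / 2)) * z := by
            rw [(hW (t * k) (y ^ k)).eq]
        _ = y ^ (k + 1) * (w ^ (t * k) * w ^ (t * (k * (k - 1) / 2))) * z := by
            rw [pow_succ']; simp only [mul_assoc]
        _ = y ^ (k + 1) * w ^ (t * ((k + 1) * (k + 1 - 1) / 2)) * z := by
            rw [← pow_add, bk_j3r_tri, mul_add]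
  have e3 : (x ^ a)⁻¹ * z * x ^ a * z⁻¹ = y ^ a * w ^ (t * (a * (a - 1) / 2)) := by
    rw [c2 a, mul_inv_cancel_right]
  refine ⟨?_, ?_, e3⟩
  · rw [e3]
    exact (Commute.mul_left (hcyz.pow_left a) (hW _ z).symm).eq
  · rw [e3]
    have hconj : (x ^ a)⁻¹ * y ^ a * x ^ a = ((x ^ a)⁻¹ * y * x ^ a) ^ a := by
      have := conj_pow (a := (x ^ a)⁻¹) (b := y) (i := a)
      rw [inv_inv] at this
      exact this.symm
    calc (x ^ a)⁻¹ * (y ^ a * w ^ (t * (a * (a - 1) / 2))) * x ^ a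
        = ((x ^ a)⁻¹ * y ^ a * x ^ a) * w ^ (t * (a * (a - 1) / 2)) := by
          rw [mul_assoc, mul_assoc, (hW _ (x ^ a)).eq.symm]; simp only [mul_assoc]
      _ = (y * w ^ (t * a)) ^ a * w ^ (t * (a * (a - 1) / 2)) := by rw [hconj, c1]
      _ = y ^ a * (w ^ (t * a)) ^ a * w ^ (t * (a * (a - 1) / 2)) := by
          rw [(hW (t * a) y).mul_pow]
      _ = y ^ a * w ^ (t * (a * (a - 1) / 2)) * w ^ (t * a ^ 2) := by
          rw [← pow_mul, mul_assoc (y ^ a), mul_assoc (y ^ a), ← pow_add, ← pow_add]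
          congr 2
          ring

end Cfsg.Agent.Helper84
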