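import Mathlib
import Cfsg.Prelude.Def_FusionSystem
import Cfsg.Agent.Helper84.AbIdxF

/-!
# The inverting automorphism of `Z(S)` attached to an abelian essential subgroup `Z(S)⟨x⟩`
-/

set_option autoImplicit false

namespace Cfsg.Agent.Helper84

open Cfsg Cfsg.FusionSystem Subgroup
open scoped commutatorElement

variable {Ω : Type*} [Group Ω] {S : Subgroup Ω}

theorem pow_apply_of_fix {Q : Type*} [Group Q] (v : MulAut Q) {w : Q} (h : v w = w) (k : ℕ) :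
    (v ^ k) w = w := by
  induction k with
  | zero => rfl
  | succ k ih => rw [pow_succ', MulAut.mul_apply, ih, h]

section Ctx

set_option linter.unusedSectionVars false

variable [Finite S] {p : ℕ} [Fact p.Prime] {F : FusionSystem S} {A P : Subgroup Ω} {x : Ω}
  {M : Subgroup (MulAut P)}

theorem EssCtx.essData_ab (C : EssCtx p F A P x M) (hab : ∀ u v : P, u * v = v * u) {a₁ : Ω}
    (ha₁ : a₁ ∈ A) (ha₁N : a₁ ∈ Subgroup.normalizer (P : Set Ω)) (ha₁P : a₁ ∉ P) :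
    EssData p S A x a₁ := by
  have hxS : x ∈ S := C.PS C.hx
  obtain ⟨g, hG, -⟩ := C.exists_good_ne
  obtain ⟨h1, h2⟩ := C.gmain hG ha₁ ha₁N ha₁P
  refine ⟨hxS, C.hxA, ha₁, C.ab_inf hab (C.cm_mem_P ha₁N C.hx) (C.abi.cm_mem ha₁ hxS),
    fun hz => ha₁P (C.zS_le hz), C.ab_inf hab h1 (A.pow_mem ha₁ p), ?_⟩
  intro a ha hcm
  have haN : a ∈ Subgroup.normalizer (P : Set Ω) := by
    apply C.norm_of ha
    have e : a * x * a⁻¹ = ⁅a, x⁆ * x := by rw [commutatorElement_def]; group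
    rw [e]; exact P.mul_mem (C.zS_le hcm) C.hx
  obtain ⟨k, hk⟩ := h2 a ha haN
  exact ⟨k, C.ab_inf hab hk (A.mul_mem ha (A.inv_mem (A.pow_mem ha₁ k)))⟩

theorem EssCtx.cm_exp (C : EssCtx p F A P x M) (hab : ∀ u v : P, u * v = v * u) {a₁ : Ω}
    (ha₁ : a₁ ∈ A) (ha₁N : a₁ ∈ Subgroup.normalizer (P : Set Ω)) (w : P) :
    ∃ i : ℕ, ⁅a₁, (w : Ω)⁆ = ⁅a₁, x⁆ ^ i ∧ ((w : Ω) ∉ A → ¬ p ∣ i) := by
  have hxS : x ∈ S := C.PS C.hx
  obtain ⟨b, hb, hbP, i, hw⟩ := C.decompP C.hx C.hxA w.2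
  have hz : ⁅a₁, x⁆ ∈ zS S := C.ab_inf hab (C.cm_mem_P ha₁N C.hx) (C.abi.cm_mem ha₁ hxS)
  refine ⟨i, ?_, ?_⟩
  · rw [hw, C.abi.cm_mul_right ha₁ hb (S.pow_mem hxS i),
      cm_pow_right ((mem_zS.mp hz).2 x hxS).symm i]
  · rintro hwA ⟨m, hm⟩
    apply hwA
    rw [hw, hm, pow_mul]
    exact A.mul_mem hb (A.pow_mem (C.abi.pow_mem hxS) m)

/-- The automorphism `h ∈ Aut_F(P)` inverting `e = ⁅a₁, x⁆` and centralizing `B ∩ g(B)`. -/
theorem EssCtx.exists_inverter (C : EssCtx p F A P x M) (hab : ∀ u v : P, u * v = v * u)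
    {g : MulAut P} (hG : GoodAut F A P M g) {a₁ : Ω} (ha₁ : a₁ ∈ A)
    (ha₁N : a₁ ∈ Subgroup.normalizer (P : Set Ω)) (ha₁P : a₁ ∉ P) :
    ∃ h ∈ F.autGroup P,
      h ⟨⁅a₁, x⁆, C.cm_mem_P ha₁N C.hx⟩ = (⟨⁅a₁, x⁆, C.cm_mem_P ha₁N C.hx⟩ : P)⁻¹ ∧
      (∀ c ∈ A.subgroupOf P ⊓ (A.subgroupOf P).map g.toMonoidHom, h c = c) ∧
      (∀ b ∈ A.subgroupOf P, ∃ i : ℕ, b * ((⟨⁅a₁, x⁆, C.cm_mem_P ha₁N C.hx⟩ : P) ^ i)⁻¹ ∈
        A.subgroupOf P ⊓ (A.subgroupOf P).map g.toMonoidHom) := by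
  have hPS := C.PS
  have : Finite P := finite_of_le hPS
  have hxS : x ∈ S := hPS C.hx
  generalize he : (⟨⁅a₁, x⁆, C.cm_mem_P ha₁N C.hx⟩ : P) = e
  have heΩ : (e : Ω) = ⁅a₁, x⁆ := by rw [← he]
  have heA : (e : Ω) ∈ A := by rw [heΩ]; exact C.abi.cm_mem ha₁ hxS
  have heB : e ∈ A.subgroupOf P := heA
  obtain ⟨ha₁p, -⟩ := C.gmain hG ha₁ ha₁N ha₁P
  have hep : e ^ p = 1 := by
    apply Subtype.ext
    rw [Subgroup.coe_pow, heΩ, ← C.abi.cm_pow ha₁ hxS p]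
    show ⁅a₁ ^ p, x⁆ = 1
    rw [commutatorElement_eq_one_iff_mul_comm]
    exact congrArg Subtype.val (hab ⟨a₁ ^ p, ha₁p⟩ ⟨x, C.hx⟩)
  have heg : e ∉ (A.subgroupOf P).map g.toMonoidHom := fun hmem =>
    ha₁P (C.gkey hG (y₀ := ⟨x, C.hx⟩) C.hxA ha₁ ha₁N ⟨e, hmem, heΩ⟩)
  have heg' : e ∉ (A.subgroupOf P).map (g⁻¹ : MulAut P).toMonoidHom := fun hmem =>
    ha₁P (C.gkey hG.inv (y₀ := ⟨x, C.hx⟩) C.hxA ha₁ ha₁N ⟨e, hmem, heΩ⟩)
  have huG : conjAut P a₁ ha₁N ∈ F.autGroup P :=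
    autInducedBy_le_autGroup F hPS (conjAut_mem_autInducedBy (C.abi.le ha₁) ha₁N)
  generalize hu : conjAut P a₁ ha₁N = u at huG
  have hu_apply : ∀ w : P, ∃ i : ℕ, u w = e ^ i * w ∧ ((w : Ω) ∉ A → ¬ p ∣ i) := by
    intro w
    obtain ⟨i, hi, hi'⟩ := C.cm_exp hab ha₁ ha₁N w
    refine ⟨i, ?_, hi'⟩
    apply Subtype.ext
    rw [← hu, conjAut_apply, Subgroup.coe_mul, Subgroup.coe_pow, heΩ, ← hi, commutatorElement_def]
    group
  have hu_B : ∀ b ∈ A.subgroupOf P, u b = b := by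
    intro b hb
    apply Subtype.ext
    rw [← hu, conjAut_apply, C.abi.comm a₁ ha₁ b hb]; group
  have hyA : ((g e : P) : Ω) ∉ A := fun hmem => heg' ⟨g e, hmem, by simp⟩
  have hy₁A : ((g⁻¹ e : P) : Ω) ∉ A := fun hmem => heg ⟨g⁻¹ e, hmem, by simp⟩
  obtain ⟨c, hc, hc'⟩ := hu_apply (g e)
  obtain ⟨j, hj, hj'⟩ := hu_apply (g⁻¹ e)
  have hcj : ¬ p ∣ c * j := by
    intro hdvd
    rcases (Fact.out : p.Prime).dvd_mul.mp hdvd with h | h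
    · exact hc' hyA h
    · exact hj' hy₁A h
  obtain ⟨k, hk⟩ := exists_mul_add_one_dvd hcj
  have hvG : g * u * g⁻¹ ∈ F.autGroup P :=
    Subgroup.mul_mem _ (Subgroup.mul_mem _ hG.mem huG) (Subgroup.inv_mem _ hG.mem)
  have hv_gB : ∀ w ∈ (A.subgroupOf P).map g.toMonoidHom, (g * u * g⁻¹) w = w := by
    rintro _ ⟨b, hb, rfl⟩
    show g (u (g⁻¹ (g b))) = g b
    have : g⁻¹ (g b) = b := by simp
    rw [this, hu_B b hb]
  have hvy : (g * u * g⁻¹) (g e) = g e := hv_gB _ ⟨e, heB, rfl⟩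
  have hve : (g * u * g⁻¹) e = (g e) ^ j * e := by
    show g (u (g⁻¹ e)) = _
    rw [hj, map_mul, map_pow]
    simp
  have hinv := sl2_invert (p := p) u (g * u * g⁻¹) e (g e) c j k (hab _ _) (hu_B e heB) hc hvy hve
    hep (by rw [← map_pow, hep, map_one]) hk
  refine ⟨(u * (g * u * g⁻¹) ^ k * u) ^ 2, ?_, hinv, ?_, ?_⟩
  · exact Subgroup.pow_mem _
      (Subgroup.mul_mem _ (Subgroup.mul_mem _ huG (Subgroup.pow_mem _ hvG k)) huG) 2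
  · intro w hw
    have h1 : u w = w := hu_B w hw.1
    have h3 : ((g * u * g⁻¹) ^ k) w = w := pow_apply_of_fix _ (hv_gB w hw.2) k
    have h4 : (u * (g * u * g⁻¹) ^ k * u) w = w := by
      show u (((g * u * g⁻¹) ^ k) (u w)) = w
      rw [h1, h3, h1]
    exact pow_apply_of_fix _ h4 2
  · intro b hb
    have hnB := C.normalB
    have hnH : ((A.subgroupOf P).map g.toMonoidHom).Normal := hnB.map g.toMonoidHom g.surjective
    have hidx : ((A.subgroupOf P).map g.toMonoidHom).relIndex ⊤ = p := by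
      rw [Subgroup.relIndex_top_right,
        Subgroup.index_map_of_bijective (f := g.toMonoidHom) g.bijective]
      exact C.indexB
    obtain ⟨-, h2⟩ := abi_cyc (fun k _ h hh => hnH.conj_mem h hh k) hidx (Subgroup.mem_top _) heg
    obtain ⟨i, hi⟩ := h2 b (Subgroup.mem_top _)
    exact ⟨i, Subgroup.mul_mem _ hb (Subgroup.inv_mem _ (Subgroup.pow_mem _ heB i)), hi⟩

/-- The inverting automorphism of `Z(S)` obtained from an abelian essential subgroup and a good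
automorphism `g`; its fixed points are `Z(S) ∩ g(Z(S))`. -/
theorem EssCtx.exists_invAut (hp2 : p ≠ 2) (C : EssCtx p F A P x M)
    (hab : ∀ u v : P, u * v = v * u) {g : MulAut P} (hG : GoodAut F A P M g) :
    ∃ θ ∈ F.autGroup (zS S), IsInvAut θ ∧
      (∀ w : P, w ∈ A.subgroupOf P ⊓ (A.subgroupOf P).map g.toMonoidHom ↔
        ∃ hz : (w : Ω) ∈ zS S, θ ⟨w, hz⟩ = ⟨w, hz⟩) ∧
      (∀ z : zS S, ∃ n : zS S, (n : Ω) ∈ dS S ∧ θ (z * n⁻¹) = z * n⁻¹) := by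
  have hPS := C.PS
  have : Finite P := finite_of_le hPS
  have : Finite (zS S) := finite_of_le zS_le_S
  have hxS : x ∈ S := hPS C.hx
  obtain ⟨a₁, ha₁, ha₁N, ha₁P⟩ := C.exists_a1
  have D := C.essData_ab hab ha₁ ha₁N ha₁P
  obtain ⟨h, hhG, hC, hA, hB⟩ := C.exists_inverter hab hG ha₁ ha₁N ha₁P
  generalize he : (⟨⁅a₁, x⁆, C.cm_mem_P ha₁N C.hx⟩ : P) = e at hC hB
  have heΩ : (e : Ω) = ⁅a₁, x⁆ := by rw [← he]
  have heZ : (e : Ω) ∈ zS S := by rw [heΩ]; exact D.hcm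
  have heD : (e : Ω) ∈ dS S := by rw [heΩ]; exact cm_mem_dS (C.abi.le ha₁) hxS
  have heB : e ∈ A.subgroupOf P := C.abi.center_le heZ
  have he1 : e ≠ 1 := by
    intro h1
    apply D.cm_ne_one C.abi
    rw [← heΩ, h1]; rfl
  have hep : e ^ p = 1 := by
    apply Subtype.ext
    rw [Subgroup.coe_pow, heΩ]
    exact D.cm_pow_eq_one C.abi
  have hord : orderOf e = p := orderOf_eq_prime hep he1
  have hdec : ∀ w : P, w ∈ A.subgroupOf P → ∃ i : ℕ, ∃ c₀ : P,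
      c₀ ∈ A.subgroupOf P ⊓ (A.subgroupOf P).map g.toMonoidHom ∧ w = c₀ * e ^ i ∧
        h w = c₀ * (e ^ i)⁻¹ := by
    intro w hw
    obtain ⟨i, hi⟩ := hB w hw
    refine ⟨i, w * (e ^ i)⁻¹, hi, by group, ?_⟩
    have e1 : w = (w * (e ^ i)⁻¹) * e ^ i := by group
    conv_lhs => rw [e1]
    rw [map_mul, hA _ hi, map_pow, hC, inv_pow]
  have hBZ : ∀ w : P, w ∈ A.subgroupOf P → (w : Ω) ∈ zS S := fun w hw => C.ab_inf hab w.2 hw
  have hQ : ∀ z : P, (z : Ω) ∈ zS S → ((h z : P) : Ω) ∈ zS S := by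
    intro z hz
    obtain ⟨i, c₀, hc₀, -, hhw⟩ := hdec z (C.abi.center_le hz)
    rw [hhw]
    exact (zS S).mul_mem (hBZ c₀ hc₀.1) ((zS S).inv_mem ((zS S).pow_mem heZ i))
  obtain ⟨θ, hθ, hθh⟩ := exists_restrict_aut F hPS C.zS_le hhG hQ
  refine ⟨θ, hθ, ⟨?_, ?_⟩, ?_, ?_⟩
  · intro z
    obtain ⟨i, c₀, hc₀, hw, hhw⟩ := hdec ⟨(z : Ω), C.zS_le z.2⟩ (C.abi.center_le z.2)
    rw [hθh z, hhw]
    have hz : (z : Ω) = ((c₀ * e ^ i : P) : Ω) := congrArg Subtype.val hw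
    rw [hz]
    have e2 : c₀ * (e ^ i)⁻¹ * (c₀ * e ^ i)⁻¹ = (e ^ i)⁻¹ * (e ^ i)⁻¹ := by
      calc c₀ * (e ^ i)⁻¹ * (c₀ * e ^ i)⁻¹ = (c₀ * ((e ^ i)⁻¹ * (e ^ i)⁻¹)) * c₀⁻¹ := by group
        _ = (((e ^ i)⁻¹ * (e ^ i)⁻¹) * c₀) * c₀⁻¹ := by rw [hab c₀]
        _ = (e ^ i)⁻¹ * (e ^ i)⁻¹ := by group
    have e3 : ((c₀ * (e ^ i)⁻¹ : P) : Ω) * ((c₀ * e ^ i : P) : Ω)⁻¹ =
        ((e : Ω) ^ i)⁻¹ * ((e : Ω) ^ i)⁻¹ := congrArg Subtype.val e2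
    rw [e3]
    exact (dS S).mul_mem ((dS S).inv_mem ((dS S).pow_mem heD i))
      ((dS S).inv_mem ((dS S).pow_mem heD i))
  · intro z hz
    have hzN : (z : Ω) ∈ zS S ⊓ dS S := ⟨z.2, hz⟩
    rw [D.inf_eq C.abi, Subgroup.mem_zpowers_iff] at hzN
    obtain ⟨m, hm⟩ := hzN
    apply Subtype.ext
    rw [hθh z]
    have e1 : (⟨(z : Ω), C.zS_le z.2⟩ : P) = e ^ m := by
      apply Subtype.ext
      rw [Subgroup.coe_zpow, heΩ]; exact hm.symm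
    rw [e1, map_zpow, hC]
    show (((e⁻¹) ^ m : P) : Ω) = (z : Ω)⁻¹
    rw [inv_zpow, Subgroup.coe_inv, Subgroup.coe_zpow, heΩ, hm]
  · intro w
    constructor
    · intro hw
      refine ⟨hBZ w hw.1, ?_⟩
      apply Subtype.ext
      rw [hθh]
      exact congrArg Subtype.val (hA w hw)
    · rintro ⟨hz, hfix⟩
      obtain ⟨i, c₀, hc₀, hw, hhw⟩ := hdec w (C.abi.center_le hz)
      have h1 : h w = w := by
        apply Subtype.ext
        have := congrArg Subtype.val hfix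
        rw [hθh] at this
        exact this
      rw [hhw] at h1
      conv_rhs at h1 => rw [hw]
      have h2 : (e ^ i)⁻¹ = e ^ i := mul_left_cancel h1
      have h3 : e ^ (2 * i) = 1 := by
        rw [two_mul, pow_add]
        nth_rewrite 1 [← h2]
        exact inv_mul_cancel _
      have h4 : p ∣ 2 * i := by rw [← hord]; exact orderOf_dvd_of_pow_eq_one h3
      have h5 : p ∣ i := by
        rcases (Fact.out : p.Prime).dvd_mul.mp h4 with h | h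
        · exact absurd ((Nat.prime_dvd_prime_iff_eq Fact.out Nat.prime_two).mp h) hp2
        · exact h
      have h6 : e ^ i = 1 := by
        rw [← hord] at h5
        exact orderOf_dvd_iff_pow_eq_one.mp h5
      rw [hw, h6, mul_one]
      exact hc₀
  · intro z
    obtain ⟨i, hi⟩ := hB ⟨(z : Ω), C.zS_le z.2⟩ (C.abi.center_le z.2)
    refine ⟨⟨(e : Ω), heZ⟩ ^ i, ?_, ?_⟩
    · rw [Subgroup.coe_pow]; exact (dS S).pow_mem heD i
    · apply Subtype.ext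
      rw [hθh]
      have e1 : (⟨((z * (⟨(e : Ω), heZ⟩ ^ i)⁻¹ : zS S) : Ω),
          C.zS_le (z * (⟨(e : Ω), heZ⟩ ^ i)⁻¹ : zS S).2⟩ : P) =
          ⟨(z : Ω), C.zS_le z.2⟩ * (e ^ i)⁻¹ := by
        apply Subtype.ext
        simp
      rw [e1, hA _ hi]
      simp

end Ctx

end Cfsg.Agent.Helper84
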