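import Mathlib
import Cfsg.Prelude.Def_FusionSystem
import Cfsg.Agent.Helper84.AbIdxG

/-!
# Oliver's theorem: core-free saturated fusion systems over a nonabelian `p`-group (`p` odd) with
an abelian subgroup `A` of index `p` which is not essential
-/

set_option autoImplicit false

namespace Cfsg.Agent.Helper84

open Cfsg Cfsg.FusionSystem Subgroup
open scoped commutatorElement

variable {Ω : Type*} [Group Ω] {S : Subgroup Ω}

/-- The fixed points of an automorphism. -/
def fixSub {Q : Type*} [Group Q] (θ : MulAut Q) : Subgroup Q where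
  carrier := {z | θ z = z}
  mul_mem' := fun {a b} ha hb => by
    show θ (a * b) = a * b
    rw [map_mul, show θ a = a from ha, show θ b = b from hb]
  one_mem' := map_one θ
  inv_mem' := fun {a} ha => by
    show θ a⁻¹ = a⁻¹
    rw [map_inv, show θ a = a from ha]

theorem mem_fixZ {θ : MulAut (zS S)} {w : Ω} :
    w ∈ (fixSub θ).map (zS S).subtype ↔ ∃ hz : w ∈ zS S, θ ⟨w, hz⟩ = ⟨w, hz⟩ := by
  constructor
  · rintro ⟨z, hz, rfl⟩
    exact ⟨z.2, hz⟩
  · rintro ⟨hz, hf⟩
    exact ⟨⟨w, hz⟩, hf, rfl⟩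

theorem aut_center_S (α : MulAut S) {w : S} (hw : (w : Ω) ∈ zS S) : ((α w : S) : Ω) ∈ zS S := by
  refine mem_zS.mpr ⟨(α w).2, fun s hs => ?_⟩
  have h1 : (α⁻¹ ⟨s, hs⟩ : S) * w = w * α⁻¹ ⟨s, hs⟩ :=
    Subtype.ext ((mem_zS.mp hw).2 _ (α⁻¹ ⟨s, hs⟩).2)
  have h2 := congrArg α h1
  rw [map_mul, map_mul] at h2
  have h3 : α (α⁻¹ ⟨s, hs⟩) = ⟨s, hs⟩ := by simp
  rw [h3] at h2
  exact congrArg Subtype.val h2

section Main

set_option linter.unusedSectionVars false

variable [Finite S] {p : ℕ} [Fact p.Prime] {A : Subgroup Ω}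

theorem AbI.zS_ne_bot (h : AbI p S A) : zS S ≠ ⊥ := by
  obtain ⟨s, hs, t, ht, hst⟩ := h.nab
  have : Nontrivial ↥S := ⟨⟨⟨s, hs⟩, 1, fun h1 => hst (by
    have : s = 1 := congrArg Subtype.val h1
    rw [this]; simp)⟩⟩
  have hc := h.pS.center_nontrivial
  obtain ⟨z, hz⟩ := exists_ne (1 : Subgroup.center ↥S)
  intro hbot
  apply hz
  have hzm : ((z : S) : Ω) ∈ zS S := mem_zS.mpr ⟨(z : S).2, fun s' hs' => by
    have := Subgroup.mem_center_iff.mp z.2 ⟨s', hs'⟩
    exact congrArg Subtype.val this⟩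
  rw [hbot, Subgroup.mem_bot] at hzm
  exact Subtype.ext (Subtype.ext hzm)

/-- If `O_p(F) = 1` and `A` is not essential, some abelian essential subgroup exists. -/
theorem exists_ab_essCtx (hS : IsPGroup p S) (F : FusionSystem S) (hF : F.IsSaturated p)
    (h : AbI p S A) (hcore : F.core = ⊥) (hAe : ¬ F.IsEssential p A) :
    ∃ (P : Subgroup Ω) (x : Ω) (M : Subgroup (MulAut P)),
      EssCtx p F A P x M ∧ F.IsEssential p P ∧ ∀ u v : P, u * v = v * u := by
  by_contra hno
  apply h.zS_ne_bot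
  have hnorm : F.IsNormal (zS S) := by
    rw [normal_iff_essential p hS F hF]
    intro P' hP'
    rcases hP' with hPS | hess
    · rw [hPS]
      exact ⟨zS_le_S, fun α hα =>
        map_eq_of_forall_mem (F.autGroup S) _ (fun α _ w hw => aut_center_S α hw) hα⟩
    · have hPA : P' ≠ A := fun hh => hAe (hh ▸ hess)
      obtain ⟨x, M, C⟩ := exists_essCtx F hF h hess hPA
      have hnab : ¬ ∀ u v : P', u * v = v * u := fun hab => hno ⟨P', x, M, C, hess, hab⟩
      exact ⟨C.zS_le, fun α hα =>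
        map_eq_of_forall_mem (F.autGroup P') _ (fun α _ w hw => C.aut_zS hnab α hw) hα⟩
  have : zS S ≤ F.core := le_sSup hnorm
  rw [hcore] at this
  exact le_bot_iff.mp this

/-- **Oliver.** -/
theorem oliver_core_free (hp : p ≠ 2) (hS : IsPGroup p S) (F : FusionSystem S)
    (hF : F.IsSaturated p) (h : AbI p S A) (hcore : F.core = ⊥) (hAe : ¬ F.IsEssential p A) :
    (∃ x ∈ S, x ∉ A ∧ F.IsEssential p (zS S ⊔ Subgroup.zpowers x)) ∧ zS S ≤ dS S ∧
      ∀ n : ℕ, Nat.card S = p ^ n → 3 ≤ n → Subgroup.lowerCentralSeries S (n - 2) ≠ ⊥ := by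
  obtain ⟨P, x, M, C, hess, hab⟩ := exists_ab_essCtx hS F hF h hcore hAe
  have : Finite (zS S) := finite_of_le zS_le_S
  obtain ⟨a₁, D⟩ := C.essData
  have hcard := D.inf_card h
  have hNp : ∀ n : Ω, n ∈ zS S → n ∈ dS S → n ^ p = 1 := by
    intro n hn1 hn2
    have h1 : (⟨n, ⟨hn1, hn2⟩⟩ : ↥(zS S ⊓ dS S)) ^ p = 1 := by
      rw [← hcard]; exact pow_card_eq_one'
    exact congrArg Subtype.val h1
  obtain ⟨g₀, hG₀, -⟩ := C.exists_good_ne
  obtain ⟨θ, hθ, hinv, hfix, hdec⟩ := C.exists_invAut hp hab hG₀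
  have hβ : ∀ β ∈ F.autGroup (zS S), ∀ z : zS S, θ z = z → θ (β z) = β z :=
    fun β hβ z hz => isInvAut_fix hS F hF hNp hθ hβ hinv hz
  have hnorm : F.IsNormal ((fixSub θ).map (zS S).subtype) := by
    rw [normal_iff_essential p hS F hF]
    intro P' hP'
    have hcase : ∀ (_ : P' ≤ S) (_ : zS S ≤ P'),
        (∀ (α : MulAut P') (z : P'), (z : Ω) ∈ zS S → ((α z : P') : Ω) ∈ zS S) →
        ((fixSub θ).map (zS S).subtype ≤ P' ∧ ∀ α ∈ F.autGroup P',
          (((fixSub θ).map (zS S).subtype).subgroupOf P').map α.toMonoidHom =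
            ((fixSub θ).map (zS S).subtype).subgroupOf P') := by
      intro hP'S hZP' hpres
      refine ⟨(Subgroup.map_subtype_le _).trans hZP', fun α hα => ?_⟩
      refine map_eq_of_forall_mem (F.autGroup P') _ (fun α hα w hw => ?_) hα
      rw [Subgroup.mem_subgroupOf, mem_fixZ] at hw ⊢
      obtain ⟨hz, hfz⟩ := hw
      obtain ⟨β, hβm, hβα⟩ := exists_restrict_aut F hP'S hZP' hα (hpres α)
      have h1 := hβ β hβm ⟨(w : Ω), hz⟩ hfz
      have h2 : ((β ⟨(w : Ω), hz⟩ : zS S) : Ω) = ((α w : P') : Ω) := by rw [hβα]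
      have hmem : ((α w : P') : Ω) ∈ zS S := h2 ▸ (β ⟨(w : Ω), hz⟩).2
      have e : β ⟨(w : Ω), hz⟩ = ⟨((α w : P') : Ω), hmem⟩ := Subtype.ext h2
      refine ⟨hmem, ?_⟩
      rw [← e]; exact h1
    rcases hP' with hPS | hess'
    · subst hPS
      exact hcase le_rfl zS_le_S (fun α z hz => aut_center_S α hz)
    · have hPA : P' ≠ A := fun hh => hAe (hh ▸ hess')
      obtain ⟨x', M', C'⟩ := exists_essCtx F hF h hess' hPA
      by_cases hab' : ∀ u v : P', u * v = v * u
      · have : Finite P' := finite_of_le C'.PS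
        have key : ∀ g' : MulAut P', GoodAut F A P' M' g' → ∀ w : P',
            (w : Ω) ∈ (fixSub θ).map (zS S).subtype →
            ((g' w : P') : Ω) ∈ (fixSub θ).map (zS S).subtype := by
          intro g' hG' w hw
          obtain ⟨θ₁, hθ₁, hinv₁, hfix₁, -⟩ := C'.exists_invAut hp hab' hG'
          obtain ⟨θ₂, hθ₂, hinv₂, hfix₂, -⟩ := C'.exists_invAut hp hab' hG'.inv
          have e1 : θ₁ = θ := isInvAut_unique hS F hF hNp hθ₁ hθ hinv₁ hinv
          have e2 : θ₂ = θ := isInvAut_unique hS F hF hNp hθ₂ hθ hinv₂ hinv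
          rw [e1] at hfix₁
          rw [e2] at hfix₂
          rw [mem_fixZ] at hw ⊢
          obtain ⟨hwB, b, hb, hbw⟩ := (hfix₂ w).mpr hw
          have hgw : g' w = b := by rw [← hbw]; simp
          exact (hfix₁ (g' w)).mp ⟨by rw [hgw]; exact hb, ⟨w, hwB, rfl⟩⟩
        refine ⟨(Subgroup.map_subtype_le _).trans C'.zS_le, fun α hα => ?_⟩
        refine map_eq_of_forall_mem (F.autGroup P') _ (fun α hα w hw => ?_) hα
        rw [Subgroup.mem_subgroupOf] at hw ⊢
        by_cases hαM : α ∈ M'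
        · obtain ⟨g₁, hg₁, hg₁M⟩ := C'.exists_not_mem_M
          have h1 : α * g₁ ∉ M' := fun hmem => hg₁M (by
            have e : g₁ = α⁻¹ * (α * g₁) := by group
            rw [e]; exact M'.mul_mem (M'.inv_mem hαM) hmem)
          have h2 := key g₁⁻¹ (C'.good_of_ab hab' hg₁ hg₁M).inv w hw
          have h3 := key (α * g₁) (C'.good_of_ab hab' (Subgroup.mul_mem _ hα hg₁) h1) _ h2
          have e : (α * g₁) (g₁⁻¹ w) = α w := by simp
          rw [e] at h3; exact h3
        · exact key α (C'.good_of_ab hab' hα hαM) w hw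
      · exact hcase C'.PS C'.zS_le (fun α z hz => C'.aut_zS hab' α hz)
  have hbot : (fixSub θ).map (zS S).subtype = ⊥ := by
    have : (fixSub θ).map (zS S).subtype ≤ F.core := le_sSup hnorm
    rw [hcore] at this
    exact le_bot_iff.mp this
  have hG2 : zS S ≤ dS S := by
    intro z hz
    obtain ⟨n, hn, hfn⟩ := hdec ⟨z, hz⟩
    have h1 : (((⟨z, hz⟩ : zS S) * n⁻¹ : zS S) : Ω) ∈ (fixSub θ).map (zS S).subtype :=
      ⟨_, hfn, rfl⟩
    rw [hbot, Subgroup.mem_bot] at h1
    have h2 : z * (n : Ω)⁻¹ = 1 := h1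
    have h3 : z = n := mul_inv_eq_one.mp h2
    rw [h3]; exact hn
  refine ⟨⟨x, C.PS C.hx, C.hxA, ?_⟩, hG2, ?_⟩
  · rw [← C.ab_eq hab]; exact hess
  · intro n hn h3 hbot'
    have hZcard : Nat.card (zS S) = p := by
      have : zS S ⊓ dS S = zS S := inf_eq_left.mpr hG2
      rw [this] at hcard; exact hcard
    have h4 := Subgroup.relIndex_mul_relIndex ⊥ (zS S) S bot_le zS_le_S
    rw [Subgroup.relIndex_bot_left, Subgroup.relIndex_bot_left, hZcard, hn] at h4
    have hidx : ((zS S).subgroupOf S).index = p ^ (n - 1) := by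
      have hp0 : 0 < p := (Fact.out : p.Prime).pos
      have e : p ^ n = p * p ^ (n - 1) := by rw [← pow_succ']; congr 1; omega
      rw [e] at h4
      exact Nat.eq_of_mul_eq_mul_left hp0 h4
    have hstep : ∀ k : ℕ, Subgroup.lowerCentralSeries S (k + 1) = ⊥ →
        Subgroup.lowerCentralSeries S k ≤ zS S := by
      intro k hk
      rw [Subgroup.lowerCentralSeries_succ, Subgroup.commutator_eq_bot_iff_le_centralizer] at hk
      exact le_inf ((Subgroup.lowerCentralSeries_antitone S (Nat.zero_le k)).trans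
        (le_of_eq (Subgroup.lowerCentralSeries_zero S))) hk
    have e : n - 2 = (n - 3) + 1 := by omega
    rw [e] at hbot'
    have hle := hstep _ hbot'
    rcases Nat.lt_or_ge n 4 with hlt | hge
    · have hn3 : n - 3 = 0 := by omega
      rw [hn3, Subgroup.lowerCentralSeries_zero] at hle
      obtain ⟨s, hs, t, ht, hst⟩ := h.nab
      exact hst ((mem_zS.mp (hle hs)).2 t ht).symm
    · have := D.max_class h (n - 1) hidx (by omega)
      apply this
      have e2 : n - 1 - 2 = n - 3 := by omega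
      rw [e2]; exact hle

end Main

end Cfsg.Agent.Helper84
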