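import Mathlib
import Cfsg.Prelude.Def_GeometricClasses
import Cfsg.Agent.Helper98.C3A
import Cfsg.Agent.Helper97.NotSL
import Cfsg.Agent.Helper93.TransvMax

set_option autoImplicit false
set_option linter.unusedSectionVars false
set_option linter.unusedVariables false
set_option linter.style.haveILetI false

namespace Cfsg.Agent.Helper84

open Cfsg Cfsg.Geo Matrix Module Cfsg.Agent.Helper98

section C3Concrete

universe u

variable {F : Type u} [Field F] [Fintype F] {n : ℕ}

/-- An invertible endomorphism of `F^n` is the map of an element of `GL`. -/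
theorem c3e_gl_of_end (f g : Module.End F (Fin n → F)) (h1 : f * g = 1) (h2 : g * f = 1) :
    ∃ G : GL (Fin n) F, Matrix.toLin' (G : Matrix (Fin n) (Fin n) F) = f := by
  refine ⟨⟨LinearMap.toMatrix' f, LinearMap.toMatrix' g, ?_, ?_⟩, ?_⟩
  · rw [← LinearMap.toMatrix'_mul, h1, LinearMap.toMatrix'_one]
  · rw [← LinearMap.toMatrix'_mul, h2, LinearMap.toMatrix'_one]
  · simp

theorem c3e_toLin_mul (A B : Matrix (Fin n) (Fin n) F) :
    (Matrix.toLin' (A * B) : Module.End F (Fin n → F)) = Matrix.toLin' A * Matrix.toLin' B := by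
  rw [Matrix.toLin'_mul]; rfl

theorem c3e_toLin_gl_inv (G : GL (Fin n) F) :
    (Matrix.toLin' (G : Matrix (Fin n) (Fin n) F) : Module.End F (Fin n → F)) *
      Matrix.toLin' ((G⁻¹ : GL (Fin n) F) : Matrix (Fin n) (Fin n) F) = 1 ∧
    (Matrix.toLin' ((G⁻¹ : GL (Fin n) F) : Matrix (Fin n) (Fin n) F) : Module.End F (Fin n → F)) *
      Matrix.toLin' (G : Matrix (Fin n) (Fin n) F) = 1 := by
  constructor
  · rw [← c3e_toLin_mul, ← Units.val_mul, mul_inv_cancel, Units.val_one, Matrix.toLin'_one]; rfl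
  · rw [← c3e_toLin_mul, ← Units.val_mul, inv_mul_cancel, Units.val_one, Matrix.toLin'_one]; rfl

/-- The group-like predicate attached to a subgroup of `GL`. -/
theorem c3e_C3P (M : Subgroup (GL (Fin n) F)) :
    C3P (fun f : Module.End F (Fin n → F) =>
      ∃ g ∈ M, Matrix.toLin' (g : Matrix (Fin n) (Fin n) F) = f) := by
  refine ⟨⟨1, M.one_mem, by simp; rfl⟩, ?_, ?_⟩
  · rintro f g ⟨a, ha, rfl⟩ ⟨b, hb, rfl⟩
    exact ⟨a * b, M.mul_mem ha hb, by rw [Units.val_mul, c3e_toLin_mul]⟩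
  · rintro f g ⟨a, ha, rfl⟩ h1 h2
    refine ⟨a⁻¹, M.inv_mem ha, ?_⟩
    obtain ⟨e1, e2⟩ := c3e_toLin_gl_inv a
    calc (Matrix.toLin' ((a⁻¹ : GL (Fin n) F) : Matrix (Fin n) (Fin n) F) :
          Module.End F (Fin n → F))
        = Matrix.toLin' ((a⁻¹ : GL (Fin n) F) : Matrix (Fin n) (Fin n) F) *
            (Matrix.toLin' (a : Matrix (Fin n) (Fin n) F) * g) := by rw [h1, mul_one]
      _ = g := by rw [← mul_assoc, e2, one_mul]

theorem c3e_mat_ext (A B : Matrix (Fin n) (Fin n) F) (h : ∀ v, A *ᵥ v = B *ᵥ v) : A = B := by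
  apply Matrix.toLin'.injective
  apply LinearMap.ext
  intro v
  rw [Matrix.toLin'_apply, Matrix.toLin'_apply]
  exact h v

variable (K' : Type u) [Field K'] [Algebra F K'] [Module K' (Fin n → F)]
  [IsScalarTower F K' (Fin n → F)] [Finite K']

/-- Membership in the normaliser of the image of `K'` is `K'`-semilinearity. -/
theorem c3e_mem_normalizer_iff (K : Subalgebra F (Matrix (Fin n) (Fin n) F))
    (ι : K' → Matrix (Fin n) (Fin n) F) (hι : ∀ (k : K') (v : Fin n → F), k • v = ι k *ᵥ v)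
    (hK : ∀ x, x ∈ K ↔ ∃ k, ι k = x) (G : GL (Fin n) F) :
    G ∈ subalgebraNormalizer K ↔
      c3_N K' (Matrix.toLin' (G : Matrix (Fin n) (Fin n) F) : Module.End F (Fin n → F)) := by
  have hGG : (G : Matrix (Fin n) (Fin n) F) * ((G⁻¹ : GL (Fin n) F) : Matrix (Fin n) (Fin n) F) = 1 := by
    rw [← Units.val_mul, mul_inv_cancel, Units.val_one]
  have hGG' : ((G⁻¹ : GL (Fin n) F) : Matrix (Fin n) (Fin n) F) * (G : Matrix (Fin n) (Fin n) F) = 1 := by
    rw [← Units.val_mul, inv_mul_cancel, Units.val_one]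
  constructor
  · intro hG
    rw [Helper97.mem_subalgebraNormalizer_iff] at hG
    obtain ⟨e1, e2⟩ := c3e_toLin_gl_inv G
    refine ⟨⟨_, e1, e2⟩, fun k => ?_⟩
    obtain ⟨k', hk'⟩ := (hK _).mp ((hG (ι k)).mp ((hK _).mpr ⟨k, rfl⟩))
    refine ⟨k', fun v => ?_⟩
    rw [hι k' , hk', hι k, Matrix.toLin'_apply, Matrix.toLin'_apply, Matrix.mulVec_mulVec,
      Matrix.mulVec_mulVec, mul_assoc, mul_assoc, hGG', mul_one]
  · rintro ⟨-, hs⟩
    rw [Helper97.mem_subalgebraNormalizer_iff]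
    have hconj : ∀ x ∈ K, (G : Matrix (Fin n) (Fin n) F) * x *
        ((G⁻¹ : GL (Fin n) F) : Matrix (Fin n) (Fin n) F) ∈ K := by
      intro x hx
      obtain ⟨k, rfl⟩ := (hK x).mp hx
      obtain ⟨k', hk'⟩ := hs k
      have e : (G : Matrix (Fin n) (Fin n) F) * ι k = ι k' * (G : Matrix (Fin n) (Fin n) F) := by
        apply c3e_mat_ext
        intro v
        have := hk' v
        rw [hι k', hι k, Matrix.toLin'_apply, Matrix.toLin'_apply, Matrix.mulVec_mulVec,
          Matrix.mulVec_mulVec] at this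
        exact this
      rw [e, mul_assoc, hGG, mul_one]
      exact (hK _).mpr ⟨k', rfl⟩
    intro x
    refine ⟨hconj x, fun hx => ?_⟩
    -- conjugation is an injective self-map of the finite set `K`
    have hfin : Finite K := inferInstance
    let c : K → K := fun y => ⟨_, hconj y.1 y.2⟩
    have hinj : Function.Injective c := by
      intro y z hyz
      have h1 : (G : Matrix (Fin n) (Fin n) F) * y.1 *
          ((G⁻¹ : GL (Fin n) F) : Matrix (Fin n) (Fin n) F) =
          (G : Matrix (Fin n) (Fin n) F) * z.1 *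
          ((G⁻¹ : GL (Fin n) F) : Matrix (Fin n) (Fin n) F) := congrArg Subtype.val hyz
      apply Subtype.ext
      calc y.1 = ((G⁻¹ : GL (Fin n) F) : Matrix (Fin n) (Fin n) F) *
            ((G : Matrix (Fin n) (Fin n) F) * y.1 *
              ((G⁻¹ : GL (Fin n) F) : Matrix (Fin n) (Fin n) F)) *
            (G : Matrix (Fin n) (Fin n) F) := by
              rw [← mul_assoc, ← mul_assoc, hGG', one_mul, mul_assoc, hGG', mul_one]
        _ = z.1 := by
              rw [h1, ← mul_assoc, ← mul_assoc, hGG', one_mul, mul_assoc, hGG', mul_one]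
    obtain ⟨y, hy⟩ := (Finite.injective_iff_surjective.mp hinj) ⟨_, hx⟩
    have h1 : (G : Matrix (Fin n) (Fin n) F) * y.1 *
        ((G⁻¹ : GL (Fin n) F) : Matrix (Fin n) (Fin n) F) =
        (G : Matrix (Fin n) (Fin n) F) * x *
        ((G⁻¹ : GL (Fin n) F) : Matrix (Fin n) (Fin n) F) := congrArg Subtype.val hy
    have h2 : y.1 = x := by
      calc y.1 = ((G⁻¹ : GL (Fin n) F) : Matrix (Fin n) (Fin n) F) *
            ((G : Matrix (Fin n) (Fin n) F) * y.1 *
              ((G⁻¹ : GL (Fin n) F) : Matrix (Fin n) (Fin n) F)) *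
            (G : Matrix (Fin n) (Fin n) F) := by
              rw [← mul_assoc, ← mul_assoc, hGG', one_mul, mul_assoc, hGG', mul_one]
        _ = x := by
              rw [h1, ← mul_assoc, ← mul_assoc, hGG', one_mul, mul_assoc, hGG', mul_one]
    rw [← h2]; exact y.2

/-- The determinant is onto `Fˣ` on the normaliser. -/
theorem c3e_det_surj (K : Subalgebra F (Matrix (Fin n) (Fin n) F))
    (ι : K' → Matrix (Fin n) (Fin n) F) (hι : ∀ (k : K') (v : Fin n → F), k • v = ι k *ᵥ v)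
    (hK : ∀ x, x ∈ K ↔ ∃ k, ι k = x) (hm : 1 ≤ finrank K' (Fin n → F)) (c : Fˣ) :
    ∃ h ∈ subalgebraNormalizer K, (h : Matrix (Fin n) (Fin n) F).det = c := by
  classical
  obtain ⟨k, hk⟩ := FiniteField.norm_surjective F K' (c : F)
  have hk0 : k ≠ 0 := by
    rintro rfl
    rw [Algebra.norm_zero] at hk
    exact c.ne_zero hk.symm
  haveI : Module.Finite K' (Fin n → F) := Module.Finite.of_finite
  let b := Module.finBasis K' (Fin n → F)
  let i₀ : Fin (finrank K' (Fin n → F)) := ⟨0, hm⟩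
  let D : K' → Matrix (Fin (finrank K' (Fin n → F))) (Fin (finrank K' (Fin n → F))) K' :=
    fun x => Matrix.diagonal (Function.update (fun _ => (1 : K')) i₀ x)
  have hD : ∀ x y : K', D x * D y = D (x * y) := by
    intro x y
    simp only [D, Matrix.diagonal_mul_diagonal]
    congr 1
    funext i
    by_cases hi : i = i₀
    · subst hi; simp
    · simp [Function.update_of_ne hi]
  have hD1 : D 1 = 1 := by
    simp only [D]
    rw [Function.update_eq_self_iff.mpr rfl]
    exact Matrix.diagonal_one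
  have hDdet : ∀ x : K', (D x).det = x := by
    intro x
    simp only [D, Matrix.det_diagonal]
    rw [Finset.prod_update_of_mem (Finset.mem_univ i₀)]
    simp
  let f : (Fin n → F) →ₗ[K'] (Fin n → F) := Matrix.toLin b b (D k)
  let f' : (Fin n → F) →ₗ[K'] (Fin n → F) := Matrix.toLin b b (D k⁻¹)
  have hff' : f ∘ₗ f' = LinearMap.id := by
    simp only [f, f']
    rw [← Matrix.toLin_mul b b b, hD, mul_inv_cancel₀ hk0, hD1, Matrix.toLin_one]
  have hf'f : f' ∘ₗ f = LinearMap.id := by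
    simp only [f, f']
    rw [← Matrix.toLin_mul b b b, hD, inv_mul_cancel₀ hk0, hD1, Matrix.toLin_one]
  have h1 : (f.restrictScalars F : Module.End F (Fin n → F)) * f'.restrictScalars F = 1 := by
    apply LinearMap.ext
    intro v
    have := congrArg (fun g : (Fin n → F) →ₗ[K'] (Fin n → F) => g v) hff'
    simpa using this
  have h2 : (f'.restrictScalars F : Module.End F (Fin n → F)) * f.restrictScalars F = 1 := by
    apply LinearMap.ext
    intro v
    have := congrArg (fun g : (Fin n → F) →ₗ[K'] (Fin n → F) => g v) hf'f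
    simpa using this
  obtain ⟨G, hG⟩ := c3e_gl_of_end _ _ h1 h2
  refine ⟨G, ?_, ?_⟩
  · rw [c3e_mem_normalizer_iff K' K ι hι hK, hG]
    exact c3_N_of_lin _ _ h1 h2 (fun x v => f.map_smul x v)
  · rw [← LinearMap.det_toLin', hG, LinearMap.det_restrictScalars]
    have : LinearMap.det f = k := by
      simp only [f]
      rw [LinearMap.det_toLin, hDdet]
    rw [this, hk]

/-- A subgroup containing `N ⊓ SL` and an element outside `N` contains `SL`. -/
theorem c3e_key (K : Subalgebra F (Matrix (Fin n) (Fin n) F))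
    (ι : K' → Matrix (Fin n) (Fin n) F) (hι : ∀ (k : K') (v : Fin n → F), k • v = ι k *ᵥ v)
    (hK : ∀ x, x ∈ K ↔ ∃ k, ι k = x) (hn : 2 ≤ n)
    (hmain : ∀ P : Module.End F (Fin n → F) → Prop, C3P P →
      (∀ f : Module.End F (Fin n → F), c3_N K' f → LinearMap.det f = 1 → P f) →
      (∃ f₀ g₀ : Module.End F (Fin n → F), P f₀ ∧ f₀ * g₀ = 1 ∧ g₀ * f₀ = 1 ∧ ¬ c3_N K' f₀) →
      ∀ (a : Fin n → F) (φ : (Fin n → F) →ₗ[F] F), φ a = 0 → P (1 + c3_tv φ a))
    (M : Subgroup (GL (Fin n) F))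
    (hNM : subalgebraNormalizer K ⊓ specialLinear (Fin n) F ≤ M)
    (g : GL (Fin n) F) (hgM : g ∈ M) (hgN : g ∉ subalgebraNormalizer K) :
    specialLinear (Fin n) F ≤ M := by
  haveI : Nontrivial (Fin n) := Fin.nontrivial_iff_two_le.mpr hn
  have hP := c3e_C3P M
  have hN' : ∀ f : Module.End F (Fin n → F), c3_N K' f → LinearMap.det f = 1 →
      ∃ g ∈ M, Matrix.toLin' (g : Matrix (Fin n) (Fin n) F) = f := by
    intro f hf hdet
    obtain ⟨g', h1, h2⟩ := hf.1
    obtain ⟨G, hG⟩ := c3e_gl_of_end f g' h1 h2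
    refine ⟨G, hNM ⟨?_, ?_⟩, hG⟩
    · show G ∈ subalgebraNormalizer K
      rw [c3e_mem_normalizer_iff K' K ι hι hK, hG]; exact hf
    · show G ∈ specialLinear (Fin n) F
      rw [Helper97.mem_specialLinear_iff, ← LinearMap.det_toLin', hG, hdet]
  have hex : ∃ f₀ g₀ : Module.End F (Fin n → F),
      (∃ g ∈ M, Matrix.toLin' (g : Matrix (Fin n) (Fin n) F) = f₀) ∧ f₀ * g₀ = 1 ∧
        g₀ * f₀ = 1 ∧ ¬ c3_N K' f₀ := by
    obtain ⟨e1, e2⟩ := c3e_toLin_gl_inv g
    refine ⟨_, _, ⟨g, hgM, rfl⟩, e1, e2, ?_⟩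
    rw [← c3e_mem_normalizer_iff K' K ι hι hK]; exact hgN
  apply Helper93.SL_le_of_all_tv
  intro u ψ h
  let φ : (Fin n → F) →ₗ[F] F :=
    { toFun := fun v => ψ ⬝ᵥ v
      map_add' := fun x y => dotProduct_add ψ x y
      map_smul' := fun c x => by simp [dotProduct_smul] }
  obtain ⟨g1, hg1, e⟩ := hmain _ hP hN' hex u φ h
  have : g1 = Helper93.tv u ψ h := by
    apply Units.ext
    apply c3e_mat_ext
    intro v
    rw [Helper93.tv_mulVec, ← Matrix.toLin'_apply, e]
    simp [φ]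
  rw [← this]; exact hg1

/-- The abstract form of the statement. -/
theorem c3e_core (K : Subalgebra F (Matrix (Fin n) (Fin n) F))
    (ι : K' → Matrix (Fin n) (Fin n) F) (hι : ∀ (k : K') (v : Fin n → F), k • v = ι k *ᵥ v)
    (hK : ∀ x, x ∈ K ↔ ∃ k, ι k = x) (hn : 2 ≤ n) (hm : 1 ≤ finrank K' (Fin n → F))
    (hnot : ¬ specialLinear (Fin n) F ≤ subalgebraNormalizer K)
    (hmain : ∀ P : Module.End F (Fin n → F) → Prop, C3P P →
      (∀ f : Module.End F (Fin n → F), c3_N K' f → LinearMap.det f = 1 → P f) →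
      (∃ f₀ g₀ : Module.End F (Fin n → F), P f₀ ∧ f₀ * g₀ = 1 ∧ g₀ * f₀ = 1 ∧ ¬ c3_N K' f₀) →
      ∀ (a : Fin n → F) (φ : (Fin n → F) →ₗ[F] F), φ a = 0 → P (1 + c3_tv φ a)) :
    IsCoatom (subalgebraNormalizer K) ∧
      IsMaximalIn (specialLinear (Fin n) F)
        (subalgebraNormalizer K ⊓ specialLinear (Fin n) F) := by
  constructor
  · refine ⟨fun htop => hnot (htop ▸ le_top), fun M hM => ?_⟩
    obtain ⟨g, hgM, hgN⟩ := SetLike.exists_of_lt hM
    have hSL := c3e_key K' K ι hι hK hn hmain M (inf_le_left.trans hM.le) g hgM hgN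
    rw [eq_top_iff]
    intro x _
    obtain ⟨h, hhN, hdet⟩ := c3e_det_surj K' K ι hι hK hm (Matrix.GeneralLinearGroup.det x)
    have hx : x * h⁻¹ ∈ specialLinear (Fin n) F := by
      rw [Helper97.mem_specialLinear_iff, Units.val_mul, Matrix.det_mul]
      have h1 : ((h⁻¹ : GL (Fin n) F) : Matrix (Fin n) (Fin n) F).det *
          (h : Matrix (Fin n) (Fin n) F).det = 1 := by
        rw [← Matrix.det_mul, ← Units.val_mul, inv_mul_cancel, Units.val_one, Matrix.det_one]
      have h2 : (x : Matrix (Fin n) (Fin n) F).det = (h : Matrix (Fin n) (Fin n) F).det := by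
        rw [hdet]; rfl
      rw [h2, mul_comm]; exact h1
    have : x = (x * h⁻¹) * h := by group
    rw [this]
    exact M.mul_mem (hSL hx) (hM.le hhN)
  · refine ⟨lt_of_le_of_ne inf_le_right (fun heq => hnot (heq ▸ inf_le_left)), fun M h1 h2 => ?_⟩
    by_cases hMN : M ≤ subalgebraNormalizer K
    · exact Or.inl (le_antisymm (le_inf hMN h2) h1)
    · obtain ⟨g, hgM, hgN⟩ := SetLike.not_le_iff_exists.mp hMN
      exact Or.inr (le_antisymm h2 (c3e_key K' K ι hι hK hn hmain M h1 g hgM hgN))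

theorem c3e_rank : finrank F K' * finrank K' (Fin n → F) = n := by
  rw [Module.finrank_mul_finrank, Module.finrank_fin_fun]

/-- The statement for an abstract field `K'` acting through matrices. -/
theorem c3e_final (K : Subalgebra F (Matrix (Fin n) (Fin n) F))
    (ι : K' → Matrix (Fin n) (Fin n) F) (hι : ∀ (k : K') (v : Fin n → F), k • v = ι k *ᵥ v)
    (hK : ∀ x, x ∈ K ↔ ∃ k, ι k = x) (r : ℕ) (hr : r.Prime) (hfr : finrank F K' = r)
    (hrn : r ∣ n) (hlt : r < n)
    (hinv : ∀ x ∈ K, x ≠ 0 → ∃ y ∈ K, x * y = 1)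
    (hnsc : ¬ ∀ k ∈ K, ∃ c : F, k = c • (1 : Matrix (Fin n) (Fin n) F))
    (hmain : (finrank F K').Prime → 2 ≤ finrank K' (Fin n → F) →
      ∀ P : Module.End F (Fin n → F) → Prop, C3P P →
      (∀ f : Module.End F (Fin n → F), c3_N K' f → LinearMap.det f = 1 → P f) →
      (∃ f₀ g₀ : Module.End F (Fin n → F), P f₀ ∧ f₀ * g₀ = 1 ∧ g₀ * f₀ = 1 ∧ ¬ c3_N K' f₀) →
      ∀ (a : Fin n → F) (φ : (Fin n → F) →ₗ[F] F), φ a = 0 → P (1 + c3_tv φ a)) :
    IsCoatom (subalgebraNormalizer K) ∧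
      IsMaximalIn (specialLinear (Fin n) F)
        (subalgebraNormalizer K ⊓ specialLinear (Fin n) F) := by
  have hr2 := hr.two_le
  have hrank := c3e_rank (F := F) (n := n) K'
  rw [hfr] at hrank
  obtain ⟨m, hm⟩ := hrn
  have hm' : finrank K' (Fin n → F) = m := by
    have : r * finrank K' (Fin n → F) = r * m := by rw [hrank, hm]
    exact Nat.eq_of_mul_eq_mul_left hr.pos this
  have hm2 : 2 ≤ m := by
    rcases Nat.lt_or_ge m 2 with h | h
    · interval_cases m
      · omega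
      · omega
    · exact h
  have hn3 : 3 ≤ n := by
    have : 2 * 2 ≤ r * m := Nat.mul_le_mul hr2 hm2
    omega
  have hnot := Helper97.notSL_fieldNormalizer hn3 K hinv hnsc
  exact c3e_core K' K ι hι hK (by omega) (by omega) hnot
    (hmain (hfr ▸ hr) (by omega))

/-- PIECE E of the call for S5886: the concrete wrapper. -/
theorem c3_concrete {F : Type u} [Field F] [Fintype F] (n r : ℕ) (hr : r.Prime) (hrn : r ∣ n)
    (hlt : r < n) (K : Subalgebra F (Matrix (Fin n) (Fin n) F))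
    (hK : Cfsg.Geo.IsFieldSubalgebra r K)
    (hmain : ∀ (K' : Type u) [Field K'] [Algebra F K'] [Module K' (Fin n → F)]
      [IsScalarTower F K' (Fin n → F)] [Finite K'], (finrank F K').Prime →
      2 ≤ finrank K' (Fin n → F) → ∀ P : Module.End F (Fin n → F) → Prop, C3P P →
      (∀ f : Module.End F (Fin n → F), c3_N K' f → LinearMap.det f = 1 → P f) →
      (∃ f₀ g₀ : Module.End F (Fin n → F), P f₀ ∧ f₀ * g₀ = 1 ∧ g₀ * f₀ = 1 ∧ ¬ c3_N K' f₀) →
      ∀ (a : Fin n → F) (φ : (Fin n → F) →ₗ[F] F), φ a = 0 → P (1 + c3_tv φ a)) :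
    IsCoatom (Cfsg.Geo.subalgebraNormalizer K) ∧
      Cfsg.Geo.IsMaximalIn (Cfsg.Geo.specialLinear (Fin n) F)
        (Cfsg.Geo.subalgebraNormalizer K ⊓ Cfsg.Geo.specialLinear (Fin n) F) := by
  classical
  have hr2 := hr.two_le
  haveI hnt : Nontrivial K :=
    Module.nontrivial_of_finrank_pos (R := F) (by rw [hK.finrank_eq]; exact hr.pos)
  have hfield : IsField K :=
    ⟨exists_pair_ne K, fun x y => Subtype.ext (hK.comm x.1 x.2 y.1 y.2), fun {a} ha => by
      obtain ⟨y, hy, hxy⟩ := hK.inv a.1 a.2 (fun h => ha (Subtype.ext h))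
      exact ⟨⟨y, hy⟩, Subtype.ext hxy⟩⟩
  let iF : Field K := hfield.toField
  let iA : Algebra F K := Subalgebra.algebra K
  let iM : Module K (Fin n → F) := Module.compHom (Fin n → F)
    ((Matrix.toLinAlgEquiv' : Matrix (Fin n) (Fin n) F ≃ₐ[F] Module.End F (Fin n → F)).toAlgHom.toRingHom.comp
      K.val.toRingHom)
  have hsmul : ∀ (k : K) (v : Fin n → F), @HSMul.hSMul K (Fin n → F) (Fin n → F)
      (@instHSMul K (Fin n → F) iM.toSMul) k v = k.1 *ᵥ v := fun k v => rfl
  have iT : @IsScalarTower F K (Fin n → F) iA.toSMul iM.toSMul _ := by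
    refine @IsScalarTower.mk F K (Fin n → F) iA.toSMul iM.toSMul _ ?_
    intro c k v
    rw [hsmul, hsmul]
    exact Matrix.smul_mulVec c k.1 v
  have iFin : Finite K := inferInstance
  have hnsc : ¬ ∀ k ∈ K, ∃ c : F, k = c • (1 : Matrix (Fin n) (Fin n) F) := by
    intro hall
    have h1 : Module.finrank F K ≤ 1 := by
      apply finrank_le_one (1 : K)
      intro w
      obtain ⟨c, hc⟩ := hall w.1 w.2
      exact ⟨c, Subtype.ext hc.symm⟩
    rw [hK.finrank_eq] at h1
    omega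
  exact @c3e_final F _ _ n K iF iA iM iT iFin K (fun k => k.1) hsmul
    (fun x => ⟨fun hx => ⟨⟨x, hx⟩, rfl⟩, fun ⟨k, hk⟩ => hk ▸ k.2⟩) r hr hK.finrank_eq hrn hlt
    hK.inv hnsc (@hmain K iF iA iM iT iFin)

end C3Concrete

end Cfsg.Agent.Helper84
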