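import Mathlib
import Cfsg.Agent.Helper95.G2SylDefs

set_option autoImplicit false

namespace Cfsg.Agent.Helper84.G2SPairs

open Matrix Cfsg.Agent.Helper95.G2Syl

variable {F : Type*} [Field F]

/-- the linear functional `b ↦ a · b` on `F³` -/
def dot3 (a : Fin 3 → F) : (Fin 3 → F) →ₗ[F] F where
  toFun b := a 0 * b 0 + a 1 * b 1 + a 2 * b 2
  map_add' b b' := by simp only [Pi.add_apply]; ring
  map_smul' t b := by simp only [Pi.smul_apply, smul_eq_mul, RingHom.id_apply]; ring

theorem dot3_apply (a b : Fin 3 → F) : dot3 a b = a 0 * b 0 + a 1 * b 1 + a 2 * b 2 := rfl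

theorem dot3_surjective (a : Fin 3 → F) (ha : a ≠ 0) : Function.Surjective (dot3 a) := by
  classical
  obtain ⟨i, hi⟩ : ∃ i, a i ≠ 0 := by
    by_contra hcon
    apply ha
    funext i
    by_contra hi
    exact hcon ⟨i, hi⟩
  have h1 : dot3 a (Pi.single i 1) = a i := by
    rw [dot3_apply]
    fin_cases i <;> simp
  intro t
  refine ⟨(t / a i) • Pi.single i 1, ?_⟩
  rw [map_smul, h1, smul_eq_mul, div_mul_cancel₀ _ hi]

theorem card_fibre [Fintype F] (a : Fin 3 → F) (ha : a ≠ 0) (c : F) :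
    Nat.card {b : Fin 3 → F // dot3 a b = c} = Fintype.card F ^ 2 := by
  obtain ⟨b₀, hb₀⟩ := dot3_surjective a ha c
  have e : {b : Fin 3 → F // dot3 a b = c} ≃ LinearMap.ker (dot3 a) :=
    { toFun := fun b => ⟨b.1 - b₀, by
        rw [LinearMap.mem_ker, map_sub, b.2, hb₀, sub_self]⟩
      invFun := fun k => ⟨k.1 + b₀, by
        rw [map_add, LinearMap.mem_ker.1 k.2, zero_add, hb₀]⟩
      left_inv := fun b => by simp
      right_inv := fun k => by simp }
  rw [Nat.card_congr e]
  have hfin : Module.finrank F (LinearMap.ker (dot3 a)) = 2 := by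
    have h1 := LinearMap.finrank_range_add_finrank_ker (dot3 a)
    rw [LinearMap.range_eq_top.2 (dot3_surjective a ha), finrank_top, Module.finrank_self,
      Module.finrank_fin_fun] at h1
    omega
  rw [Module.natCard_eq_pow_finrank (K := F) (V := LinearMap.ker (dot3 a)), hfin,
    Nat.card_eq_fintype_card]

theorem card_pairs_aux [Fintype F] [DecidableEq F] (c : F) :
    Nat.card {p : (Fin 3 → F) × (Fin 3 → F) //
        p.1 0 * p.2 0 + p.1 1 * p.2 1 + p.1 2 * p.2 2 = c} =
      (if c = 0 then Fintype.card F ^ 3 else 0) +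
        (Fintype.card F ^ 3 - 1) * Fintype.card F ^ 2 := by
  have e : {p : (Fin 3 → F) × (Fin 3 → F) //
        p.1 0 * p.2 0 + p.1 1 * p.2 1 + p.1 2 * p.2 2 = c} ≃
      Σ a : Fin 3 → F, {b : Fin 3 → F // dot3 a b = c} :=
    { toFun := fun p => ⟨p.1.1, ⟨p.1.2, p.2⟩⟩
      invFun := fun s => ⟨(s.1, s.2.1), s.2.2⟩
      left_inv := fun p => rfl
      right_inv := fun s => rfl }
  rw [Nat.card_congr e, Nat.card_sigma,
    ← Finset.add_sum_erase Finset.univ _ (Finset.mem_univ (0 : Fin 3 → F))]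
  congr 1
  · by_cases hc : c = 0
    · rw [if_pos hc]
      have e0 : {b : Fin 3 → F // dot3 (0 : Fin 3 → F) b = c} ≃ (Fin 3 → F) :=
        { toFun := fun b => b.1
          invFun := fun b => ⟨b, by rw [hc, dot3_apply]; simp⟩
          left_inv := fun b => rfl
          right_inv := fun b => rfl }
      rw [Nat.card_congr e0, Nat.card_eq_fintype_card]
      simp
    · rw [if_neg hc]
      have : IsEmpty {b : Fin 3 → F // dot3 (0 : Fin 3 → F) b = c} := by
        refine ⟨fun b => hc ?_⟩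
        have h := b.2
        rw [dot3_apply] at h
        rw [← h]
        simp
      exact Nat.card_of_isEmpty
  · rw [Finset.sum_congr rfl (fun a ha => card_fibre a (Finset.ne_of_mem_erase ha) c),
      Finset.sum_const, Finset.card_erase_of_mem (Finset.mem_univ _), Finset.card_univ,
      smul_eq_mul]
    congr 2
    simp

/-- PIECE PAIRS (S4632) -/
theorem g2_card_pairs [Fintype F] (c : F) :
    (c = 0 → Nat.card {p : (Fin 3 → F) × (Fin 3 → F) //
        p.1 0 * p.2 0 + p.1 1 * p.2 1 + p.1 2 * p.2 2 = c} =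
      Fintype.card F ^ 5 + Fintype.card F ^ 3 - Fintype.card F ^ 2) ∧
    (c ≠ 0 → Nat.card {p : (Fin 3 → F) × (Fin 3 → F) //
        p.1 0 * p.2 0 + p.1 1 * p.2 1 + p.1 2 * p.2 2 = c} =
      Fintype.card F ^ 5 - Fintype.card F ^ 2) := by
  classical
  have hq : 1 ≤ Fintype.card F := Fintype.card_pos
  have h3 : 1 ≤ Fintype.card F ^ 3 := Nat.one_le_pow _ _ hq
  have h5 : (Fintype.card F ^ 3 - 1) * Fintype.card F ^ 2 =
      Fintype.card F ^ 5 - Fintype.card F ^ 2 := by
    rw [Nat.sub_mul, one_mul, ← pow_add]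
  have h52 : Fintype.card F ^ 2 ≤ Fintype.card F ^ 5 := Nat.pow_le_pow_right hq (by norm_num)
  constructor
  · intro hc
    rw [card_pairs_aux, if_pos hc, h5]
    omega
  · intro hc
    rw [card_pairs_aux, if_neg hc, h5, zero_add]

end Cfsg.Agent.Helper84.G2SPairs
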