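import Mathlib
import Cfsg.Agent.Helper95.G2SylDefs
import Cfsg.Agent.Helper5.SLCard
import Cfsg.Agent.Helper37.SpSyl2

set_option autoImplicit false

namespace Cfsg.Agent.Helper84.G2SQsqB

open Matrix Cfsg.Agent.Helper95.G2Syl

variable {F : Type*} [Field F]

/-- PIECE QSQB (S4632) -/
theorem g2_sl2_sylow_of_gl2 [Fintype F] (hF : Odd (Fintype.card F))
    (D : Subgroup (GL (Fin 2) F)) (hD : IsPGroup 2 D)
    (hcard : Nat.card D =
      2 ^ (padicValNat 2 (Fintype.card F ^ 2 - 1) + padicValNat 2 (Fintype.card F - 1)))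
    (hker : Nat.card D ≤ Nat.card (D.comap Matrix.SpecialLinearGroup.toGL) *
      2 ^ padicValNat 2 (Fintype.card F - 1)) :
    (2 ^ padicValNat 2 (Fintype.card F ^ 2 - 1) ≤ Nat.card (D.comap Matrix.SpecialLinearGroup.toGL)) ∧
    ∃ R : Sylow 2 (Matrix.SpecialLinearGroup (Fin 2) F),
      (R : Subgroup (Matrix.SpecialLinearGroup (Fin 2) F)) = D.comap Matrix.SpecialLinearGroup.toGL := by
  classical
  have h1 : 2 ^ padicValNat 2 (Fintype.card F ^ 2 - 1) ≤
      Nat.card (D.comap Matrix.SpecialLinearGroup.toGL) := by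
    rw [hcard, pow_add] at hker
    exact Nat.le_of_mul_le_mul_right hker (by positivity)
  refine ⟨h1, ?_⟩
  have hQ : IsPGroup 2 (D.comap (Matrix.SpecialLinearGroup.toGL (n := Fin 2) (R := F))) :=
    hD.comap_of_injective _ Matrix.SpecialLinearGroup.toGL_injective
  have hq1 : 1 < Fintype.card F := Fintype.one_lt_card
  have hq0 : Fintype.card F ≠ 0 := by omega
  have hq2 : Fintype.card F ^ 2 - 1 ≠ 0 := by
    have : 1 < Fintype.card F ^ 2 := Nat.one_lt_pow (by norm_num) hq1
    omega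
  have hfac : (Nat.card (Matrix.SpecialLinearGroup (Fin 2) F)).factorization 2 =
      padicValNat 2 (Fintype.card F ^ 2 - 1) := by
    rw [Cfsg.Agent.Helper5.card_SL2, Nat.factorization_def _ Nat.prime_two]
    have : Fact (Nat.Prime 2) := ⟨Nat.prime_two⟩
    rw [padicValNat.mul hq0 hq2]
    have h0 : padicValNat 2 (Fintype.card F) = 0 := by
      apply padicValNat.eq_zero_of_not_dvd
      rw [Nat.two_dvd_ne_zero]
      exact Nat.odd_iff.1 hF
    rw [h0, zero_add]
  apply Cfsg.Agent.Helper37.sylow_of_card_ge _ hQ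
  rw [hfac]
  exact h1

end Cfsg.Agent.Helper84.G2SQsqB
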