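-- helper84: PIECE GD of helper50's CALL S3050 (Higman): descent of a monoid-valued action along a
-- surjective homomorphism.
import Mathlib
import Cfsg.Agent.Helper50.HigDefs

set_option autoImplicit false

namespace Cfsg.Agent.Helper84.HigGD

open Cfsg.Agent.Helper5 Cfsg.Agent.Helper50.Hig

/-- PIECE GD -/
theorem exists_descent {G H R : Type*} [Group G] [Group H] [Monoid R] (π : G →* H)
    (hπ : Function.Surjective π) (act : G →* R) (hker : ∀ g, π g = 1 → act g = 1) :
    ∃ ρ : H →* R, ∀ g, ρ (π g) = act g := by
  have key : ∀ g g' : G, π g = π g' → act g = act g' := by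
    intro g g' h
    have h1 : π (g⁻¹ * g') = 1 := by rw [map_mul, map_inv, h, inv_mul_cancel]
    have h2 := hker _ h1
    have h3 : act g' = act g * act (g⁻¹ * g') := by rw [← map_mul, mul_inv_cancel_left]
    rw [h3, h2, mul_one]
  have hs : ∀ h : H, π (Function.surjInv hπ h) = h := Function.surjInv_eq hπ
  refine ⟨{ toFun := fun h => act (Function.surjInv hπ h), map_one' := ?_, map_mul' := ?_ }, ?_⟩
  · exact hker _ (hs 1)
  · intro a b
    rw [← map_mul]
    apply key
    rw [hs, map_mul, hs, hs]
  · intro g
    exact key _ _ (hs (π g))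

end Cfsg.Agent.Helper84.HigGD
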