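import Mathlib
import Cfsg.Agent.Helper50.HigDefs

set_option autoImplicit false

namespace Cfsg.Agent.Helper84.HigMTaCore

open Cfsg.Agent.Helper5 Cfsg.Agent.Helper50.Hig

/-- a pair of linear maps `a`, `b` with `a² = 0 = b²`, `ab + ba = 1` on a finite module over a
field: a basis of `ker a` and its image under `b` form a basis. -/
theorem frames_of_module {K : Type*} [Field K] {M : Type*} [AddCommGroup M] [Module K M]
    [Finite M] (a b : M →ₗ[K] M) (haa : ∀ m, a (a m) = 0)
    (hab : ∀ m, a (b m) + b (a m) = m) :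
    ∃ (k : ℕ) (v : Fin k → M), (∀ i, a (v i) = 0) ∧
      (∀ m : M, ∃ x y : Fin k → K, m = ∑ i, (x i • v i + y i • b (v i))) ∧
      (∀ x y : Fin k → K, ∑ i, (x i • v i + y i • b (v i)) = 0 → x = 0 ∧ y = 0) := by
  classical
  have : Module.Finite K (LinearMap.ker a) := Module.Finite.of_finite
  let bs := Module.finBasis K (LinearMap.ker a)
  have hv0 : ∀ i, a (bs i : M) = 0 := fun i => LinearMap.mem_ker.1 (bs i).2
  have habv : ∀ i, a (b (bs i : M)) = (bs i : M) := by
    intro i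
    have h := hab (bs i : M)
    rw [hv0 i, map_zero, add_zero] at h
    exact h
  have hrep : ∀ (m : M) (hm : m ∈ LinearMap.ker a),
      ∑ i, bs.repr ⟨m, hm⟩ i • (bs i : M) = m := by
    intro m hm
    have h := bs.sum_repr ⟨m, hm⟩
    have h' : ((∑ i, bs.repr ⟨m, hm⟩ i • bs i : LinearMap.ker a) : M) = m :=
      congrArg Subtype.val h
    rw [Submodule.coe_sum] at h'
    simpa only [Submodule.coe_smul] using h'
  have hli : ∀ x : Fin (Module.finrank K (LinearMap.ker a)) → K,
      ∑ i, x i • (bs i : M) = 0 → x = 0 := by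
    intro x hx
    have h : ∑ i, x i • bs i = 0 := by
      apply Subtype.ext
      simpa using hx
    funext i
    exact Fintype.linearIndependent_iff.1 bs.linearIndependent x h i
  refine ⟨Module.finrank K (LinearMap.ker a), fun i => (bs i : M), hv0, ?_, ?_⟩
  · intro m
    have h1 : a (b m) ∈ LinearMap.ker a := LinearMap.mem_ker.2 (haa (b m))
    have h2 : a m ∈ LinearMap.ker a := LinearMap.mem_ker.2 (haa m)
    refine ⟨fun i => bs.repr ⟨a (b m), h1⟩ i, fun i => bs.repr ⟨a m, h2⟩ i, ?_⟩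
    rw [Finset.sum_add_distrib, hrep _ h1]
    have h3 : ∑ i, bs.repr ⟨a m, h2⟩ i • b (bs i : M) = b (a m) := by
      conv_rhs => rw [← hrep _ h2]
      rw [map_sum]
      refine Finset.sum_congr rfl fun i _ => ?_
      rw [map_smul]
    rw [h3]
    exact (hab m).symm
  · intro x y h
    have hy : ∑ i, y i • (bs i : M) = 0 := by
      have h' := congrArg a h
      rw [map_zero, map_sum] at h'
      rw [← h']
      refine Finset.sum_congr rfl fun i _ => ?_
      rw [map_add, map_smul, map_smul, hv0 i, smul_zero, zero_add, habv i]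
    have hy0 := hli y hy
    refine ⟨?_, hy0⟩
    apply hli
    rw [← h]
    refine Finset.sum_congr rfl fun i _ => ?_
    rw [hy0]
    simp

/-- PIECE MTa (S3050) with the conclusion of NF (for the given `ρ`) as a hypothesis. -/
theorem exists_frames_core {K : Type*} [Field K] [Fintype K] [CharP K 2] {M : Type*}
    [AddCommGroup M] [Finite M] (ρ : SL2 K →* AddMonoid.End M)
    (hNF : (ρ (uSL 1) + 1) * (ρ (uSL 1) + 1) = 0 ∧ (ρ (lSL 1) + 1) * (ρ (lSL 1) + 1) = 0 ∧
      (ρ (uSL 1) + 1) * (ρ (lSL 1) + 1) + (ρ (lSL 1) + 1) * (ρ (uSL 1) + 1) = 1 ∧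
      ∃ Qf : K → AddMonoid.End M, (∀ s, Qf s * (ρ (uSL 1) + 1) = (ρ (uSL 1) + 1) * Qf s) ∧
        (∀ s, Qf s * (ρ (lSL 1) + 1) = (ρ (lSL 1) + 1) * Qf s) ∧ Qf 1 = 1 ∧
        (∀ s t, Qf (s + t) = Qf s + Qf t) ∧ (∀ s t, Qf (s * t) = Qf s * Qf t) ∧
        (∀ s, ρ (uSL s) = 1 + Qf s * (ρ (uSL 1) + 1)) ∧
        (∀ s, ρ (lSL s) = 1 + Qf s * (ρ (lSL 1) + 1))) :
    ∃ (k : ℕ) (lam mu : Fin k → K →+ M),
      (∀ m : M, ∃ x y : Fin k → K, m = ∑ i, (lam i (x i) + mu i (y i))) ∧
      (∀ x y : Fin k → K, ∑ i, (lam i (x i) + mu i (y i)) = 0 → x = 0 ∧ y = 0) ∧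
      (∀ i t a, ρ (uSL t) (lam i a) = lam i a) ∧
      (∀ i t b, ρ (uSL t) (mu i b) = mu i b + lam i (t * b)) ∧
      (∀ i s a, ρ (lSL s) (lam i a) = lam i a + mu i (s * a)) ∧
      (∀ i s b, ρ (lSL s) (mu i b) = mu i b) := by
  obtain ⟨haa, hbb, hab, Qf, hQa, hQb, hQ1, hQadd, hQmul, hU, hL⟩ := hNF
  have hQ0 : Qf 0 = 0 := by
    have h := hQadd 0 0
    rw [add_zero] at h
    exact left_eq_add.1 h
  let QfHom : K →+* AddMonoid.End M :=
    { toFun := Qf, map_one' := hQ1, map_mul' := hQmul, map_zero' := hQ0, map_add' := hQadd }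
  let _ : Module K M := Module.compHom M QfHom
  have hsm : ∀ (s : K) (m : M), s • m = Qf s m := fun _ _ => rfl
  let aL : M →ₗ[K] M :=
    { toFun := fun m => (ρ (uSL 1) + 1) m
      map_add' := fun m n => map_add _ m n
      map_smul' := fun s m => by
        rw [hsm, hsm]
        exact (DFunLike.congr_fun (hQa s) m).symm }
  let bL : M →ₗ[K] M :=
    { toFun := fun m => (ρ (lSL 1) + 1) m
      map_add' := fun m n => map_add _ m n
      map_smul' := fun s m => by
        rw [hsm, hsm]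
        exact (DFunLike.congr_fun (hQb s) m).symm }
  have haL : ∀ m, aL m = (ρ (uSL 1) + 1) m := fun _ => rfl
  have hbL : ∀ m, bL m = (ρ (lSL 1) + 1) m := fun _ => rfl
  have haa' : ∀ m, aL (aL m) = 0 := fun m => DFunLike.congr_fun haa m
  have hbb' : ∀ m, bL (bL m) = 0 := fun m => DFunLike.congr_fun hbb m
  have hab' : ∀ m, aL (bL m) + bL (aL m) = m := fun m => DFunLike.congr_fun hab m
  have hU' : ∀ (s : K) (m : M), ρ (uSL s) m = m + s • aL m := by
    intro s m
    rw [hU s]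
    rfl
  have hL' : ∀ (s : K) (m : M), ρ (lSL s) m = m + s • bL m := by
    intro s m
    rw [hL s]
    rfl
  obtain ⟨k, v, hv0, hsurj, hinj⟩ := frames_of_module aL bL haa' hab'
  have habv : ∀ i, aL (bL (v i)) = v i := by
    intro i
    have h := hab' (v i)
    rw [hv0 i, map_zero, add_zero] at h
    exact h
  refine ⟨k, fun i => ((LinearMap.toSpanSingleton K M (v i)).toAddMonoidHom),
    fun i => ((LinearMap.toSpanSingleton K M (bL (v i))).toAddMonoidHom), ?_, ?_, ?_, ?_, ?_, ?_⟩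
  · intro m
    obtain ⟨x, y, hxy⟩ := hsurj m
    exact ⟨x, y, hxy⟩
  · intro x y h
    exact hinj x y h
  · intro i t a
    show ρ (uSL t) (a • v i) = a • v i
    rw [hU', map_smul, hv0 i, smul_zero, smul_zero, add_zero]
  · intro i t b
    show ρ (uSL t) (b • bL (v i)) = b • bL (v i) + (t * b) • v i
    rw [hU', map_smul, habv i, smul_smul]
  · intro i s a
    show ρ (lSL s) (a • v i) = a • v i + (s * a) • bL (v i)
    rw [hL', map_smul, smul_smul]
  · intro i s b
    show ρ (lSL s) (b • bL (v i)) = b • bL (v i)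
    rw [hL', map_smul, hbb' (v i), smul_zero, smul_zero, add_zero]

end Cfsg.Agent.Helper84.HigMTaCore
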