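import Mathlib
import Cfsg.Agent.Helper50.HigDefs
import Cfsg.Agent.Helper91.HigNF
import Cfsg.Agent.Helper84.HigMTaCore

set_option autoImplicit false

namespace Cfsg.Agent.Helper84.HigMTa

open Cfsg.Agent.Helper5 Cfsg.Agent.Helper50.Hig

/-- PIECE MTa (S3050) -/
theorem exists_frames {K : Type*} [Field K] [Fintype K] [CharP K 2] {M : Type*} [AddCommGroup M]
    [Finite M] (h2 : ∀ m : M, m + m = 0) (ρ : SL2 K →* AddMonoid.End M)
    (hρ : ρ (cSL K) * ρ (cSL K) + ρ (cSL K) + 1 = 0) :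
    ∃ (k : ℕ) (lam mu : Fin k → K →+ M),
      (∀ m : M, ∃ x y : Fin k → K, m = ∑ i, (lam i (x i) + mu i (y i))) ∧
      (∀ x y : Fin k → K, ∑ i, (lam i (x i) + mu i (y i)) = 0 → x = 0 ∧ y = 0) ∧
      (∀ i t a, ρ (uSL t) (lam i a) = lam i a) ∧
      (∀ i t b, ρ (uSL t) (mu i b) = mu i b + lam i (t * b)) ∧
      (∀ i s a, ρ (lSL s) (lam i a) = lam i a + mu i (s * a)) ∧
      (∀ i s b, ρ (lSL s) (mu i b) = mu i b) := by
  have hR2 : ∀ r : AddMonoid.End M, r + r = 0 := by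
    intro r
    ext m
    exact h2 (r m)
  exact Cfsg.Agent.Helper84.HigMTaCore.exists_frames_core ρ
    (Cfsg.Agent.Helper91.HigNF.normal_form hR2 ρ hρ)

end Cfsg.Agent.Helper84.HigMTa
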