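-- helper84: PIECE MTb of helper50's CALL S3050 (Higman): a module with frames `lam i`, `mu i` on
-- which `u(t)`, `l(s)` act by the natural formulas is a direct sum of natural modules.
import Mathlib
import Cfsg.Agent.Helper50.HigDefs

set_option autoImplicit false

namespace Cfsg.Agent.Helper84.HigMTb

open Cfsg.Agent.Helper5 Cfsg.Agent.Helper50.Hig

/-- PIECE MTb -/
theorem psi_of_frames {K : Type*} [Field K] {M : Type*} [AddCommGroup M]
    (ρ : SL2 K →* AddMonoid.End M) (k : ℕ) (lam mu : Fin k → K →+ M)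
    (hsurj : ∀ m : M, ∃ x y : Fin k → K, m = ∑ i, (lam i (x i) + mu i (y i)))
    (hinj : ∀ x y : Fin k → K, ∑ i, (lam i (x i) + mu i (y i)) = 0 → x = 0 ∧ y = 0)
    (h1 : ∀ i t a, ρ (uSL t) (lam i a) = lam i a)
    (h2 : ∀ i t b, ρ (uSL t) (mu i b) = mu i b + lam i (t * b))
    (h3 : ∀ i s a, ρ (lSL s) (lam i a) = lam i a + mu i (s * a))
    (h4 : ∀ i s b, ρ (lSL s) (mu i b) = mu i b) :
    ∃ Ψ : M ≃+ (Fin k → Fin 2 → K), ∀ (g : SL2 K) (m : M) (i : Fin k),
      Ψ (ρ g m) i = (g : Matrix (Fin 2) (Fin 2) K).mulVec (Ψ m i) := by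
  classical
  -- the parametrisation
  let Φ : (Fin k → Fin 2 → K) →+ M :=
    { toFun := fun X => ∑ i, (lam i (X i 0) + mu i (X i 1))
      map_zero' := by simp
      map_add' := by
        intro X Y
        simp only [Pi.add_apply, map_add]
        rw [← Finset.sum_add_distrib]
        refine Finset.sum_congr rfl (fun i _ => ?_)
        abel }
  have hΦ : ∀ X, Φ X = ∑ i, (lam i (X i 0) + mu i (X i 1)) := fun X => rfl
  have hΦinj : Function.Injective Φ := by
    rw [injective_iff_map_eq_zero]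
    intro X hX
    rw [hΦ] at hX
    obtain ⟨hx, hy⟩ := hinj (fun i => X i 0) (fun i => X i 1) hX
    funext i j
    fin_cases j
    · exact congrFun hx i
    · exact congrFun hy i
  have hΦsurj : Function.Surjective Φ := by
    intro m
    obtain ⟨x, y, hm⟩ := hsurj m
    refine ⟨fun i => ![x i, y i], ?_⟩
    rw [hΦ, hm]
    simp
  -- equivariance on the parametrisation
  let H : Subgroup (SL2 K) :=
    { carrier := {g | ∀ X, ρ g (Φ X) = Φ (fun i => (g : Matrix (Fin 2) (Fin 2) K).mulVec (X i))}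
      one_mem' := by
        intro X
        simp
      mul_mem' := by
        intro g h hg hh X
        rw [map_mul]
        show ρ g (ρ h (Φ X)) = _
        rw [hh X, hg]
        congr 1
        funext i
        rw [Matrix.SpecialLinearGroup.coe_mul, Matrix.mulVec_mulVec]
      inv_mem' := by
        intro g hg X
        have e1 := hg (fun i => ((g⁻¹ : SL2 K) : Matrix (Fin 2) (Fin 2) K).mulVec (X i))
        have e2 : (fun i => (g : Matrix (Fin 2) (Fin 2) K).mulVec
            (((g⁻¹ : SL2 K) : Matrix (Fin 2) (Fin 2) K).mulVec (X i))) = X := by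
          funext i
          rw [Matrix.mulVec_mulVec, ← Matrix.SpecialLinearGroup.coe_mul, mul_inv_cancel]
          simp
        rw [e2] at e1
        rw [← e1]
        show (ρ g⁻¹ * ρ g) _ = _
        rw [← map_mul, inv_mul_cancel, map_one]
        rfl }
  have hHmem : ∀ g : SL2 K, g ∈ H ↔
      ∀ X, ρ g (Φ X) = Φ (fun i => (g : Matrix (Fin 2) (Fin 2) K).mulVec (X i)) := fun g => Iff.rfl
  have hHtop : H = ⊤ := by
    apply eq_top_of_uSL_lSL_mem
    · intro t
      rw [hHmem]
      intro X
      rw [hΦ, hΦ, map_sum]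
      refine Finset.sum_congr rfl (fun i _ => ?_)
      rw [map_add, h1, h2]
      simp only [uSL_coe, Matrix.mulVec, Matrix.of_apply, Matrix.cons_val_zero,
        Matrix.cons_val_one, dotProduct, Fin.sum_univ_two, one_mul, zero_mul, zero_add, map_add]
      abel
    · intro s
      rw [hHmem]
      intro X
      rw [hΦ, hΦ, map_sum]
      refine Finset.sum_congr rfl (fun i _ => ?_)
      rw [map_add, h3, h4]
      simp only [lSL_coe, Matrix.mulVec, Matrix.of_apply, Matrix.cons_val_zero,
        Matrix.cons_val_one, dotProduct, Fin.sum_univ_two, one_mul, zero_mul, add_zero, map_add]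
      abel
  refine ⟨(AddEquiv.ofBijective Φ ⟨hΦinj, hΦsurj⟩).symm, ?_⟩
  intro g m i
  obtain ⟨X, rfl⟩ := hΦsurj m
  have hg : g ∈ H := by rw [hHtop]; exact Subgroup.mem_top g
  rw [(hHmem g).mp hg X]
  have e : ∀ Y, (AddEquiv.ofBijective Φ ⟨hΦinj, hΦsurj⟩).symm (Φ Y) = Y := fun Y =>
    (AddEquiv.ofBijective Φ ⟨hΦinj, hΦsurj⟩).symm_apply_apply Y
  rw [e, e]

end Cfsg.Agent.Helper84.HigMTb
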