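import Mathlib
import Cfsg.Prelude.Def_Transfer
import Cfsg.Prelude.Def_Solvable
import Cfsg.Agent.Helper63.N15Defs

set_option autoImplicit false

namespace Cfsg.Agent.Helper84.N15

open Cfsg.Agent.Helper63.N15

variable {G : Type*} [Group G] {V : Type*} [AddCommGroup V] [Module (ZMod 3) V]
  {ρ : Representation (ZMod 3) G V} {R : Subgroup G} {b q₁ q₂ q₃ : G} {v₁ v₂ v₃ : V}

theorem c4_mul (ρ : Representation (ZMod 3) G V) (g g' : G) (v : V) :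
    ρ (g * g') v = ρ g (ρ g' v) := by
  rw [map_mul]
  rfl

theorem c4_inv (ρ : Representation (ZMod 3) G V) (g : G) (v : V) : ρ g⁻¹ (ρ g v) = v := by
  rw [← c4_mul, inv_mul_cancel, map_one]
  rfl

theorem c4_inv' (ρ : Representation (ZMod 3) G V) (g : G) (v : V) : ρ g (ρ g⁻¹ v) = v := by
  rw [← c4_mul, mul_inv_cancel, map_one]
  rfl

theorem c4_three (v : V) : v + v + v = 0 := by
  have h : (3 : ZMod 3) • v = 0 := by
    have h3 : (3 : ZMod 3) = 0 := by decide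
    rw [h3, zero_smul]
  have h2 : (3 : ZMod 3) • v = v + v + v := by
    have h3 : (3 : ZMod 3) = 1 + 1 + 1 := by decide
    rw [h3, add_smul, add_smul, one_smul]
  rw [← h2, h]

theorem c4_two (v : V) : v + v = -v := by
  have h := c4_three v
  exact eq_neg_of_add_eq_zero_left h

theorem c4_eq_zero_of_eq_neg {v : V} (h : v = -v) : v = 0 := by
  have h2 : v + v = 0 := by
    nth_rewrite 2 [h]
    exact add_neg_cancel v
  have h3 := c4_three v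
  rw [h2, zero_add] at h3
  exact h3

theorem c4_indep3 (c : Cfg ρ R b q₁ q₂ q₃ v₁ v₂ v₃) (c₁ c₂ c₃ : ZMod 3)
    (h : c₁ • v₁ + c₂ • v₂ + c₃ • v₃ = 0) : c₁ = 0 ∧ c₂ = 0 ∧ c₃ = 0 := by
  have hv2 : v₂ ≠ 0 := c.rot.v1
  have hv3 : v₃ ≠ 0 := c.rot.rot.v1
  have key : ∀ (a : ZMod 3) (v x y : V), v ≠ 0 → a • v + x + y = 0 → a • v - x - y = 0 →
      a = 0 := by
    intro a v x y hv h1 h2
    have h3 : a • v + a • v = 0 := by
      have : (a • v + x + y) + (a • v - x - y) = a • v + a • v := by abel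
      rw [← this, h1, h2, add_zero]
    rw [c4_two, neg_eq_zero] at h3
    rcases smul_eq_zero.mp h3 with h4 | h4
    · exact h4
    · exact absurd h4 hv
  have h1 := congrArg (ρ q₁) h
  have h2 := congrArg (ρ q₂) h
  have h3 := congrArg (ρ q₃) h
  simp only [map_add, map_smul, map_zero, c.s11, c.s12, c.s13, c.s21, c.s22, c.s23, c.s31,
    c.s32, c.s33, smul_neg] at h1 h2 h3
  refine ⟨key c₁ v₁ (c₂ • v₂) (c₃ • v₃) c.v1 h ?_, key c₂ v₂ (c₁ • v₁) (c₃ • v₃) hv2 ?_ ?_,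
    key c₃ v₃ (c₁ • v₁) (c₂ • v₂) hv3 ?_ ?_⟩
  · rw [← h1]; abel
  · rw [← h]; abel
  · rw [← h2]; abel
  · rw [← h]; abel
  · rw [← h3]; abel

theorem c4_card_ge [Finite V] (c : Cfg ρ R b q₁ q₂ q₃ v₁ v₂ v₃) : 27 ≤ Nat.card V := by
  have hinj : Function.Injective
      (fun p : ZMod 3 × ZMod 3 × ZMod 3 => p.1 • v₁ + p.2.1 • v₂ + p.2.2 • v₃) := by
    rintro ⟨a₁, a₂, a₃⟩ ⟨b₁, b₂, b₃⟩ h
    simp only at h
    have h' : (a₁ - b₁) • v₁ + (a₂ - b₂) • v₂ + (a₃ - b₃) • v₃ = 0 := by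
      have h0 : (a₁ - b₁) • v₁ + (a₂ - b₂) • v₂ + (a₃ - b₃) • v₃ =
          (a₁ • v₁ + a₂ • v₂ + a₃ • v₃) - (b₁ • v₁ + b₂ • v₂ + b₃ • v₃) := by
        simp only [sub_smul]
        abel
      rw [h0, h, sub_self]
    obtain ⟨h1, h2, h3⟩ := c4_indep3 c _ _ _ h'
    rw [sub_eq_zero] at h1 h2 h3
    rw [h1, h2, h3]
  have h := Nat.card_le_card_of_injective _ hinj
  simpa [Nat.card_prod] using h

theorem c4_nb (c : Cfg ρ R b q₁ q₂ q₃ v₁ v₂ v₃) (v : V) :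
    ∃ k : ZMod 3, v + ρ b v + ρ b (ρ b v) = k • (v₁ + v₂ + v₃) := by
  obtain ⟨u, c₁, c₂, c₃, rfl, -, -, -, hu⟩ := c.dec v
  refine ⟨c₁ + c₂ + c₃, ?_⟩
  simp only [map_add, map_smul, hu, c.bv1, c.bv2, c.bv3, smul_add, add_smul]
  have h3 := c4_three u
  have : u + c₁ • v₁ + c₂ • v₂ + c₃ • v₃ + (u + c₁ • v₂ + c₂ • v₃ + c₃ • v₁) +
      (u + c₁ • v₃ + c₂ • v₁ + c₃ • v₂) = (u + u + u) + (c₁ • v₁ + c₂ • v₁ + c₃ • v₁ +
      (c₁ • v₂ + c₂ • v₂ + c₃ • v₂) + (c₁ • v₃ + c₂ • v₃ + c₃ • v₃)) := by abel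
  rw [this, h3, zero_add]

theorem c4_final [Finite V] (hn : Even (Module.finrank (ZMod 3) V)) (h27 : 27 ≤ Nat.card V)
    (h81 : Nat.card V ≤ 81) : Nat.card V = 81 := by
  have hcard : Nat.card V = 3 ^ Module.finrank (ZMod 3) V := by
    rw [Module.natCard_eq_pow_finrank (K := ZMod 3) (V := V), Nat.card_zmod]
  rw [hcard] at h27 h81 ⊢
  have h3 : 3 ≤ Module.finrank (ZMod 3) V := by
    by_contra hlt
    have hlt := not_le.mp hlt
    have : 3 ^ Module.finrank (ZMod 3) V < 3 ^ 3 := Nat.pow_lt_pow_right (by norm_num) hlt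
    omega
  have h4 : Module.finrank (ZMod 3) V ≤ 4 := by
    by_contra hlt
    have hlt := not_le.mp hlt
    have : 3 ^ 5 ≤ 3 ^ Module.finrank (ZMod 3) V := Nat.pow_le_pow_right (by norm_num) hlt
    omega
  obtain ⟨m, hm⟩ := hn
  have : Module.finrank (ZMod 3) V = 4 := by omega
  rw [this]
  norm_num

theorem c4_det_neg (f : V →ₗ[ZMod 3] V) :
    LinearMap.det (-f) = (-1) ^ Module.finrank (ZMod 3) V * LinearMap.det f := by
  have : -f = (-1 : ZMod 3) • f := by rw [neg_smul, one_smul]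
  rw [this, LinearMap.det_smul]

end Cfsg.Agent.Helper84.N15
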