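import Mathlib
import Cfsg.Prelude.Def_Transfer
import Cfsg.Prelude.Def_Solvable
import Cfsg.Agent.Helper63.N15Defs
import Cfsg.Agent.Helper84.N15C4Lib

set_option autoImplicit false

namespace Cfsg.Agent.Helper84.N15

open Cfsg.Agent.Helper63.N15

variable {G : Type*} [Group G] [Finite G] {V : Type*} [AddCommGroup V] [Module (ZMod 3) V]
  [Finite V] {ρ : Representation (ZMod 3) G V} {R : Subgroup G} {b q₁ q₂ q₃ : G} {v₁ v₂ v₃ : V}

/-- C4a. If `x = t b t⁻¹ b⁻¹` has `ρ (x²) = -1` then `|V| = 81`. -/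
theorem c4a (c : Cfg ρ R b q₁ q₂ q₃ v₁ v₂ v₃) (t : G)
    (hx : ∀ v : V, ρ ((t * b * t⁻¹ * b⁻¹) * (t * b * t⁻¹ * b⁻¹)) v = -v) :
    Nat.card V = 81 := by
  refine c4_final ?_ (c4_card_ge c) ?_
  · rw [← Nat.not_odd_iff_even]
    intro hodd
    have hJ : ρ (t * b * t⁻¹ * b⁻¹) * ρ (t * b * t⁻¹ * b⁻¹) =
        -(LinearMap.id : V →ₗ[ZMod 3] V) := by
      ext v
      have := hx v
      rw [c4_mul] at this
      exact this
    have hdet := congrArg LinearMap.det hJ
    rw [map_mul, c4_det_neg, hodd.neg_one_pow, LinearMap.det_id] at hdet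
    have key : ∀ a : ZMod 3, a * a ≠ -1 * 1 := by decide
    exact key _ hdet
  · have hfix : ∀ u : V, ρ b u = u → ρ b (ρ t⁻¹ u) = ρ t⁻¹ u → u = 0 := by
      intro u h1 h2
      have h3 : ρ b⁻¹ u = u := by
        have := c4_inv ρ b u
        rwa [h1] at this
      have h4 : ρ (t * b * t⁻¹ * b⁻¹) u = u := by
        rw [c4_mul, c4_mul, c4_mul, h3, h2, c4_inv']
      have h5 := hx u
      rw [c4_mul, h4, h4] at h5
      exact c4_eq_zero_of_eq_neg h5
    have hinj : Function.Injective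
        (fun p : {v : V // ρ b v = v} × {v : V // ρ b v = v} => (p.1 : V) + ρ t (p.2 : V)) := by
      rintro ⟨⟨u, hu⟩, ⟨u', hu'⟩⟩ ⟨⟨y, hy⟩, ⟨y', hy'⟩⟩ h
      simp only at h
      have h1 : u - y = ρ t (y' - u') := by
        rw [map_sub]
        have h0 : u - y = (u + ρ t u') - (y + ρ t y') + (ρ t y' - ρ t u') := by abel
        rw [h0, h]
        abel
      have h2 : u - y = 0 := by
        apply hfix
        · rw [map_sub, hu, hy]
        · rw [h1, c4_inv, map_sub, hy', hu']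
      have h3 : y' - u' = 0 := by
        have h5 : ρ t (y' - u') = 0 := by rw [← h1, h2]
        have h4 := c4_inv ρ t (y' - u')
        rw [h5, map_zero] at h4
        exact h4.symm
      rw [sub_eq_zero] at h2 h3
      subst h2
      subst h3
      rfl
    have hsurj : Function.Surjective
        (fun p : {v : V // ρ b v = v} × ZMod 3 × ZMod 3 => (p.1 : V) + p.2.1 • v₂ + p.2.2 • v₃) := by
      intro v
      obtain ⟨u, c₁, c₂, c₃, rfl, -, -, -, hu⟩ := c.dec v
      refine ⟨⟨⟨u + c₁ • (v₁ + v₂ + v₃), ?_⟩, c₂ - c₁, c₃ - c₁⟩, ?_⟩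
      · simp only [map_add, map_smul, hu, c.bv1, c.bv2, c.bv3, smul_add]
        abel
      · simp only [sub_smul, smul_add]
        abel
    have h1 := Nat.card_le_card_of_injective _ hinj
    have h2 := Nat.card_le_card_of_surjective _ hsurj
    rw [Nat.card_prod] at h1
    rw [Nat.card_prod, Nat.card_prod, Nat.card_zmod] at h2
    have hβ : 0 < Nat.card {v : V // ρ b v = v} :=
      Nat.card_pos_iff.mpr ⟨⟨⟨0, map_zero _⟩⟩, inferInstance⟩
    have h9 : Nat.card {v : V // ρ b v = v} ≤ 3 * 3 := Nat.le_of_mul_le_mul_left (h1.trans h2) hβ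
    calc Nat.card V ≤ Nat.card {v : V // ρ b v = v} * (3 * 3) := h2
      _ ≤ (3 * 3) * (3 * 3) := Nat.mul_le_mul_right _ h9
      _ = 81 := by norm_num

end Cfsg.Agent.Helper84.N15
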