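import Mathlib
import Cfsg.Prelude.Def_Transfer
import Cfsg.Prelude.Def_Solvable
import Cfsg.Agent.Helper63.N15Defs
import Cfsg.Agent.Helper84.N15C4Lib

set_option autoImplicit false

namespace Cfsg.Agent.Helper84.N15

open Cfsg.Agent.Helper63.N15

variable {G : Type*} [Group G] [Finite G] {V : Type*} [AddCommGroup V] [Module (ZMod 3) V]
  [Finite V] {ρ : Representation (ZMod 3) G V} {R : Subgroup G} {b q₁ q₂ q₃ : G} {v₁ v₂ v₃ : V}

omit [Finite V] in
theorem c4b_half {u u' : V} (h : u + u = u' + u') : u = u' := by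
  rw [c4_two, c4_two] at h
  exact neg_injective h

/-- C4b. If `x` is an involution with `{1, x, b x b⁻¹, b² x b⁻²}` a four-group and `s x s⁻¹`
acts as `- ρ x`, then `|V| = 81`. -/
theorem c4b (c : Cfg ρ R b q₁ q₂ q₃ v₁ v₂ v₃) (x s : G) (hx2 : x * x = 1)
    (hxb : x * (b * x * b⁻¹) = b * b * x * b⁻¹ * b⁻¹)
    (hcomm : x * (b * x * b⁻¹) = (b * x * b⁻¹) * x)
    (hs : ∀ v : V, ρ (s * x * s⁻¹) v = - ρ x v) : Nat.card V = 81 := by
  have r1 : ∀ v, ρ (b * x * b⁻¹) (ρ b v) = ρ b (ρ x v) := by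
    intro v
    have h0 : b * x * b⁻¹ * b = b * x := by group
    rw [← c4_mul, ← c4_mul, h0]
  have r2 : ∀ v, ρ x (ρ (b * x * b⁻¹) (ρ b v)) = ρ b (ρ (b * x * b⁻¹) v) := by
    intro v
    have h0 : x * (b * x * b⁻¹) * b = b * (b * x * b⁻¹) := by
      rw [hxb]
      group
    calc ρ x (ρ (b * x * b⁻¹) (ρ b v)) = ρ (x * (b * x * b⁻¹) * b) v := by
          rw [c4_mul ρ (x * (b * x * b⁻¹)) b, c4_mul ρ x (b * x * b⁻¹)]
      _ = ρ (b * (b * x * b⁻¹)) v := by rw [h0]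
      _ = ρ b (ρ (b * x * b⁻¹) v) := c4_mul ρ _ _ _
  have r3 : ∀ v, ρ x (ρ x v) = v := by
    intro v
    rw [← c4_mul, hx2, map_one]
    rfl
  have r4 : ∀ v, ρ (b * x * b⁻¹) (ρ (b * x * b⁻¹) v) = v := by
    intro v
    have h0 : (b * x * b⁻¹) * (b * x * b⁻¹) = 1 := by
      calc (b * x * b⁻¹) * (b * x * b⁻¹) = b * (x * x) * b⁻¹ := by group
        _ = 1 := by rw [hx2]; group
    rw [← c4_mul, h0, map_one]
    rfl
  have r5 : ∀ v, ρ x (ρ (b * x * b⁻¹) v) = ρ (b * x * b⁻¹) (ρ x v) := by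
    intro v
    rw [← c4_mul, ← c4_mul, hcomm]
  have r6 : ∀ u, ρ x (ρ s u) = - ρ s (ρ x u) := by
    intro u
    have h0 := hs (ρ s u)
    rw [c4_mul, c4_mul, c4_inv] at h0
    rw [h0, neg_neg]
  have K2 : ∀ a : V, ρ x a = -a → ρ (b * x * b⁻¹) a = a →
      (a + ρ b a + ρ b (ρ b a)) + ρ (b * x * b⁻¹) (a + ρ b a + ρ b (ρ b a)) = a + a := by
    intro a h1 h2
    have e1 : ρ (b * x * b⁻¹) (ρ b a) = - ρ b a := by rw [r1, h1, map_neg]
    have e2 : ρ x (ρ b a) = - ρ b a := by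
      have h0 := r2 a
      rw [e1, map_neg, h2] at h0
      exact neg_eq_iff_eq_neg.mp h0
    have e3 : ρ (b * x * b⁻¹) (ρ b (ρ b a)) = - ρ b (ρ b a) := by rw [r1, e2, map_neg]
    rw [map_add, map_add, h2, e1, e3]
    abel
  have K3 : ∀ a : V, ρ x a = -a → ρ (b * x * b⁻¹) a = -a →
      (a + ρ b a + ρ b (ρ b a)) + ρ x (ρ (b * x * b⁻¹) (a + ρ b a + ρ b (ρ b a))) = a + a := by
    intro a h1 h2
    have e1 : ρ x (ρ (b * x * b⁻¹) (ρ b a)) = - ρ b a := by rw [r2, h2, map_neg]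
    have e0 : ρ (b * x * b⁻¹) (ρ b a) = - ρ b a := by rw [r1, h1, map_neg]
    have e2 : ρ x (ρ (b * x * b⁻¹) (ρ b (ρ b a))) = - ρ b (ρ b a) := by rw [r2, e0, map_neg]
    have e3 : ρ x (ρ (b * x * b⁻¹) a) = a := by rw [h2, map_neg, h1, neg_neg]
    rw [map_add, map_add, map_add, map_add, e1, e2, e3]
    abel
  choose k hk using c4_nb c
  have E2 : ∀ a â : V, ρ x a = -a → ρ (b * x * b⁻¹) a = a → ρ x â = -â →
      ρ (b * x * b⁻¹) â = â → k a = k â → a = â := by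
    intro a â h1 h2 h1' h2' hkk
    apply c4b_half
    rw [← K2 a h1 h2, ← K2 â h1' h2', hk a, hk â, hkk]
  have E3 : ∀ a â : V, ρ x a = -a → ρ (b * x * b⁻¹) a = -a → ρ x â = -â →
      ρ (b * x * b⁻¹) â = -â → k a = k â → a = â := by
    intro a â h1 h2 h1' h2' hkk
    apply c4b_half
    rw [← K3 a h1 h2, ← K3 â h1' h2', hk a, hk â, hkk]
  have P2x : ∀ a : V, ρ x a = -a →
      ρ x (a + ρ (b * x * b⁻¹) a) = -(a + ρ (b * x * b⁻¹) a) := by
    intro a ha
    rw [map_add, r5, ha, map_neg]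
    abel
  have P2x' : ∀ a : V, ρ (b * x * b⁻¹) (a + ρ (b * x * b⁻¹) a) = a + ρ (b * x * b⁻¹) a := by
    intro a
    rw [map_add, r4]
    abel
  have P3x : ∀ a : V, ρ x a = -a →
      ρ x (a - ρ (b * x * b⁻¹) a) = -(a - ρ (b * x * b⁻¹) a) := by
    intro a ha
    rw [map_sub, r5, ha, map_neg]
    abel
  have P3x' : ∀ a : V,
      ρ (b * x * b⁻¹) (a - ρ (b * x * b⁻¹) a) = -(a - ρ (b * x * b⁻¹) a) := by
    intro a
    rw [map_sub, r4]
    abel
  have A : ∀ v : V, ρ x (v - ρ x v) = -(v - ρ x v) := by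
    intro v
    rw [map_sub, r3]
    abel
  have A' : ∀ v : V, ρ x (ρ s (v + ρ x v)) = -(ρ s (v + ρ x v)) := by
    intro v
    rw [r6, map_add, r3, add_comm]
  have REC : ∀ a â : V, ρ x a = -a → ρ x â = -â →
      k (a + ρ (b * x * b⁻¹) a) = k (â + ρ (b * x * b⁻¹) â) →
      k (a - ρ (b * x * b⁻¹) a) = k (â - ρ (b * x * b⁻¹) â) → a = â := by
    intro a â ha hâ hk2 hk3
    have g2 := E2 _ _ (P2x a ha) (P2x' a) (P2x â hâ) (P2x' â) hk2
    have g3 := E3 _ _ (P3x a ha) (P3x' a) (P3x â hâ) (P3x' â) hk3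
    apply c4b_half
    have h0 : a + a = (a + ρ (b * x * b⁻¹) a) + (a - ρ (b * x * b⁻¹) a) := by abel
    rw [h0, g2, g3]
    abel
  have hinj : Function.Injective (fun v : V =>
      (k ((v - ρ x v) + ρ (b * x * b⁻¹) (v - ρ x v)),
       k ((v - ρ x v) - ρ (b * x * b⁻¹) (v - ρ x v)),
       k (ρ s (v + ρ x v) + ρ (b * x * b⁻¹) (ρ s (v + ρ x v))),
       k (ρ s (v + ρ x v) - ρ (b * x * b⁻¹) (ρ s (v + ρ x v))))) := by
    intro v v' h
    simp only [Prod.mk.injEq] at h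
    obtain ⟨h1, h2, h3, h4⟩ := h
    have ga := REC _ _ (A v) (A v') h1 h2
    have ga' := REC _ _ (A' v) (A' v') h3 h4
    have ga'' : v + ρ x v = v' + ρ x v' := by
      have h0 := congrArg (ρ s⁻¹) ga'
      rwa [c4_inv, c4_inv] at h0
    apply c4b_half
    have h0 : v + v = (v - ρ x v) + (v + ρ x v) := by abel
    rw [h0, ga, ga'']
    abel
  have h81 : Nat.card V ≤ 81 := by
    have h0 := Nat.card_le_card_of_injective _ hinj
    simpa [Nat.card_prod] using h0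
  have heven : Even (Module.finrank (ZMod 3) V) := by
    have hd1 : ∀ g : G, LinearMap.det (ρ g) * LinearMap.det (ρ g⁻¹) = 1 := by
      intro g
      rw [← map_mul, ← map_mul, mul_inv_cancel, map_one, map_one]
    have hS : ρ (s * x * s⁻¹) = -ρ x := by
      ext v
      exact hs v
    have hdet := congrArg LinearMap.det hS
    rw [map_mul, map_mul, map_mul, map_mul, c4_det_neg, mul_right_comm, hd1, one_mul] at hdet
    have hD : LinearMap.det (ρ x) ≠ 0 := by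
      intro h0
      have h1 := hd1 x
      rw [h0, zero_mul] at h1
      exact zero_ne_one h1
    have h1 : (-1 : ZMod 3) ^ Module.finrank (ZMod 3) V = 1 := by
      have h2 : (-1 : ZMod 3) ^ Module.finrank (ZMod 3) V * LinearMap.det (ρ x) =
          1 * LinearMap.det (ρ x) := by rw [← hdet, one_mul]
      exact mul_right_cancel₀ hD h2
    exact (neg_one_pow_eq_one_iff_even (by decide)).mp h1
  exact c4_final heven (c4_card_ge c) h81

end Cfsg.Agent.Helper84.N15
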