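import Mathlib
import Cfsg.Prelude.Def_Transfer
import Cfsg.Prelude.Def_Solvable
import Cfsg.Agent.Helper63.N15Defs
import Cfsg.Agent.Helper84.N15C4Lib

set_option autoImplicit false

namespace Cfsg.Agent.Helper84.N15

open Cfsg.Agent.Helper63.N15

variable {G : Type*} [Group G] [Finite G] {V : Type*} [AddCommGroup V] [Module (ZMod 3) V]
  [Finite V] {ρ : Representation (ZMod 3) G V} {R : Subgroup G} {b q₁ q₂ q₃ : G} {v₁ v₂ v₃ : V}

omit [Finite G] [Finite V] in
theorem c7a_isZ_central (c : Cfg ρ R b q₁ q₂ q₃ v₁ v₂ v₃) {x : G} (hx : IsZ ρ x) (g : G) :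
    x * g = g * x := by
  rcases hx with rfl | hx
  · simp
  · have h1 : (g * x)⁻¹ * (x * g) = 1 := by
      apply c.faith
      intro v
      have h2 : ρ (g * x) v = -(ρ g v) := by rw [c4_mul, hx, map_neg]
      rw [c4_mul, c4_mul ρ x g, hx, ← h2, c4_inv]
    exact (inv_mul_eq_one.mp h1).symm

omit [Finite G] [Finite V] in
theorem c7a_isZ_sq (c : Cfg ρ R b q₁ q₂ q₃ v₁ v₂ v₃) {x : G} (hx : IsZ ρ x) : x * x = 1 := by
  rcases hx with rfl | hx
  · simp
  · apply c.faith
    intro v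
    rw [c4_mul, hx, hx, neg_neg]

theorem c7a_num (k c r : ℕ) (hk : k < 6) (hc : c < k) (hc1 : 1 ≤ c) (h2 : ¬ 2 ∣ r)
    (h3 : ¬ 3 ∣ r) (h5 : 5 ≤ r) (h7 : r ≠ 7) (hd : r ∣ 2 ^ k - 2 ^ c) : r = 5 ∧ c = 1 := by
  interval_cases k <;> interval_cases c <;> simp only [Nat.reducePow, Nat.reduceSub] at hd <;>
    (have hle : r ≤ 30 := le_trans (Nat.le_of_dvd (by norm_num) hd) (by norm_num)
     interval_cases r <;> omega)

/-- C7a. An element `y ∈ R ∖ T` of prime order `r ≥ 5` has `r = 5` and acts fixed-point-freely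
on `T / Z`. -/
theorem c7a (c : Cfg ρ R b q₁ q₂ q₃ v₁ v₂ v₃) (htp : TProps R (T2 R))
    (hz : ZProps ρ (T2 R))
    (hc6 : ∀ r ∈ R, (∀ t ∈ T2 R, IsZ ρ (r * t * r⁻¹ * t⁻¹)) → r ∈ T2 R)
    (h32 : Nat.card (T2 R) ≤ 32) (hsm7 : ∀ x : G, x ^ 7 = 1 → x = 1)
    (y : G) (hyR : y ∈ R) (hyT : y ∉ T2 R) (r : ℕ) (hr : r.Prime) (hr5 : 5 ≤ r)
    (hy : y ^ r = 1) :
    r = 5 ∧ ∀ t ∈ T2 R, IsZ ρ (y * t * y⁻¹ * t⁻¹) → IsZ ρ t := by
  classical
  obtain ⟨hTn, hTR, hT2, hTmax⟩ := htp
  obtain ⟨hzsq, hzcomm, hzcen⟩ := hz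
  -- if `y` centralizes `T` then `y ∈ T`
  have hcentr : (∀ t ∈ T2 R, y * t = t * y) → False := by
    intro hall
    apply hyT
    apply hc6 y hyR
    intro t ht
    left
    rw [hall t ht]
    group
  -- an element of `T` acting as `-1`
  have hex : ∃ z ∈ T2 R, ∀ v, ρ z v = -v := by
    by_contra hno
    have hZ1 : ∀ t ∈ T2 R, IsZ ρ t → t = 1 := by
      intro t ht h
      rcases h with h | h
      · exact h
      · exact absurd ⟨t, ht, h⟩ hno
    have hab : ∀ t ∈ T2 R, IsZ ρ t := by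
      intro t ht
      apply hzcen t ht
      intro s hs
      have hmem : t * s * t⁻¹ * s⁻¹ ∈ T2 R :=
        mul_mem (mul_mem (mul_mem ht hs) (inv_mem ht)) (inv_mem hs)
      have h1 := hZ1 _ hmem (hzcomm t ht s hs)
      calc t * s = (t * s * t⁻¹ * s⁻¹) * (s * t) := by group
        _ = s * t := by rw [h1, one_mul]
    apply hcentr
    intro t ht
    exact (c7a_isZ_central c (hab t ht) y).symm
  obtain ⟨z, hzT, hzv⟩ := hex
  have hzZ : IsZ ρ z := Or.inr hzv
  have hz1 : z ≠ 1 := by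
    intro h
    have h0 := hzv v₁
    rw [h, map_one] at h0
    exact c.v1 (c4_eq_zero_of_eq_neg h0)
  have hzc := c7a_isZ_central c hzZ
  -- `r` is odd
  obtain ⟨m, hm⟩ : ∃ m, r = 2 * m + 1 := by
    rcases hr.eq_two_or_odd' with h | h
    · omega
    · exact h
  -- commutator in `Z` implies commuting
  have hF : ∀ t ∈ T2 R, IsZ ρ (y * t * y⁻¹ * t⁻¹) → y * t = t * y := by
    intro t ht hζ
    have hc := c7a_isZ_central c hζ
    have h2 := c7a_isZ_sq c hζ
    have h1 : y * t = (y * t * y⁻¹ * t⁻¹) * (t * y) := by group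
    generalize y * t * y⁻¹ * t⁻¹ = ζ at hc h2 h1
    have hyy : (y * y) * t = t * (y * y) := by
      calc (y * y) * t = y * (y * t) := by group
        _ = y * (ζ * (t * y)) := by rw [← h1]
        _ = (y * ζ) * (t * y) := by group
        _ = (ζ * y) * (t * y) := by rw [hc y]
        _ = ζ * ((y * t) * y) := by group
        _ = ζ * ((ζ * (t * y)) * y) := by rw [← h1]
        _ = (ζ * ζ) * (t * (y * y)) := by group
        _ = t * (y * y) := by rw [h2, one_mul]
    have hcm : Commute ((y * y) ^ m) t := (show Commute (y * y) t from hyy).pow_left m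
    have hinv : (y * y) ^ m = y⁻¹ := by
      apply eq_inv_of_mul_eq_one_left
      rw [← pow_two, ← pow_mul, ← pow_succ, ← hm, hy]
    rw [hinv] at hcm
    exact (Commute.inv_left_iff.mp hcm).eq
  -- counting
  have : Fact r.Prime := ⟨hr⟩
  haveI : Fintype ↥(T2 R) := Fintype.ofFinite _
  let f : Function.End ↥(T2 R) := fun t => ⟨y * t * y⁻¹, hTn.conj_mem t t.2 y⟩
  have hfpow : ∀ n : ℕ, ∀ t : ↥(T2 R), ((f ^ n) t : G) = y ^ n * t * (y ^ n)⁻¹ := by
    intro n
    induction n with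
    | zero =>
      intro t
      rw [pow_zero, pow_zero, one_mul, inv_one, mul_one]
      rfl
    | succ n ih =>
      intro t
      rw [pow_succ']
      show y * ((f ^ n) t : G) * y⁻¹ = _
      rw [ih, pow_succ']
      group
  have hfr : f ^ r ^ 1 = 1 := by
    rw [pow_one]
    funext t
    apply Subtype.ext
    rw [hfpow, hy, one_mul, inv_one, mul_one]
    rfl
  have hmod := Equiv.Perm.card_fixedPoints_modEq (p := r) (n := 1) hfr
  rw [← Nat.card_eq_fintype_card, ← Nat.card_eq_fintype_card] at hmod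
  set C' : Subgroup ↥(T2 R) := (Subgroup.centralizer {y}).subgroupOf (T2 R) with hC'
  have hmemC : ∀ t : ↥(T2 R), t ∈ C' ↔ y * (t : G) = (t : G) * y := by
    intro t
    rw [hC', Subgroup.mem_subgroupOf, Subgroup.mem_centralizer_iff]
    constructor
    · intro h
      exact h y rfl
    · intro h g hg
      rw [Set.mem_singleton_iff.mp hg]
      exact h
  have hset : Function.fixedPoints f = (C' : Set ↥(T2 R)) := by
    ext t
    rw [Function.mem_fixedPoints, SetLike.mem_coe, hmemC]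
    constructor
    · intro h
      have h0 : y * (t : G) * y⁻¹ = (t : G) := congrArg Subtype.val h
      exact mul_inv_eq_iff_eq_mul.mp h0
    · intro h
      apply Subtype.ext
      show y * (t : G) * y⁻¹ = (t : G)
      exact mul_inv_eq_iff_eq_mul.mpr h
  have hcardC : Nat.card ↥(Function.fixedPoints f) = Nat.card ↥C' :=
    Nat.card_congr (Equiv.setCongr hset)
  rw [hcardC] at hmod
  have : Fact (Nat.Prime 2) := ⟨Nat.prime_two⟩
  obtain ⟨k, hk⟩ := (IsPGroup.iff_card (p := 2) (G := ↥(T2 R))).mp hT2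
  have hdvd : Nat.card ↥C' ∣ 2 ^ k := by
    rw [← hk]
    exact Subgroup.card_subgroup_dvd_card C'
  obtain ⟨c', hc'k, hc'⟩ := (Nat.dvd_prime_pow Nat.prime_two).mp hdvd
  rw [hk, hc'] at hmod
  rw [hk] at h32
  have hk6 : k < 6 := by
    by_contra hlt
    have hlt := not_lt.mp hlt
    have : 2 ^ 6 ≤ 2 ^ k := Nat.pow_le_pow_right (by norm_num) hlt
    omega
  have hck : c' < k := by
    rcases Nat.lt_or_ge c' k with h | h
    · exact h
    · exfalso
      have hkc : c' = k := le_antisymm hc'k h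
      have htop : C' = ⊤ := by
        rw [← Subgroup.card_eq_iff_eq_top, hc', hk, hkc]
      apply hcentr
      intro t ht
      have : (⟨t, ht⟩ : ↥(T2 R)) ∈ C' := by rw [htop]; exact Subgroup.mem_top _
      exact (hmemC ⟨t, ht⟩).mp this
  have hzC : (⟨z, hzT⟩ : ↥(T2 R)) ∈ C' := by
    rw [hmemC]
    exact (hzc y).symm
  have hc1 : 1 ≤ c' := by
    by_contra hlt
    have hc0 : c' = 0 := by omega
    have hbot : C' = ⊥ := by
      rw [← Subgroup.card_eq_one, hc', hc0, pow_zero]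
    rw [hbot, Subgroup.mem_bot] at hzC
    exact hz1 (congrArg Subtype.val hzC)
  have hr7 : r ≠ 7 := by
    intro h7
    rw [h7] at hy
    apply hyT
    rw [hsm7 y hy]
    exact one_mem _
  have hle : 2 ^ c' ≤ 2 ^ k := Nat.pow_le_pow_right (by norm_num) hc'k
  have hd : r ∣ 2 ^ k - 2 ^ c' := (Nat.modEq_iff_dvd' hle).mp hmod.symm
  have h2r : ¬ 2 ∣ r := by
    intro h
    have := (Nat.prime_dvd_prime_iff_eq Nat.prime_two hr).mp h
    omega
  have h3r : ¬ 3 ∣ r := by
    intro h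
    have := (Nat.prime_dvd_prime_iff_eq Nat.prime_three hr).mp h
    omega
  obtain ⟨hr5', hc'1⟩ := c7a_num k c' r hk6 hck hc1 h2r h3r hr5 hr7 hd
  refine ⟨hr5', ?_⟩
  intro t ht hζ
  have hyt := hF t ht hζ
  have htC : (⟨t, ht⟩ : ↥(T2 R)) ∈ C' := (hmemC _).mpr hyt
  have hcard2 : Nat.card ↥C' = 2 := by rw [hc', hc'1, pow_one]
  obtain ⟨w, -, hw⟩ := (Nat.card_eq_two_iff' (1 : ↥C')).mp hcard2
  by_cases ht1 : t = 1
  · left
    exact ht1
  · have e1 : (⟨⟨t, ht⟩, htC⟩ : ↥C') = w := by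
      apply hw
      intro h
      apply ht1
      exact congrArg (fun u : ↥C' => ((u : ↥(T2 R)) : G)) h
    have e2 : (⟨⟨z, hzT⟩, hzC⟩ : ↥C') = w := by
      apply hw
      intro h
      apply hz1
      exact congrArg (fun u : ↥C' => ((u : ↥(T2 R)) : G)) h
    have e3 : t = z := congrArg (fun u : ↥C' => ((u : ↥(T2 R)) : G)) (e1.trans e2.symm)
    rw [e3]
    exact hzZ

end Cfsg.Agent.Helper84.N15
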