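import Cfsg.Prelude.Def_Transfer
import Cfsg.Prelude.Def_Solvable
import Cfsg.Agent.Helper63.N15Defs

set_option autoImplicit false

namespace Cfsg.Agent.Helper84.N15

open Cfsg.Agent.Helper63.N15

variable {G : Type*} [Group G] [Finite G] {V : Type*} [AddCommGroup V] [Module (ZMod 3) V]
  [Finite V] {ρ : Representation (ZMod 3) G V} {R : Subgroup G} {b q₁ q₂ q₃ : G} {v₁ v₂ v₃ : V}

omit [Finite V] in
theorem m4e_neg_ne_self {v : V} (hv : v ≠ 0) : v ≠ -v := by
  intro h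
  have h2 : (2 : ZMod 3) • v = 0 := by
    rw [two_smul]
    nth_rewrite 2 [h]
    exact add_neg_cancel v
  rcases smul_eq_zero.mp h2 with h3 | h3
  · exact absurd h3 (by decide)
  · exact hv h3

/-- M4e. The centre of `R` is `{1, -1}`. -/
theorem m4e (c : Cfg ρ R b q₁ q₂ q₃ v₁ v₂ v₃) (e₁ e₂ e₃ e₄ : V)
    (h : Mono4 ρ b e₁ e₂ e₃ e₄)
    (ha : ∀ r ∈ R, (∀ e ∈ ({e₁, e₂, e₃, e₄} : Set V), ρ r e = e ∨ ρ r e = -e) ∨
      (∀ e ∈ ({e₁, e₂, e₃, e₄} : Set V), ρ r e ≠ e ∧ ρ r e ≠ -e ∧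
        (ρ r (ρ r e) = e ∨ ρ r (ρ r e) = -e)))
    (hb : (∃ z ∈ R, ∀ v : V, ρ z v = -v) ∧
      ∃ d ∈ R, ρ d e₁ = -e₁ ∧ ρ d e₂ = -e₂ ∧ ρ d e₃ = e₃ ∧ ρ d e₄ = e₄)
    (hfq : ∀ g : G, ∃ r ∈ R, g = r ∨ g = r * b ∨ g = r * (b * b)) :
    ∀ x ∈ R, (∀ y ∈ R, x * y = y * x) → IsZ ρ x := by
  intro x hxR hcen
  obtain ⟨hspan, hind, hmono, htrans, hb1, hb2, hb3, hb4⟩ := h
  have hmul : ∀ (g g' : G) (v : V), ρ (g * g') v = ρ g (ρ g' v) := by
    intro g g' v
    rw [map_mul]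
    rfl
  have hinv : ∀ (g : G) (v : V), ρ g⁻¹ (ρ g v) = v := by
    intro g v
    rw [← hmul, inv_mul_cancel, map_one]
    rfl
  have htr : ∀ e ∈ ({e₁, e₂, e₃, e₄} : Set V), ∃ r ∈ R, ρ r e₄ = e ∨ ρ r e₄ = -e := by
    intro e he
    obtain ⟨g, hg⟩ := htrans e he
    obtain ⟨r, hr, hgr⟩ := hfq g
    refine ⟨r, hr, ?_⟩
    rcases hgr with rfl | rfl | rfl
    · exact hg
    · rw [hmul, hb4] at hg
      exact hg
    · rw [hmul, hmul, hb4, hb4] at hg
      exact hg
  have hdiag : ∀ ε : ZMod 3, ρ x e₄ = ε • e₄ → ∀ v, ρ x v = ε • v := by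
    intro ε hε
    have hbasis : ∀ e ∈ ({e₁, e₂, e₃, e₄} : Set V), ρ x e = ε • e := by
      intro e he
      obtain ⟨r, hr, hre⟩ := htr e he
      have h1 : ρ x (ρ r e₄) = ρ r (ρ x e₄) := by
        rw [← hmul, ← hmul, hcen r hr]
      rw [hε, map_smul] at h1
      rcases hre with h2 | h2
      · rw [h2] at h1
        exact h1
      · rw [h2, map_neg, smul_neg] at h1
        exact neg_injective h1
    intro v
    obtain ⟨c₁, c₂, c₃, c₄, rfl⟩ := hspan v
    simp only [map_add, map_smul, smul_add]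
    rw [hbasis e₁ (by simp), hbasis e₂ (by simp), hbasis e₃ (by simp), hbasis e₄ (by simp)]
    simp only [smul_comm ε]
  rcases ha x hxR with hd | hnd
  · rcases hd e₄ (by simp) with h4 | h4
    · left
      apply c.faith
      intro v
      have := hdiag 1 (by rw [h4, one_smul]) v
      rwa [one_smul] at this
    · right
      intro v
      have := hdiag (-1) (by rw [h4, neg_smul, one_smul]) v
      rwa [neg_smul, one_smul] at this
  · exfalso
    obtain ⟨hne1, hne2, -⟩ := hnd e₁ (by simp)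
    obtain ⟨e', he', hxe⟩ := hmono x e₁ (by simp)
    obtain ⟨-, d, hdR, hd1, hd2, hd3, hd4⟩ := hb
    have hnz : ∀ e ∈ ({e₁, e₂, e₃, e₄} : Set V), e ≠ 0 := by
      intro e he he0
      simp only [Set.mem_insert_iff, Set.mem_singleton_iff] at he
      rcases he with rfl | rfl | rfl | rfl
      · have := hind 1 0 0 0 (by rw [he0]; simp)
        exact one_ne_zero this.1
      · have := hind 0 1 0 0 (by rw [he0]; simp)
        exact one_ne_zero this.2.1
      · have := hind 0 0 1 0 (by rw [he0]; simp)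
        exact one_ne_zero this.2.2.1
      · have := hind 0 0 0 1 (by rw [he0]; simp)
        exact one_ne_zero this.2.2.2
    have he'0 : e' ≠ 0 := hnz e' he'
    have hd' : ∃ d' ∈ R, ρ d' e₁ = -e₁ ∧ ρ d' e' = e' := by
      simp only [Set.mem_insert_iff, Set.mem_singleton_iff] at he'
      rcases he' with rfl | rfl | rfl | rfl
      · rcases hxe with h | h
        · exact absurd h hne1
        · exact absurd h hne2
      · refine ⟨(b * b) * d * (b * b)⁻¹, c.Rn.conj_mem d hdR (b * b), ?_, ?_⟩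
        · have h1 : ρ (b * b)⁻¹ e₁ = e' := by
            have h2 : ρ (b * b) e' = e₁ := by rw [hmul, hb2, hb3]
            rw [← h2, hinv]
          rw [hmul, hmul, h1, hd2, map_neg, hmul, hb2, hb3]
        · have h1 : ρ (b * b)⁻¹ e' = e₃ := by
            have h2 : ρ (b * b) e₃ = e' := by rw [hmul, hb3, hb1]
            rw [← h2, hinv]
          rw [hmul, hmul, h1, hd3, hmul, hb3, hb1]
      · exact ⟨d, hdR, hd1, hd3⟩
      · exact ⟨d, hdR, hd1, hd4⟩
    obtain ⟨d', hd'R, hd'1, hd'e⟩ := hd'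
    have h1 : ρ x (ρ d' e₁) = ρ d' (ρ x e₁) := by
      rw [← hmul, ← hmul, hcen d' hd'R]
    rw [hd'1, map_neg] at h1
    rcases hxe with h2 | h2
    · rw [h2, hd'e] at h1
      exact m4e_neg_ne_self he'0 h1.symm
    · rw [h2, map_neg, hd'e, neg_neg] at h1
      exact m4e_neg_ne_self he'0 h1

end Cfsg.Agent.Helper84.N15
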