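import Mathlib
import Cfsg.Agent.Helper96.OHDefs
import Cfsg.Agent.Helper69.ODDefs
import Cfsg.Agent.Helper84.OTSBADAB
import Cfsg.Agent.Helper43.PrimeOrdO2

set_option autoImplicit false
set_option linter.unusedSectionVars false
set_option linter.unusedVariables false

/-!
# CALL OD (helper69, rows S5989 + S5991), piece DBADP (helper84, double)

Twin of OBAD (my `Cfsg/Agent/Helper84/OHOBAD.lean` route: `oexists_plus` gives an isometry with
characteristic polynomial `psi r c₀ cfun`; its fixed space has dimension `c₀` by the root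
multiplicity of `1` and `c3o_fixdim`).
-/

namespace Cfsg.Agent.Helper84.OD59

open Module Polynomial Cfsg Cfsg.Geo
open Cfsg.Agent.Helper13.TIu Cfsg.Agent.Helper96.OH Cfsg.Agent.Helper69.OD
open scoped MatrixGroups

variable {F : Type*} [Field F]

/-- an element of order `r` of the plus-type orthogonal group with prescribed
characteristic polynomial `psi r c₀ cfun` has fixed space of dimension exactly `c₀` -/
theorem odbadp_key [Fintype F] (p : ℕ) [Fact p.Prime] [CharP F p]
    (h2 : (2 : F) ≠ 0) (r : ℕ) [Fact r.Prime] (hr2 : r ≠ 2) (hrp : r ≠ p) (d c₀ : ℕ) (hd : 1 ≤ d)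
    (cfun : F[X] → ℕ)
    (hsym : ∀ P ∈ Cfsg.Agent.Helper43.CycFactors.cycJ F r,
      cfun (Cfsg.Agent.Helper43.SpReal.star P) = cfun P)
    (hnz : ∃ P ∈ Cfsg.Agent.Helper43.CycFactors.cycJ F r, cfun P ≠ 0)
    (hdeg : c₀ + orderOf ((Fintype.card F : ℕ) : ZMod r) *
      ∑ P ∈ Cfsg.Agent.Helper43.CycFactors.cycJ F r, cfun P = 2 * d)
    (hcond : Odd (orderOf ((Fintype.card F : ℕ) : ZMod r)) ∨ 0 < c₀ ∨
      Even (∑ P ∈ Cfsg.Agent.Helper43.CycFactors.cycJ F r, cfun P)) :
    ∃ g : Matrix.GeneralLinearGroup (Fin d ⊕ Fin d) F,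
      g ∈ Cfsg.isometryGroup F (Cfsg.quadFormPlus d F) ∧ orderOf g = r ∧
      finrank F (LinearMap.ker (Matrix.toLin'
        (g : Matrix (Fin d ⊕ Fin d) (Fin d ⊕ Fin d) F) - 1)) = c₀ := by
  have hr : r.Prime := Fact.out
  have hrF : (r : F) ≠ 0 := Cfsg.Agent.Helper43.CycFactors.natCast_ne_zero_of_ne (p := p) hr hrp
  obtain ⟨g, hg, hch⟩ := Cfsg.Agent.Helper43.PrimeOrdO.oexists_plus (p := p)
    (rfl : Fintype.card F = Fintype.card F) hd hr hr2 hrp c₀ cfun hsym hnz hdeg hcond
  refine ⟨(g : Matrix.GeneralLinearGroup (Fin d ⊕ Fin d) F), g.2, ?_, ?_⟩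
  · rw [Subgroup.orderOf_coe]
    exact hg
  · apply le_antisymm
    · have h1 := LinearMap.finrank_eigenspace_le (Matrix.toLin'
        ((g : Matrix.GeneralLinearGroup (Fin d ⊕ Fin d) F) :
          Matrix (Fin d ⊕ Fin d) (Fin d ⊕ Fin d) F)) (1 : F)
      rw [Matrix.charpoly_toLin', hch, Cfsg.Agent.Helper84.OTS.obadab_rootmult hr hrF] at h1
      have h2' : Module.End.eigenspace (Matrix.toLin'
          ((g : Matrix.GeneralLinearGroup (Fin d ⊕ Fin d) F) :
            Matrix (Fin d ⊕ Fin d) (Fin d ⊕ Fin d) F)) (1 : F) =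
          LinearMap.ker (Matrix.toLin'
          ((g : Matrix.GeneralLinearGroup (Fin d ⊕ Fin d) F) :
            Matrix (Fin d ⊕ Fin d) (Fin d ⊕ Fin d) F) - 1) := by
        ext v
        rw [Module.End.mem_eigenspace_iff, LinearMap.mem_ker, LinearMap.sub_apply, sub_eq_zero,
          one_smul]
        rfl
      rw [h2'] at h1
      exact h1
    · have h3 : g ^ r = 1 := by
        rw [← hg]
        exact pow_orderOf_eq_one g
      have hM : (((g : Matrix.GeneralLinearGroup (Fin d ⊕ Fin d) F) :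
          Matrix (Fin d ⊕ Fin d) (Fin d ⊕ Fin d) F)) ^ r = 1 := by
        have h4 := congrArg (fun x : ↥(Cfsg.isometryGroup F (Cfsg.quadFormPlus d F)) =>
          ((x : Matrix.GeneralLinearGroup (Fin d ⊕ Fin d) F) :
            Matrix (Fin d ⊕ Fin d) (Fin d ⊕ Fin d) F)) h3
        simpa using h4
      exact Cfsg.Agent.Helper11.c3o_fixdim p hr hrp _ hM c₀ cfun hch

/-- DBADP -/
theorem od_bad_plus [Fintype F] (p : ℕ) [Fact p.Prime] [CharP F p] (h2 : (2 : F) ≠ 0) (d : ℕ)
    (r : ℕ) [Fact r.Prime] (hr2 : 2 < r) (hrp : r ≠ p) (i c : ℕ)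
    (hi : i = orderOf ((Fintype.card F : ℕ) : ZMod r)) (hc : c = if Even i then i else 2 * i)
    (hcn : c ≤ 2 * d) (hcond : 0 < (2 * d) % c ∨ Odd i ∨ Even ((2 * d) / i)) :
    ∃ g : GL (Fin d ⊕ Fin d) F, g ∈ Cfsg.isometryGroup F (Cfsg.quadFormPlus d F) ∧ orderOf g = r ∧
      finrank F (LinearMap.ker (Matrix.toLin'
        (g : Matrix (Fin d ⊕ Fin d) (Fin d ⊕ Fin d) F) - 1)) = (2 * d) % c := by
  classical
  have hr : r.Prime := Fact.out
  have hrF : (r : F) ≠ 0 := Cfsg.Agent.Helper43.CycFactors.natCast_ne_zero_of_ne (p := p) hr hrp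
  have hipos : 0 < i := by
    rw [hi]
    exact Cfsg.Agent.Helper43.CycFactors.orderOf_pos_of_card (p := p)
      (rfl : Fintype.card F = Fintype.card F) hr hrp
  have hcpos : 0 < c := by
    rw [hc]
    split_ifs <;> omega
  have hρ : 0 < (2 * d) / c := Nat.div_pos hcn hcpos
  have hdm : (2 * d) % c + c * ((2 * d) / c) = 2 * d := Nat.mod_add_div _ _
  have hcard := Cfsg.Agent.Helper43.CycFactors.cycJ_card_mul (p := p)
    (rfl : Fintype.card F = Fintype.card F) hr hrp
  have hne : (Cfsg.Agent.Helper43.CycFactors.cycJ F r).Nonempty := by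
    rw [Finset.nonempty_iff_ne_empty]
    intro h
    rw [h, Finset.card_empty, zero_mul] at hcard
    omega
  obtain ⟨P₀, hP₀⟩ := hne
  have hd1 : 1 ≤ d := by omega
  have hr2' : r ≠ 2 := by omega
  by_cases hev : Even i
  · rw [if_pos hev] at hc
    refine odbadp_key p h2 r hr2' hrp d _ hd1 (fun P => if P = P₀ then (2 * d) / c else 0) ?_
      ⟨P₀, hP₀, ?_⟩ ?_ ?_
    · intro P hP
      show (if Cfsg.Agent.Helper43.SpReal.star P = P₀ then (2 * d) / c else 0) =
        if P = P₀ then (2 * d) / c else 0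
      rw [Cfsg.Agent.Helper43.StarPoly.star_eq_self_of_even (p := p)
        (rfl : Fintype.card F = Fintype.card F) hr hrp (hi ▸ hev) hP]
    · show (if P₀ = P₀ then (2 * d) / c else 0) ≠ 0
      rw [if_pos rfl]
      exact Nat.pos_iff_ne_zero.mp hρ
    · rw [Finset.sum_ite_eq', if_pos hP₀, ← hi, ← hc]
      exact hdm
    · rw [Finset.sum_ite_eq', if_pos hP₀, ← hi]
      rcases hcond with h | h | h
      · exact Or.inr (Or.inl h)
      · exact Or.inl h
      · right; right
        rw [hc]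
        exact h
  · rw [if_neg hev] at hc
    have hP₀' := Cfsg.Agent.Helper43.CycFactors.mem_cycJ.mp hP₀
    have hsP₀ : Cfsg.Agent.Helper43.SpReal.star P₀ ∈ Cfsg.Agent.Helper43.CycFactors.cycJ F r :=
      Cfsg.Agent.Helper43.StarPoly.star_mem_cycJ hr hrF hP₀
    have hss₀ : Cfsg.Agent.Helper43.SpReal.star (Cfsg.Agent.Helper43.SpReal.star P₀) = P₀ :=
      Cfsg.Agent.Helper43.StarPoly.star_star hP₀'.1
        (Cfsg.Agent.Helper43.StarPoly.coeff_zero_ne_of_mem hr hP₀)
    refine odbadp_key p h2 r hr2' hrp d _ hd1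
      (fun P => (if P = P₀ then (2 * d) / c else 0) +
        (if P = Cfsg.Agent.Helper43.SpReal.star P₀ then (2 * d) / c else 0)) ?_
      ⟨P₀, hP₀, ?_⟩ ?_ ?_
    · intro P hP
      have hP' := Cfsg.Agent.Helper43.CycFactors.mem_cycJ.mp hP
      have hss : Cfsg.Agent.Helper43.SpReal.star (Cfsg.Agent.Helper43.SpReal.star P) = P :=
        Cfsg.Agent.Helper43.StarPoly.star_star hP'.1
          (Cfsg.Agent.Helper43.StarPoly.coeff_zero_ne_of_mem hr hP)
      have e1 : Cfsg.Agent.Helper43.SpReal.star P = P₀ ↔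
          P = Cfsg.Agent.Helper43.SpReal.star P₀ := by
        constructor
        · intro h
          rw [← h, hss]
        · intro h
          rw [h, hss₀]
      have e2 : Cfsg.Agent.Helper43.SpReal.star P = Cfsg.Agent.Helper43.SpReal.star P₀ ↔
          P = P₀ := by
        constructor
        · intro h
          rw [← hss, h, hss₀]
        · intro h
          rw [h]
      show (if Cfsg.Agent.Helper43.SpReal.star P = P₀ then (2 * d) / c else 0) +
        (if Cfsg.Agent.Helper43.SpReal.star P = Cfsg.Agent.Helper43.SpReal.star P₀ then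
          (2 * d) / c else 0) = (if P = P₀ then (2 * d) / c else 0) +
        (if P = Cfsg.Agent.Helper43.SpReal.star P₀ then (2 * d) / c else 0)
      rw [if_congr e1 rfl rfl, if_congr e2 rfl rfl, add_comm]
    · show (if P₀ = P₀ then (2 * d) / c else 0) +
        (if P₀ = Cfsg.Agent.Helper43.SpReal.star P₀ then (2 * d) / c else 0) ≠ 0
      rw [if_pos rfl]
      intro h
      exact (Nat.pos_iff_ne_zero.mp hρ) (Nat.add_eq_zero_iff.mp h).1
    · rw [Finset.sum_add_distrib, Finset.sum_ite_eq', Finset.sum_ite_eq', if_pos hP₀,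
        if_pos hsP₀, ← hi]
      have h3 : i * ((2 * d) / c + (2 * d) / c) = c * ((2 * d) / c) := by
        rw [hc]
        ring
      rw [h3]
      exact hdm
    · left
      rw [← hi]
      exact Nat.not_even_iff_odd.mp hev

end Cfsg.Agent.Helper84.OD59
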