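import Mathlib

/-!
# A complement to the fixed points of a group of automorphisms (helper84)

Let `A` be a finite group of automorphisms of a finite commutative `p`-group `M` and `P₀` a subgroup whose index in
`A` is prime to `p`. The trace map over the cosets of `P₀` shows that the fixed points of `A` have a complement in
the fixed points of `P₀`.
-/

set_option autoImplicit false

namespace Cfsg.Agent.Helper84

/-- The fixed points of `A` are complemented in the fixed points of `P₀` (element form): there is a subgroup `K`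
of `P₀`-fixed points meeting the `A`-fixed points trivially such that every `P₀`-fixed point is the product of an
`A`-fixed point and an element of `K`. -/
theorem exists_compl_fixed {M : Type*} [CommGroup M] [Finite M] (p : ℕ) [Fact p.Prime]
    (hM : IsPGroup p M) (A P₀ : Subgroup (MulAut M)) [Finite A] (hPA : P₀ ≤ A)
    (hidx : ¬ p ∣ (P₀.subgroupOf A).index) :
    ∃ K : Subgroup M, (∀ x ∈ K, ∀ a ∈ P₀, a x = x) ∧ (∀ x ∈ K, (∀ a ∈ A, a x = x) → x = 1) ∧
      ∀ x : M, (∀ a ∈ P₀, a x = x) → ∃ y k : M, (∀ a ∈ A, a y = y) ∧ k ∈ K ∧ x = y * k := by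
  classical
  let _ : Fintype (↥A ⧸ P₀.subgroupOf A) := Fintype.ofFinite _
  let T : M →* M := ∏ q : ↥A ⧸ P₀.subgroupOf A, ((Quotient.out q : ↥A) : MulAut M).toMonoidHom
  have hT : ∀ x : M, T x = ∏ q : ↥A ⧸ P₀.subgroupOf A, ((Quotient.out q : ↥A) : MulAut M) x := by
    intro x
    simp [T]
  have c1 : ∀ x : M, (∀ a ∈ P₀, a x = x) → ∀ a ∈ A, a (T x) = T x := by
    intro x hx a ha
    rw [hT, map_prod]
    let σ : (↥A ⧸ P₀.subgroupOf A) ≃ (↥A ⧸ P₀.subgroupOf A) := MulAction.toPerm (⟨a, ha⟩ : ↥A)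
    rw [← Equiv.prod_comp σ (fun q => ((Quotient.out q : ↥A) : MulAut M) x)]
    refine Finset.prod_congr rfl (fun q _ => ?_)
    have h1 : ((Quotient.out (σ q) : ↥A) : ↥A ⧸ P₀.subgroupOf A) =
        ((⟨a, ha⟩ * Quotient.out q : ↥A) : ↥A ⧸ P₀.subgroupOf A) := by
      rw [QuotientGroup.out_eq']
      show (⟨a, ha⟩ : ↥A) • q = _
      conv_lhs => rw [← QuotientGroup.out_eq' q]
      rfl
    have h2 := QuotientGroup.eq.mp h1
    have h3 : (((Quotient.out (σ q))⁻¹ * (⟨a, ha⟩ * Quotient.out q) : ↥A) : MulAut M) ∈ P₀ :=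
      Subgroup.mem_subgroupOf.mp h2
    have h4 := hx _ h3
    simp only [Subgroup.coe_mul, Subgroup.coe_inv, MulAut.mul_apply] at h4
    have h5 := congrArg (fun y => ((Quotient.out (σ q) : ↥A) : MulAut M) y) h4
    simp only [MulAut.apply_inv_self] at h5
    exact h5
  have c2 : ∀ x : M, (∀ a ∈ A, a x = x) → T x = x ^ (P₀.subgroupOf A).index := by
    intro x hx
    rw [hT]
    have h1 : ∀ q : ↥A ⧸ P₀.subgroupOf A, ((Quotient.out q : ↥A) : MulAut M) x = x :=
      fun q => hx _ (Quotient.out q).2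
    simp only [h1, Finset.prod_const, Finset.card_univ]
    rw [Subgroup.index_eq_card, Nat.card_eq_fintype_card]
  obtain ⟨n, hn⟩ := hM.exists_card_eq
  have hcop : (Nat.card M).Coprime (P₀.subgroupOf A).index := by
    rw [hn]
    exact Nat.Coprime.pow_left n ((Nat.Prime.coprime_iff_not_dvd (Fact.out : p.Prime)).2 hidx)
  have hbij := hcop.pow_left_bijective (G := M)
  refine ⟨{ carrier := {x | (∀ a ∈ P₀, a x = x) ∧ T x = 1}
            mul_mem' := ?_
            one_mem' := ?_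
            inv_mem' := ?_ }, ?_, ?_, ?_⟩
  · rintro x y ⟨hx1, hx2⟩ ⟨hy1, hy2⟩
    refine ⟨fun a ha => ?_, ?_⟩
    · rw [map_mul, hx1 a ha, hy1 a ha]
    · rw [map_mul, hx2, hy2, one_mul]
  · exact ⟨fun a _ => map_one a, map_one T⟩
  · rintro x ⟨hx1, hx2⟩
    refine ⟨fun a ha => ?_, ?_⟩
    · rw [map_inv, hx1 a ha]
    · rw [map_inv, hx2, inv_one]
  · rintro x ⟨hx1, -⟩ a ha
    exact hx1 a ha
  · rintro x ⟨-, hx2⟩ hxA
    have h1 := c2 x hxA
    rw [hx2] at h1
    apply hbij.1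
    show x ^ (P₀.subgroupOf A).index = 1 ^ (P₀.subgroupOf A).index
    rw [one_pow, ← h1]
  · intro x hx
    obtain ⟨y, hy⟩ := hbij.2 (T x)
    have hy' : y ^ (P₀.subgroupOf A).index = T x := hy
    have hyA : ∀ a ∈ A, a y = y := by
      intro a ha
      apply hbij.1
      show (a y) ^ (P₀.subgroupOf A).index = y ^ (P₀.subgroupOf A).index
      rw [← map_pow, hy', c1 x hx a ha]
    refine ⟨y, y⁻¹ * x, hyA, ⟨fun a ha => ?_, ?_⟩, by rw [mul_inv_cancel_left]⟩
    · rw [map_mul, map_inv, hyA a (hPA ha), hx a ha]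
    · rw [map_mul, map_inv, c2 y hyA, hy', inv_mul_cancel]

end Cfsg.Agent.Helper84

namespace Cfsg.Agent.Helper84

/-- `exists_compl_fixed` for a group with a commutativity hypothesis instead of a `CommGroup` instance. -/
theorem exists_compl_fixed' {M : Type*} [Group M] [Finite M] (p : ℕ) [Fact p.Prime]
    (hcomm : ∀ a b : M, a * b = b * a)
    (hM : IsPGroup p M) (A P₀ : Subgroup (MulAut M)) [Finite A] (hPA : P₀ ≤ A)
    (hidx : ¬ p ∣ (P₀.subgroupOf A).index) :
    ∃ K : Subgroup M, (∀ x ∈ K, ∀ a ∈ P₀, a x = x) ∧ (∀ x ∈ K, (∀ a ∈ A, a x = x) → x = 1) ∧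
      ∀ x : M, (∀ a ∈ P₀, a x = x) → ∃ y k : M, (∀ a ∈ A, a y = y) ∧ k ∈ K ∧ x = y * k := by
  let _ : CommGroup M := { ‹Group M› with mul_comm := hcomm }
  exact exists_compl_fixed p hM A P₀ hPA hidx

end Cfsg.Agent.Helper84
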